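import Cfsg.Agent.Class.Four.Lift
import Cfsg.Agent.Mit.Groups
import Cfsg.Agent.S2116

/-!
# The four-dimensional projective representations of `A₇`
-/

set_option autoImplicit false

namespace Cfsg.Lib.Four

open Matrix Cfsg.Geo Cfsg.Lib.Class Cfsg.Lib.Class.Asch Cfsg.Lib.Mit
open scoped MatrixGroups

universe u

namespace Lift

open Equiv Equiv.Perm

theorem ct_cases (s : Multiset ℕ) (h2 : ∀ m ∈ s, 2 ≤ m) (h7 : s.sum ≤ 7)
    (he : Even (s.sum + s.card)) :
    s = 0 ∨ s = {2, 2} ∨ s = {3} ∨ s = {3, 3} ∨ s = {4, 2} ∨ s = {5} ∨ s = {2, 2, 3} ∨ s = {7} := by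
  have h1 := Multiset.card_nsmul_le_sum h2
  rw [smul_eq_mul] at h1
  obtain h | h | h | h : s.card = 0 ∨ s.card = 1 ∨ s.card = 2 ∨ s.card = 3 := by omega
  · exact .inl (Multiset.card_eq_zero.1 h)
  · obtain ⟨a, rfl⟩ := Multiset.card_eq_one.1 h
    have ha := h2 a (by simp)
    simp only [Multiset.sum_singleton] at h7
    revert he
    interval_cases a <;> decide
  · obtain ⟨a, b, rfl⟩ := Multiset.card_eq_two.1 h
    have ha := h2 a (by simp)
    have hb := h2 b (by simp)
    simp only [Multiset.insert_eq_cons, Multiset.sum_cons, Multiset.sum_singleton] at h7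
    have : a ≤ 5 := by omega
    have : b ≤ 5 := by omega
    revert he h7
    interval_cases a <;> interval_cases b <;> decide
  · obtain ⟨a, b, c, rfl⟩ := Multiset.card_eq_three.1 h
    have ha := h2 a (by simp)
    have hb := h2 b (by simp)
    have hc := h2 c (by simp)
    simp only [Multiset.insert_eq_cons, Multiset.sum_cons, Multiset.sum_singleton] at h7
    have : a ≤ 3 := by omega
    have : b ≤ 3 := by omega
    have : c ≤ 3 := by omega
    revert he h7
    interval_cases a <;> interval_cases b <;> interval_cases c <;> decide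

abbrev A7 := alternatingGroup (Fin 7)

theorem alt7_ct (g : A7) : g.1.cycleType = 0 ∨ g.1.cycleType = {2, 2} ∨ g.1.cycleType = {3} ∨
    g.1.cycleType = {3, 3} ∨ g.1.cycleType = {4, 2} ∨ g.1.cycleType = {5} ∨
    g.1.cycleType = {2, 2, 3} ∨ g.1.cycleType = {7} := by
  refine ct_cases _ (fun m => two_le_of_mem_cycleType) ?_ ?_
  · rw [sum_cycleType]
    exact (Finset.card_le_univ _).trans_eq (Fintype.card_fin 7)
  · have h := mem_alternatingGroup.1 g.2
    rwa [sign_of_cycleType, neg_one_pow_eq_one_iff_even (by decide)] at h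

theorem alt7_conj {r g : A7} (τ : Perm (Fin 7)) (h : sign τ = -1) (hc : τ * r = r * τ)
    (e : r.1.cycleType = g.1.cycleType) : IsConj r g := by
  obtain ⟨k, hk⟩ := isConj_iff.1 (isConj_iff_cycleType_eq.2 e)
  rcases Int.units_eq_one_or (sign k) with h1 | h1
  · exact isConj_iff.2 ⟨⟨k, h1⟩, Subtype.ext hk⟩
  · refine isConj_iff.2 ⟨⟨k * τ, mem_alternatingGroup.2 (by simp [h, h1])⟩, Subtype.ext ?_⟩
    change k * τ * r * (k * τ)⁻¹ = g.1
    rw [← hk, mul_assoc k, hc]; group

def r2 : A7 := ⟨swap 3 4 * swap 5 6, mem_alternatingGroup.2 (by decide)⟩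
def r3 : A7 := ⟨swap 0 1 * swap 0 2, mem_alternatingGroup.2 (by decide)⟩
def r33 : A7 := ⟨swap 0 1 * swap 0 2 * (swap 3 4 * swap 3 5), mem_alternatingGroup.2 (by decide)⟩
def r4 : A7 := ⟨swap 0 1 * swap 1 2 * swap 2 3 * swap 4 5, mem_alternatingGroup.2 (by decide)⟩
def r5 : A7 := ⟨swap 0 1 * swap 1 2 * swap 2 3 * swap 3 4, mem_alternatingGroup.2 (by decide)⟩
def r6 : A7 := ⟨swap 0 1 * swap 2 3 * (swap 4 5 * swap 5 6), mem_alternatingGroup.2 (by decide)⟩

theorem conj2 {g : A7} (h : g.1.cycleType = {2, 2}) : IsConj r2 g :=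
  alt7_conj (swap 3 4) (by decide) (by decide +kernel) (.trans (by decide +kernel) h.symm)

theorem conj3 {g : A7} (h : g.1.cycleType = {3}) : IsConj r3 g :=
  alt7_conj (swap 3 4) (by decide) (by decide +kernel) (.trans (by decide +kernel) h.symm)

theorem conj33 {g : A7} (h : g.1.cycleType = {3, 3}) : IsConj r33 g :=
  alt7_conj (swap 0 3 * swap 1 4 * swap 2 5) (by decide) (by decide +kernel)
    (.trans (by decide +kernel) h.symm)

theorem conj4 {g : A7} (h : g.1.cycleType = {4, 2}) : IsConj r4 g :=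
  alt7_conj (swap 4 5) (by decide) (by decide +kernel) (.trans (by decide +kernel) h.symm)

theorem conj5 {g : A7} (h : g.1.cycleType = {5}) : IsConj r5 g :=
  alt7_conj (swap 5 6) (by decide) (by decide +kernel) (.trans (by decide +kernel) h.symm)

theorem conj6 {g : A7} (h : g.1.cycleType = {2, 2, 3}) : IsConj r6 g :=
  alt7_conj (swap 0 1) (by decide) (by decide +kernel) (.trans (by decide +kernel) h.symm)

theorem ct_two {g : A7} (h : g * g = 1) (h1 : g ≠ 1) : g.1.cycleType = {2, 2} := by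
  have := Fact.mk Nat.prime_two
  have h2 : ∀ m ∈ g.1.cycleType, m = 2 :=
    pow_prime_eq_one_iff.1 ((pow_two _).trans (congrArg Subtype.val h))
  rcases alt7_ct g with e | e | e | e | e | e | e | e
  · exact absurd (Subtype.ext (cycleType_eq_zero.1 e)) h1
  · exact e
  all_goals exact absurd (e ▸ h2) (by decide)

theorem alt7_oneInv : OneInv A7 := fun _ _ ha ha1 hb hb1 =>
  (conj2 (ct_two ha ha1)).symm.trans (conj2 (ct_two hb hb1))

theorem alt7_gen4 (K : Subgroup A7) (ha : r2 ∈ K) (hb : r4 ∈ K) : K = ⊤ := by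
  have h1 : MulAction.IsPretransitive (K.map (alternatingGroup (Fin 7)).subtype) (Fin 7) :=
    ⟨fun x y => by
      obtain ⟨i, hi⟩ : ∃ i : Fin 7, ((swap 3 4 * swap 5 6 * (swap 0 1 * swap 1 2 * swap 2 3 *
        swap 4 5) : Perm (Fin 7)) ^ (i : ℕ)) x = y := by revert x y; decide +kernel
      exact ⟨⟨_, _, pow_mem (mul_mem ha hb) i, rfl⟩, hi⟩⟩
  have h2 := alternatingGroup_le_of_isPreprimitive_of_isThreeCycle_mem
    (MulAction.IsPreprimitive.of_prime_card (G := K.map (alternatingGroup (Fin 7)).subtype)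
      (by simp; norm_num))
    (isThreeCycle_swap_mul_swap_same (a := 1) (b := 4) (c := 3) (by decide) (by decide) (by decide))
    ⟨_, pow_mem (mul_mem (mul_mem ha hb) hb) 2, by decide +kernel⟩
  refine eq_top_iff.2 fun g _ => ?_
  obtain ⟨k, hk, e⟩ := h2 g.2
  exact Subtype.ext e ▸ hk

theorem seven_of_ct {g : A7} (h : g.1.cycleType = {7}) : g ^ 7 = 1 ∧ IsConj g (g ^ 2) := by
  have h1 : orderOf g = 7 := by
    rw [← Subgroup.orderOf_coe, ← lcm_cycleType, h]; rfl
  rcases alt7_cases g with e | ⟨e, -⟩ | e | e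
  iterate 3 exact absurd (h1 ▸ orderOf_dvd_of_pow_eq_one e) (by norm_num)
  exact e

variable {F : Type*} [Field F] {P : Subgroup (GL (Fin 4) F)} {π : P →* A7}

theorem alt7_good (p : ℕ) [Fact p.Prime] [CharP F p] (h : Cv π) (x : P) :
    Rat p x.1 ∨ Sev x.1 := by
  rcases alt7_ct (π x) with e | e | e | e | e | e | e | e
  · exact .inl (h.good_two (by
      rw [show π x = 1 from Subtype.ext (cycleType_eq_zero.1 e), one_mul]) x rfl)
  · exact .inl (h.good_conj (h.good_two (by decide +kernel)) (conj2 e) x rfl)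
  · exact .inl (h.good_conj (h.good_three (by decide +kernel) (conj3 (by decide +kernel)))
      (conj3 e) x rfl)
  · exact .inl (h.good_conj (h.good_three (by decide +kernel) (conj33 (by decide +kernel)))
      (conj33 e) x rfl)
  · exact .inl (h.good_conj (h.good_four alt7_oneInv
      (w := ⟨swap 1 3 * swap 4 5, mem_alternatingGroup.2 (by decide)⟩) (t := r2) (by decide +kernel)
      (by decide +kernel) (by decide +kernel) (by decide +kernel) (by decide +kernel) alt7_gen4)
      (conj4 e) x rfl)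
  · exact .inl (h.good_conj (h.good_five (by decide +kernel) (conj5 (by decide +kernel)))
      (conj5 e) x rfl)
  · exact .inl (h.good_conj (h.good_six alt7_oneInv
      (w := ⟨swap 0 1 * swap 5 6, mem_alternatingGroup.2 (by decide)⟩)
      (t := ⟨swap 0 2 * swap 1 3, mem_alternatingGroup.2 (by decide)⟩) (by decide +kernel)
      (by decide +kernel) (by decide +kernel) (by decide +kernel) (by decide +kernel)
      (by decide +kernel) (by decide +kernel) (by decide +kernel) (by decide +kernel))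
      (conj6 e) x rfl)
  · exact .inr (h.sev (seven_of_ct e).1 (seven_of_ct e).2)

end Lift

open Lift in
theorem wA7 : WA7.{u} := fun F _ _ P h ⟨e⟩ => by
  obtain ⟨p, hpF⟩ := CharP.exists F
  have hp : Fact p.Prime := ⟨CharP.char_is_prime F p⟩
  have h1 := (cv_of_mult h.qs (proj_bar4 P) e (by norm_num)
    (Cfsg.Agent.S2116.result 7 (.inr rfl))).comp e
  rcases out_of_rat h.qs.env_top h.ns fun x hx => alt7_good p h1 ⟨x, hx⟩ with h2 | h2 | h2
  exacts [.inl h2, .inr (.inl h2), .inr (.inr ⟨p, hp.out, hpF, .inl ⟨⟨e⟩, h2.2⟩⟩)]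

end Cfsg.Lib.Four
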