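import Cfsg.Agent.Class.Four.H4
import Cfsg.Agent.Class.Five.L3Lin
import Cfsg.Agent.Trans.SylowIn

/-!
# The Sylow subgroups for the characteristic are abelian
-/

set_option autoImplicit false

namespace Cfsg.Lib.Four

open Matrix Cfsg.Geo Cfsg.Lib.Class Cfsg.Lib.Class.Asch Cfsg.Lib.Mit
open scoped MatrixGroups commutatorElement

universe u

namespace Ab

variable {K : Type*} [Field K] {x y z : Matrix (Fin 4) (Fin 4) K}

/-- Upper unitriangular matrices. -/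
def Ut (x : Matrix (Fin 4) (Fin 4) K) : Prop := x.BlockTriangular id ∧ ∀ i, x i i = 1

theorem Ut.eq (h : Ut x) : ∃ a b c d e f : K, x = !![1, a, d, f; 0, 1, b, e; 0, 0, 1, c; 0, 0, 0, 1] :=
  ⟨x 0 1, x 1 2, x 2 3, x 0 2, x 1 3, x 0 3, by
    ext i j
    fin_cases i <;> fin_cases j <;> first | rfl | exact h.2 _ | exact h.1 (by decide)⟩

theorem comm_ent (ux : Ut x) (uy : Ut y) (uz : Ut z) (e : x * y = z * (y * x)) :
    z 0 1 = 0 ∧ z 1 2 = 0 ∧ z 2 3 = 0 ∧ z 0 2 = x 0 1 * y 1 2 - y 0 1 * x 1 2 ∧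
      z 1 3 = x 1 2 * y 2 3 - y 1 2 * x 2 3 := by
  obtain ⟨_, _, _, _, _, _, rfl⟩ := ux.eq
  obtain ⟨_, _, _, _, _, _, rfl⟩ := uy.eq
  obtain ⟨_, _, _, _, _, _, rfl⟩ := uz.eq
  have e1 := congrFun₂ e 0 1
  have e2 := congrFun₂ e 1 2
  have e3 := congrFun₂ e 2 3
  have e4 := congrFun₂ e 0 2
  have e5 := congrFun₂ e 1 3
  simp [mul_apply, Fin.sum_univ_four] at e1 e2 e3 e4 e5 ⊢
  grind

theorem cent_ent (ux : Ut x) (uz : Ut z) (e : z * x = x * z) (h1 : z 0 1 = 0) (h2 : z 1 2 = 0)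
    (h3 : z 2 3 = 0) : x 0 1 * z 1 3 = z 0 2 * x 2 3 := by
  obtain ⟨_, _, _, _, _, _, rfl⟩ := ux.eq
  obtain ⟨_, _, _, _, _, _, rfl⟩ := uz.eq
  have e1 := congrFun₂ e 0 3
  simp [mul_apply, Fin.sum_univ_four] at e1 h1 h2 h3 ⊢
  grind

theorem rank_ent (uz : Ut z) (h1 : z 0 1 = 0) (h2 : z 1 2 = 0) (h3 : z 2 3 = 0)
    (h : z 0 2 = 0 ∨ z 1 3 = 0) : ∃ v f : Fin 4 → K, f ⬝ᵥ v = 0 ∧ z = 1 + vecMulVec v f := by
  obtain ⟨_, _, _, d, e, f, rfl⟩ := uz.eq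
  simp at h1 h2 h3 h
  subst h1 h2 h3
  rcases h with rfl | rfl
  · exact ⟨![f, e, 0, 0], ![0, 0, 0, 1], by simp, by
      ext i j; fin_cases i <;> fin_cases j <;> simp⟩
  · exact ⟨![1, 0, 0, 0], ![0, 0, d, f], by simp, by
      ext i j; fin_cases i <;> fin_cases j <;> simp⟩

theorem comm_of_ut (h2 : (2 : K) ≠ 0) {P : Subgroup (GL (Fin 4) K)} (hu : ∀ a ∈ P, Ut a.1)
    (hP : ∀ a ∈ P, ¬ IsTv a) {a b : GL (Fin 4) K} (ha : a ∈ P) (hb : b ∈ P) : a * b = b * a := by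
  have m : ∀ a ∈ P, ∀ b ∈ P, ⁅a, b⁆ ∈ P := fun a ha b hb =>
    mul_mem (mul_mem (mul_mem ha hb) (inv_mem ha)) (inv_mem hb)
  have k := fun a ha b hb => comm_ent (hu a ha) (hu b hb) (hu _ (m a ha b hb)) (by
    rw [← Units.val_mul, ← Units.val_mul, ← Units.val_mul, commutatorElement_def]; congr 1; group)
  have r : ∀ a ∈ P, ∀ b ∈ P, ⁅a, b⁆.1 0 2 = 0 ∨ ⁅a, b⁆.1 1 3 = 0 → a * b = b * a :=
    fun a ha b hb h => by
      obtain ⟨h1, h2, h3, -⟩ := k a ha b hb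
      obtain ⟨v, f, h0, e⟩ := rank_ent (hu _ (m a ha b hb)) h1 h2 h3 h
      exact commutatorElement_eq_one_iff_mul_comm.1 (by_contra fun n =>
        hP _ (m a ha b hb) ⟨n, v, f, h0, Units.ext (e.trans (tv_coe h0).symm)⟩)
  obtain ⟨h1, h3, h4, h5, h6⟩ := k a ha b hb
  have c : ∀ d ∈ P, d.1 0 1 * ⁅a, b⁆.1 1 3 = ⁅a, b⁆.1 0 2 * d.1 2 3 := fun d hd =>
    cent_ent (hu d hd) (hu _ (m a ha b hb)) (congrArg Units.val (r _ (m a ha b hb) d hd (.inl (by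
      rw [(k _ (m a ha b hb) d hd).2.2.2.1, h1, h3]; ring)))) h1 h3 h4
  refine r a ha b hb (mul_eq_zero.1 (mul_left_cancel₀ h2 ?_))
  linear_combination ⁅a, b⁆.1 1 3 * h5 + ⁅a, b⁆.1 0 2 * h6 + b.1 1 2 * c a ha - a.1 1 2 * c b hb

theorem comm_of_noTv [Finite K] (h2 : (2 : K) ≠ 0) (p : ℕ) [Fact p.Prime] [CharP K p]
    {P : Subgroup (GL I4 K)} (hp : IsPGroup p P) (hP : ∀ a ∈ P, ¬ IsTv a) {a b : GL I4 K}
    (ha : a ∈ P) (hb : b ∈ P) : a * b = b * a := by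
  let e : I4 ≃ Fin 4 := finSumFinEquiv
  let φ : GL I4 K ≃* GL (Fin 4) K := Units.mapEquiv (reindexAlgEquiv K K e).toMulEquiv
  obtain ⟨g, hg⟩ := Five.L3.exists_uni p (hp.map φ.toMonoidHom)
  let ψ := φ.trans (MulAut.conj g)
  refine ψ.injective ?_
  rw [map_mul, map_mul]
  refine comm_of_ut h2 (P := P.map ψ.toMonoidHom) ?_ ?_ ⟨a, ha, rfl⟩ ⟨b, hb, rfl⟩
  · rintro _ ⟨a, ha, rfl⟩
    exact hg _ ⟨a, ha, rfl⟩
  · rintro _ ⟨a, ha, rfl⟩ h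
    obtain ⟨h1, v, f, h0, e1⟩ : IsTv (φ a) := by simpa [ψ, mul_assoc] using h.conj g⁻¹
    have h0' : (f ∘ e) ⬝ᵥ (v ∘ e) = 0 := (comp_equiv_dotProduct_comp_equiv f v e).trans h0
    refine hP a ha ⟨fun e => h1 (by simp [e]), _, _, h0', Units.ext ?_⟩
    have e2 := congrArg Units.val e1
    rw [tv_coe h0] at e2
    rw [tv_coe h0']
    ext i j
    simpa [φ, vecMulVec_apply, one_apply] using congrFun₂ e2 (e i) (e j)

end Ab

theorem wAb : WAb.{u} := fun K _ _ G _ _ ρ H p _ _ Q hQ => by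
  obtain ⟨P, hP⟩ := Trans.exists_isSylowIn (p := p) ((Q.map ρ).comap ProjGenLinGroup.mk)
  have h1 := hP.map ProjGenLinGroup.mk
  rw [Subgroup.map_comap_eq_self_of_surjective ProjGenLinGroup.mk_surjective] at h1
  have h2 := h1.eq_of_le (hQ.map ρ) h1.le le_rfl
  refine ⟨⟨fun a b => Subtype.ext (H.inj ?_)⟩⟩
  obtain ⟨u, hu, e⟩ := h2.le ⟨a, a.2, rfl⟩
  obtain ⟨v, hv, e'⟩ := h2.le ⟨b, b.2, rfl⟩
  rw [Subgroup.coe_mul, Subgroup.coe_mul, map_mul, map_mul, ← e, ← e', ← map_mul, ← map_mul,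
    Ab.comm_of_noTv H.two p hP.isPGroup (fun a ha => H.noTv a
      (Subgroup.comap_mono (Subgroup.map_le_range ρ Q) (hP.le ha))) hu hv]

end Cfsg.Lib.Four
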