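import Cfsg.Agent.Class.Four.EA
import Cfsg.Agent.Base.RedMult

/-!
# Elementary abelian subgroups and `2`-local subgroups
-/

set_option autoImplicit false

namespace Cfsg.Lib.Four

open Matrix Subgroup
open scoped MatrixGroups

universe u

variable {K : Type*} [Field K] {G : Type*} [Group G] {ρ : G →* PGL(I4, K)} {E R : Subgroup G}
  {x y : G}

namespace EA

theorem card_le_mul [Finite G] {n : ℕ} (t : Fin n → G) (h : ∀ f ∈ E, ∃ i, f * t i ∈ R) :
    Nat.card E ≤ Nat.card R * n := by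
  choose i hi using fun f : E => h f f.2
  have : Function.Injective fun f : E => ((⟨f * t (i f), hi f⟩, i f) : R × Fin n) := fun f g e => by
    have e1 : (f : G) * t (i f) = g * t (i g) := congrArg (fun z : R × Fin n => (z.1 : G)) e
    have e2 : i f = i g := congrArg Prod.snd e
    rw [e2] at e1
    exact Subtype.ext (mul_right_cancel e1)
  simpa using Nat.card_le_card_of_injective _ this

theorem norm_le {N : Subgroup G} (h : ∀ g ∈ N, ∀ r ∈ R, g * r * g⁻¹ ∈ R) :
    N ≤ normalizer (R : Set G) := fun g hg => mem_normalizer_iff.2 fun r =>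
  ⟨h g hg r, fun k => by simpa [mul_assoc] using h g⁻¹ (inv_mem hg) _ k⟩

theorem inv_eq (hE : ∀ x ∈ E, x * x = 1) (hx : x ∈ E) : x⁻¹ = x :=
  inv_eq_of_mul_eq_one_right (hE x hx)

theorem comm (hE : ∀ x ∈ E, x * x = 1) (hx : x ∈ E) (hy : y ∈ E) : x * y = y * x := by
  rw [← inv_eq hE (mul_mem hx hy), _root_.mul_inv_rev, inv_eq hE hx, inv_eq hE hy]

/-- The elements of `E` whose lifts commute with those of `x` and `y`. -/
def cmS (ρ : G →* PGL(I4, K)) (E : Subgroup G) (x y : G) : Subgroup G where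
  carrier := {e | e ∈ E ∧ Cm ρ e x ∧ Cm ρ e y}
  one_mem' := ⟨one_mem _, Cm.one _, Cm.one _⟩
  mul_mem' := fun a b => ⟨mul_mem a.1 b.1, a.2.1.mul b.2.1, a.2.2.mul b.2.2⟩
  inv_mem' := fun a => ⟨inv_mem a.1, a.2.1.inv, a.2.2.inv⟩

theorem cover (hE : ∀ x ∈ E, x * x = 1) (hx : x ∈ E) (hy : y ∈ E) (k : Ac ρ x y) :
    ∀ f ∈ E, ∃ i, f * ![1, x, y, x * y] i ∈ cmS ρ E x y := fun f hf => by
  rcases cm_or_ac (ρ := ρ) (hE x hx) (comm hE hf hx) with a | a <;>
    rcases cm_or_ac (ρ := ρ) (hE y hy) (comm hE hf hy) with b | b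
  · exact ⟨0, by simpa using ⟨hf, a, b⟩⟩
  · exact ⟨1, mul_mem hf hx, a.mul (Cm.refl x), b.mul k⟩
  · exact ⟨2, mul_mem hf hy, a.mul k.symm, b.mul (Cm.refl y)⟩
  · exact ⟨3, mul_mem hf (mul_mem hx hy), a.mul ((Cm.refl x).mul_ac k.symm),
      b.mul (k.mul_cm (Cm.refl y))⟩

theorem sgn (h2 : (2 : K) ≠ 0) {a a' b b' : K} (ha : a = 1 ∨ a = -1) (ha' : a' = 1 ∨ a' = -1)
    (hb : b = 1 ∨ b = -1) (hb' : b' = 1 ∨ b' = -1) (h : (a = a') = (b = b')) :
    b' = a * b * a' := by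
  have n : (-1 : K) ≠ 1 := fun e => h2 (by linear_combination -e)
  rcases ha with rfl | rfl <;> rcases ha' with rfl | rfl <;> rcases hb with rfl | rfl <;>
    rcases hb' with rfl | rfl <;> simp [n, n.symm] at h ⊢

/-- The normaliser of an elementary group of order at most four is solvable. -/
theorem solv_norm [Finite G] (hS : SolAll G) (hR : ∀ x ∈ R, x * x = 1) (h0 : R ≠ ⊥)
    (h4 : Nat.card R ≤ 4) : Group.IsSolvable (normalizer (R : Set G)) := by
  obtain ⟨⟨t, ht⟩, t1⟩ := ne_bot_iff_exists_ne_one.1 h0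
  have := hS t (hR t ht) fun e => t1 (Subtype.ext e)
  have := Base.isSolvable_perm_of_card_le h4
  have : Group.IsSolvable (MulAut R) :=
    Group.isSolvable_of_isSolvable_injective (f := MulAut.toPerm R) fun a b e =>
      MulEquiv.toEquiv_injective e
  have le : centralizer (R : Set G) ≤ Cn t := centralizer_le (Set.singleton_subset_iff.2 ht)
  have : Group.IsSolvable (centralizer (R : Set G)) :=
    Group.isSolvable_of_isSolvable_injective (inclusion_injective le)
  refine Group.isSolvable_of_ker_le_range (inclusion (centralizer_le_normalizer _))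
    R.normalizerMonoidHom ?_
  rw [normalizerMonoidHom_ker, inclusion_range]

/-- The involutions in the centre of a `2`-group. -/
theorem exists_omega [Finite G] {T : Subgroup G} (hT : IsPGroup 2 T) (h0 : T ≠ ⊥) :
    ∃ E ≤ T, E ≠ ⊥ ∧ (∀ x ∈ E, x * x = 1) ∧
      normalizer (T : Set G) ≤ normalizer (E : Set G) := by
  let E : Subgroup G :=
    { carrier := {z | z ∈ T ∧ (∀ s ∈ T, s * z = z * s) ∧ z * z = 1}
      one_mem' := ⟨one_mem _, by simp, by simp⟩
      mul_mem' := fun {a b} ha hb => ⟨mul_mem ha.1 hb.1, fun s hs => by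
        rw [← mul_assoc, ha.2.1 s hs, mul_assoc, hb.2.1 s hs, mul_assoc], by
        rw [mul_assoc, ← mul_assoc b, ha.2.1 b hb.1, mul_assoc, hb.2.2, mul_one, ha.2.2]⟩
      inv_mem' := fun {a} ha => by rwa [inv_eq_of_mul_eq_one_right ha.2.2] }
  refine ⟨E, fun z hz => hz.1, fun e => ?_, fun z hz => hz.2.2, norm_le fun g hg r hr =>
    ⟨(mem_normalizer_iff.1 hg r).1 hr.1, fun s hs => ?_, ?_⟩⟩
  · have := (nontrivial_iff_ne_bot T).2 h0
    have := hT.center_nontrivial
    obtain ⟨n, hn, hc⟩ := (hT.to_subgroup (center T)).nontrivial_iff_card.1 this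
    obtain ⟨z, hz⟩ := exists_prime_orderOf_dvd_card' (G := center T) 2
      (hc ▸ dvd_pow_self 2 hn.ne')
    have z2 : z * z = 1 := by rw [← sq, ← hz, pow_orderOf_eq_one]
    have : ((z : T) : G) ∈ E := ⟨z.1.2, fun s hs =>
      congrArg Subtype.val (mem_center_iff.1 z.2 ⟨s, hs⟩), congrArg (fun w : center T => ((w : T) : G)) z2⟩
    rw [e, mem_bot] at this
    have : z = 1 := Subtype.ext (Subtype.ext this)
    simp [this] at hz
  · have := hr.2.1 (g⁻¹ * s * g) (by
      simpa using (mem_normalizer_iff.1 (inv_mem hg) s).1 hs)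
    calc s * (g * r * g⁻¹) = g * (g⁻¹ * s * g * r) * g⁻¹ := by group
      _ = _ := by rw [this]; group
  · rw [conj_mul, hr.2.2]; simp

end EA

open EA

namespace St

variable (H : St ρ)
include H

/-- Elementary abelian groups with commuting lifts. -/
theorem elem_cm [Finite G] (hE : ∀ x ∈ E, x * x = 1) (hc : ∀ a ∈ E, ∀ b ∈ E, Cm ρ a b) :
    ∃ R ≤ E, Nat.card R ≤ 4 ∧ Nat.card E ≤ Nat.card R * 2 ∧
      normalizer (E : Set G) ≤ normalizer (R : Set G) := by
  have sq : ∀ {a b : G} {A B : M4 K}, a ∈ E → b ∈ E → Lf ρ a A → Lf ρ b B → A * A = 1 → B * B = 1 →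
      A * B * (A * B) = 1 := fun {a b A B} ha hb lA lB eA eB => by
    rw [Matrix.mul_assoc, ← Matrix.mul_assoc B, hc _ hb _ ha _ _ lB lA, Matrix.mul_assoc, eB,
      Matrix.mul_one, eA]
  let R : Subgroup G :=
    { carrier := {e | e ∈ E ∧ ∃ A, Lf ρ e A ∧ A * A = 1 ∧ A.det = 1}
      one_mem' := ⟨one_mem _, 1, Lf.one, by simp, by simp⟩
      mul_mem' := fun ⟨ha, A, lA, eA, dA⟩ ⟨hb, B, lB, eB, dB⟩ => ⟨mul_mem ha hb, A * B, lA.mul lB,
        sq ha hb lA lB eA eB, by rw [det_mul, dA, dB, mul_one]⟩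
      inv_mem' := fun {a} ha => by rwa [inv_eq hE ha.1] }
  refine ⟨R, fun z hz => hz.1, ?_, ?_, norm_le fun g hg r ⟨hr, A, lA, eA, dA⟩ => ?_⟩
  · choose A lA eA dA using fun r : R => r.2.2
    obtain ⟨P, d, hd⟩ := exists_diag H.two A eA fun k l => hc _ k.2.1 _ l.2.1 _ _ (lA k) (lA l)
    have pd : ∀ k, d k (.inl 0) * d k (.inl 1) * (d k (.inr 0) * d k (.inr 1)) = 1 := fun k => by
      have := congrArg det (hd k).1
      rw [det_mul, det_mul, dA, det_diagonal, mul_comm] at this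
      simpa [Fintype.prod_sum_type] using (mul_left_cancel₀ P.det_ne_zero this).symm
    have : Function.Injective fun k : R =>
        ((d k (.inl 0) = d k (.inl 1), d k (.inl 0) = d k (.inr 0)) : Prop × Prop) := fun k l e => by
      have e1 := sgn H.two ((hd k).2 _) ((hd k).2 _) ((hd l).2 _) ((hd l).2 _) (congrArg Prod.fst e)
      have e2 := sgn H.two ((hd k).2 _) ((hd k).2 _) ((hd l).2 _) ((hd l).2 _) (congrArg Prod.snd e)
      have s (k i) : d k i * d k i = 1 := mul_self_eq_one_iff.2 ((hd k).2 i)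
      have e0 : d l (.inl 0) = d k (.inl 0) * d l (.inl 0) * d k (.inl 0) := by
        rw [mul_right_comm, s, one_mul]
      have e3 : d l (.inr 1) = d k (.inl 0) * d l (.inl 0) * d k (.inr 1) := by
        have p1 := pd k
        have p2 := pd l
        rw [e1, e2] at p2
        have c : ∀ {a0 a1 a2 a3 b0 b3 : K}, a0 * a0 = 1 → a3 * a3 = 1 → b0 * b0 = 1 → b3 * b3 = 1 →
            a0 * a1 * (a2 * a3) = 1 → b0 * (a0 * b0 * a1) * (a0 * b0 * a2 * b3) = 1 →
            b3 = a0 * b0 * a3 := fun {a0 a1 a2 a3 b0 b3} h0 h3 k0 k3 p q => by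
          linear_combination (-b3) * p + a0 * b0 * a3 * q -
            (a0 * a1 * a2 * a3 * b3 * (b0 * b0) ^ 2) * h0 -
            (a0 * a1 * a2 * a3 * b3 * (b0 * b0 + 1)) * k0
        exact c (s _ _) (s _ _) (s _ _) (s _ _) p1 p2
      refine Subtype.ext ((H.cj P).eq_of_smul (c := d k (.inl 0) * d l (.inl 0))
        (lf_cj_of (lA k) (hd k).1) ((lf_cj_of (lA l) (hd l).1).congr ?_))
      rw [← diagonal_smul]
      congr 1
      funext i
      rcases i with i | i <;> fin_cases i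
      exacts [e0, e1, e2, e3]
    simpa using Nat.card_le_card_of_injective _ this
  · have dd : ∀ f ∈ E, f ∉ R → ∃ A, Lf ρ f A ∧ A * A = 1 ∧ A.det = -1 := fun f hf hn => by
      obtain ⟨A, lA, eA⟩ := H.exists_sq (hE f hf)
      refine ⟨A, lA, eA, (mul_self_eq_one_iff.1 ?_).resolve_left fun e => hn ⟨hf, A, lA, eA, e⟩⟩
      rw [← det_mul, eA, det_one]
    by_cases h : ∃ t ∈ E, t ∉ R
    · obtain ⟨t, ht, hn⟩ := h
      obtain ⟨B, lB, eB, dB⟩ := dd t ht hn
      refine card_le_mul ![1, t] fun f hf => ?_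
      by_cases k : f ∈ R
      · exact ⟨0, by simpa using k⟩
      · obtain ⟨A, lA, eA, dA⟩ := dd f hf k
        exact ⟨1, mul_mem hf ht, A * B, lA.mul lB, sq hf ht lA lB eA eB, by simp [dA, dB]⟩
    · push Not at h
      exact card_le_mul ![1, 1] fun f hf => ⟨0, by simpa using h f hf⟩
  · obtain ⟨M, hM⟩ := exists_lf ρ g
    refine ⟨(mem_normalizer_iff.1 hg r).1 hr, _, hM.conj' lA, ?_, ?_⟩
    · simp only [Matrix.mul_assoc]
      rw [← Matrix.mul_assoc M⁻¹, hM.inv_mul, Matrix.one_mul, ← Matrix.mul_assoc A, eA,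
        Matrix.one_mul, hM.mul_inv]
    · rw [det_mul, det_mul, dA, mul_one, ← det_mul, hM.mul_inv, det_one]

theorem elem [Finite G] (hE : ∀ x ∈ E, x * x = 1) : Nat.card E ≤ 16 ∧ (8 ≤ Nat.card E →
    (∃ A a, Fr ρ A a ∧ frE a = E) ∨ ∃ R ≤ E, R ≠ ⊥ ∧ Nat.card R ≤ 4 ∧
      normalizer (E : Set G) ≤ normalizer (R : Set G)) := by
  by_cases hc : ∀ a ∈ E, ∀ b ∈ E, Cm ρ a b
  · obtain ⟨R, h1, h2, h3, h4⟩ := H.elem_cm hE hc
    refine ⟨by omega, fun h8 => .inr ⟨R, h1, ?_, h2, h4⟩⟩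
    rintro rfl
    rw [card_bot] at h3
    omega
  push Not at hc
  obtain ⟨x, hx, y, hy, k⟩ := hc
  replace k := (cm_or_ac (hE y hy) (comm hE hx hy)).resolve_left k
  have cv := cover hE hx hy k
  have c1 := card_le_mul _ cv
  have hE' : ∀ z ∈ cmS ρ E x y, z * z = 1 := fun z hz => hE z hz.1
  by_cases hc : ∀ a ∈ cmS ρ E x y, ∀ b ∈ cmS ρ E x y, Cm ρ a b
  · have c2 : Nat.card (cmS ρ E x y) ≤ 2 := by
      have : Function.Injective fun z : cmS ρ E x y => (z : G) = 1 := fun z w e => by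
        by_cases z1 : (z : G) = 1
        · exact Subtype.ext (z1.trans (e.mp z1).symm)
        exact Subtype.ext (H.eq_of_cm (hE x hx) (hE y hy) k (hE' _ z.2) (hE' _ w.2) z1
          (fun l => z1 (e.mpr l)) z.2.2.1 z.2.2.2 w.2.2.1 w.2.2.2 (hc _ z.2 _ w.2))
      simpa using Nat.card_le_card_of_injective _ this
    refine ⟨by omega, fun h8 => .inr ⟨cmS ρ E x y, fun z hz => hz.1, ?_, by omega,
      norm_le fun g hg r hr => ?_⟩⟩
    · intro e
      rw [e, card_bot] at c1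
      omega
    · have all : ∀ f ∈ E, Cm ρ r f := fun f hf => by
        obtain ⟨i, hi⟩ := cv f hf
        have : Cm ρ (![1, x, y, x * y] i) r := by
          fin_cases i
          exacts [Cm.one r, hr.2.1.symm, hr.2.2.symm, hr.2.1.symm.mul hr.2.2.symm]
        simpa using ((hc _ hi _ hr).mul this.inv).symm
      have cj : ∀ f ∈ E, Cm ρ (g * r * g⁻¹) f := fun f hf => by
        simpa [mul_assoc] using (all _ ((mem_normalizer_iff.1 (inv_mem hg) f).1 hf)).conj g
      exact ⟨(mem_normalizer_iff.1 hg r).1 hr.1, cj x hx, cj y hy⟩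
  push Not at hc
  obtain ⟨x', hx', y', hy', k'⟩ := hc
  replace k' := (cm_or_ac (hE' y' hy') (comm hE' hx' hy')).resolve_left k'
  have cv' := cover hE' hx' hy' k'
  have c2 := card_le_mul _ cv'
  have e0 : cmS ρ (cmS ρ E x y) x' y' = ⊥ := eq_bot_iff.2 fun z hz =>
    H.eq_one_of_cm (hE x hx) (hE y hy) k (hE' _ hx') (hE' _ hy') k' hx'.2.1 hx'.2.2 hy'.2.1 hy'.2.2
      (hE' _ hz.1) hz.1.2.1 hz.1.2.2 hz.2.1 hz.2.2
  rw [e0, card_bot] at c2
  refine ⟨by omega, fun _ => .inl ?_⟩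
  obtain ⟨A, a, hA, e⟩ := H.exists_fr (hE x hx) (hE y hy) k (hE' _ hx') (hE' _ hy') k' hx'.2.1
    hx'.2.2 hy'.2.1 hy'.2.2
  refine ⟨A, a, hA, e.trans (le_antisymm ((closure_le _).2 ?_) fun f hf => ?_)⟩
  · rintro z (rfl | rfl | rfl | rfl)
    exacts [hx, hy, hx'.1, hy'.1]
  · have m : ∀ z ∈ ({x, y, x', y'} : Set G), z ∈ closure ({x, y, x', y'} : Set G) :=
      fun z hz => subset_closure hz
    obtain ⟨i, hi⟩ := cv f hf
    obtain ⟨j, hj⟩ := cv' _ hi
    rw [e0] at hj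
    have a1 : ![1, x, y, x * y] i ∈ closure ({x, y, x', y'} : Set G) := by
      fin_cases i
      exacts [one_mem _, m x (by simp), m y (by simp), mul_mem (m x (by simp)) (m y (by simp))]
    have a2 : ![1, x', y', x' * y'] j ∈ closure ({x, y, x', y'} : Set G) := by
      fin_cases j
      exacts [one_mem _, m x' (by simp), m y' (by simp), mul_mem (m x' (by simp)) (m y' (by simp))]
    refine (mul_mem_cancel_right a1).1 ((mul_mem_cancel_right a2).1 ?_)
    rw [mem_bot.1 hj]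
    exact one_mem _

end St

theorem wE : WE.{u} := fun _ _ _ _ _ _ _ H =>
  ⟨fun _ _ h => (H.elem fun x hx => by rw [← sq, h x hx]).1, fun _ hE => (H.elem hE).2⟩

theorem wLoc (hE : WE.{u}) : WLoc.{u} := by
  rintro K _ _ G _ _ ρ H hS _ ⟨T, hT, T0, rfl⟩ hN
  obtain ⟨E, h1, h0, h2, h3⟩ := exists_omega hT T0
  have key : ∀ R : Subgroup G, normalizer (T : Set G) ≤ normalizer (R : Set G) →
      ¬ Group.IsSolvable (normalizer (R : Set G)) := fun R le _ =>
    hN (Group.isSolvable_of_isSolvable_injective (inclusion_injective le))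
  have h8 : 8 ≤ Nat.card E := by
    by_contra h
    refine key E h3 (solv_norm hS h2 h0 ?_)
    obtain ⟨n, hn⟩ := IsPGroup.iff_card.1 (hT.to_le h1)
    rw [hn] at h ⊢
    have : n < 3 := by
      by_contra l
      exact h (Nat.pow_le_pow_right two_pos (not_lt.1 l))
    exact Nat.pow_le_pow_right two_pos (Nat.le_of_lt_succ this)
  rcases (hE K G ρ H).2 E h2 h8 with ⟨A, a, hA, rfl⟩ | ⟨R, r1, r0, r4, r5⟩
  · exact ⟨A, a, hA, key _ h3⟩
  · exact absurd (solv_norm hS (fun x hx => h2 x (r1 hx)) r0 r4) (key R (h3.trans r5))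

end Cfsg.Lib.Four
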