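import Cfsg.Agent.Class.Four.Blk

/-!
# Anticommuting involutions: normal form and frames
-/

set_option autoImplicit false
set_option linter.unusedSimpArgs false

namespace Cfsg.Lib.Four

open Matrix
open scoped MatrixGroups

variable {K : Type*} [Field K] {G : Type*} [Group G] {ρ : G →* PGL(I4, K)}
  {g h t x y x' y' : G} {A B M N : M4 K}

namespace EA

variable {a b c : M2 K}

theorem anti_tr (ha : a.trace = 0) (hb : b.trace = 0) : a * b + b * a = (a * b).trace • 1 := by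
  rw [trace_fin_two] at ha hb
  have e1 : a 1 1 = -a 0 0 := by linear_combination ha
  have e2 : b 1 1 = -b 0 0 := by linear_combination hb
  ext i j
  fin_cases i <;> fin_cases j <;> simp [mul_apply, trace_fin_two, Fin.sum_univ_two, e1, e2] <;> ring

/-- An involutory `2 × 2` matrix is scalar or has trace zero. -/
theorem scal_or_tr (h : a * a = 1) : (∃ k : K, a = k • 1) ∨ a.trace = 0 := by
  refine or_iff_not_imp_right.2 fun h0 => ⟨a 0 0, ?_⟩
  rw [trace_fin_two] at h0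
  have e (i j) := congrFun (congrFun h i) j
  have e00 := e 0 0
  have e01 := e 0 1
  have e10 := e 1 0
  have e11 := e 1 1
  simp [mul_apply, Fin.sum_univ_two] at e00 e01 e10 e11
  have k1 : a 0 1 = 0 := (mul_eq_zero.1 (show a 0 1 * (a 0 0 + a 1 1) = 0 by
    linear_combination e01)).resolve_right h0
  have k2 : a 1 0 = 0 := (mul_eq_zero.1 (show a 1 0 * (a 0 0 + a 1 1) = 0 by
    linear_combination e10)).resolve_right h0
  have k3 : a 1 1 = a 0 0 := (sub_eq_zero.1 ((mul_eq_zero.1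
    (show (a 1 1 - a 0 0) * (a 0 0 + a 1 1) = 0 by linear_combination e11 - e00)).resolve_right h0))
  ext i j
  fin_cases i <;> fin_cases j <;> simp [k1, k2, k3]

/-- Commuting matrices of trace zero have a scalar product. -/
theorem mul_scal (h2 : (2 : K) ≠ 0) (ha : a.trace = 0) (hb : b.trace = 0) (e : a * b = b * a) :
    ∃ k : K, a * b = k • 1 := by
  refine ⟨2⁻¹ * (a * b).trace, ?_⟩
  rw [mul_smul, ← anti_tr ha hb, ← e, ← two_smul K, smul_smul, inv_mul_cancel₀ h2, one_smul]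

theorem tr_of_anti (h2 : (2 : K) ≠ 0) (hb : b * b = 1) (e : a * b = -(b * a)) : a.trace = 0 := by
  have k : a.trace = -a.trace := by
    calc a.trace = (a * b * b).trace := by rw [Matrix.mul_assoc, hb, Matrix.mul_one]
      _ = _ := by rw [e, Matrix.neg_mul, trace_neg, trace_mul_comm, ← Matrix.mul_assoc, hb,
        Matrix.one_mul]
  exact (mul_eq_zero.1 (show 2 * a.trace = 0 by linear_combination k)).resolve_left h2

/-- An involutory matrix commuting with two anticommuting involutory matrices is scalar. -/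
theorem scal_of_comm (h2 : (2 : K) ≠ 0) (ha : a * a = 1) (hb : b * b = 1) (hc : c * c = 1)
    (e : a * b = -(b * a)) (ea : c * a = a * c) (eb : c * b = b * c) : ∃ k : K, c = k • 1 := by
  refine (scal_or_tr hc).resolve_right fun h0 => ?_
  obtain ⟨k, hk⟩ := mul_scal h2 h0 (tr_of_anti h2 hb e) ea
  have e1 : c = k • a := by
    rw [← Matrix.mul_one c, ← ha, ← Matrix.mul_assoc, hk, smul_mul_assoc, Matrix.one_mul]
  have e2 : b * c = 0 := eq_zero_of_eq_neg h2 (by
    nth_rw 1 [← eb]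
    rw [e1, smul_mul_assoc, e, Matrix.mul_smul, smul_neg])
  have e3 : (1 : M2 K) = 0 := by
    calc (1 : M2 K) = b * (b * c) * c := by rw [← Matrix.mul_assoc, hb, Matrix.one_mul, hc]
      _ = 0 := by rw [e2, Matrix.mul_zero, Matrix.zero_mul]
  exact one_ne_zero e3

end EA

/-- The matrices commuting with both standard involutions. -/
theorem exists_dg_dg (h2 : (2 : K) ≠ 0) (e1 : A * tz K = tz K * A)
    (e2 : A * ad 1 1 = ad 1 1 * A) : ∃ a, A = dg a a := by
  obtain ⟨a, b, rfl⟩ := exists_dg_of_comm h2 e1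
  rw [dg_mul_ad, ad_mul_dg, ad_inj] at e2
  exact ⟨a, by rw [show b = a by simpa using e2.2]⟩

namespace St

variable (H : St ρ)
include H

/-- Normal form of two anticommuting involutions. -/
theorem exists_ac_form (hx : x * x = 1) (hy : y * y = 1) (k : Ac ρ x y) :
    ∃ B, Lf (Four.cj B ρ) x (tz K) ∧ Lf (Four.cj B ρ) y (ad 1 1) := by
  obtain ⟨P, hP⟩ := H.t22_of_ac hx k
  obtain ⟨Y, hY, e⟩ := (H.cj P).exists_sq hy
  obtain ⟨c, d, rfl⟩ := exists_ad_of_anti H.two ((ac_cj.2 k.symm) _ _ hY hP)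
  obtain ⟨u, v, rfl, rfl⟩ := hY.ad_units
  rw [ad_mul_ad, ← dg_one, dg_inj] at e
  have e' : v = u⁻¹ := (eq_inv_of_mul_eq_one_right (Units.ext e.1))
  refine ⟨P * dgU u 1, ?_, ?_⟩
  · rw [← cj_cj]; exact lf_tz_dgU hP
  · rw [← cj_cj, lf_cj_dgU_ad]
    simpa [e'] using hY

/-- Involutions commuting with two anticommuting involutions, in the normal form. -/
theorem exists_dg_sq (hx : Lf ρ x (tz K)) (hy : Lf ρ y (ad 1 1)) (hg : g * g = 1)
    (k : Cm ρ g x) (l : Cm ρ g y) : ∃ a : M2 K, Lf ρ g (dg a a) ∧ a * a = 1 := by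
  obtain ⟨A, hA, e⟩ := H.exists_sq hg
  obtain ⟨a, rfl⟩ := exists_dg_dg H.two (k _ _ hA hx) (l _ _ hA hy)
  rw [dg_mul_dg, ← dg_one, dg_inj] at e
  exact ⟨a, hA, e.1⟩

/-- At most one involution among elements that commute pairwise and with an anticommuting pair. -/
theorem eq_of_cm (hx : x * x = 1) (hy : y * y = 1) (k : Ac ρ x y) (hg : g * g = 1)
    (hh : h * h = 1) (g1 : g ≠ 1) (h1 : h ≠ 1) (gx : Cm ρ g x) (gy : Cm ρ g y) (hx' : Cm ρ h x)
    (hy' : Cm ρ h y) (e : Cm ρ g h) : g = h := by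
  obtain ⟨P, a1, a2⟩ := H.exists_ac_form hx hy k
  have H' := H.cj P
  obtain ⟨a, ha, a3⟩ := H'.exists_dg_sq a1 a2 hg (cm_cj.2 gx) (cm_cj.2 gy)
  obtain ⟨b, hb, b3⟩ := H'.exists_dg_sq a1 a2 hh (cm_cj.2 hx') (cm_cj.2 hy')
  have ta := (EA.scal_or_tr a3).resolve_left fun ⟨c, hc⟩ =>
    g1 (H'.eq_one (ha.congr (by rw [hc, dg_smul_one])))
  have tb := (EA.scal_or_tr b3).resolve_left fun ⟨c, hc⟩ =>
    h1 (H'.eq_one (hb.congr (by rw [hc, dg_smul_one])))
  have e' := cm_cj.2 e _ _ ha hb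
  rw [dg_mul_dg, dg_mul_dg, dg_inj] at e'
  obtain ⟨c, hc⟩ := EA.mul_scal H.two ta tb e'.1
  have := H'.eq_one ((ha.mul hb).congr (by rw [dg_mul_dg, hc, dg_smul_one]))
  exact mul_right_cancel (this.trans hh.symm)

/-- An involution commuting with two commuting anticommuting pairs is trivial. -/
theorem eq_one_of_cm (hx : x * x = 1) (hy : y * y = 1) (k : Ac ρ x y) (hx' : x' * x' = 1)
    (hy' : y' * y' = 1) (k' : Ac ρ x' y') (c1 : Cm ρ x' x) (c2 : Cm ρ x' y) (c3 : Cm ρ y' x)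
    (c4 : Cm ρ y' y) (hg : g * g = 1) (d1 : Cm ρ g x) (d2 : Cm ρ g y) (d3 : Cm ρ g x')
    (d4 : Cm ρ g y') : g = 1 := by
  obtain ⟨P, a1, a2⟩ := H.exists_ac_form hx hy k
  have H' := H.cj P
  obtain ⟨a, ha, a3⟩ := H'.exists_dg_sq a1 a2 hx' (cm_cj.2 c1) (cm_cj.2 c2)
  obtain ⟨b, hb, b3⟩ := H'.exists_dg_sq a1 a2 hy' (cm_cj.2 c3) (cm_cj.2 c4)
  obtain ⟨c, hc, c3⟩ := H'.exists_dg_sq a1 a2 hg (cm_cj.2 d1) (cm_cj.2 d2)
  have e1 := ac_cj.2 k' _ _ ha hb
  have e2 := cm_cj.2 d3 _ _ hc ha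
  have e3 := cm_cj.2 d4 _ _ hc hb
  rw [dg_mul_dg, dg_mul_dg, neg_dg, dg_inj] at e1
  rw [dg_mul_dg, dg_mul_dg, dg_inj] at e2 e3
  obtain ⟨r, hr⟩ := EA.scal_of_comm H.two a3 b3 c3 e1.1 e2.1 e3.1
  exact H'.eq_one (hc.congr (by rw [hr, dg_smul_one]))

end St

namespace EA

/-- Five pairwise anticommuting matrices of square `-1` with scalar product give a frame. -/
theorem fr_of (e : Fin 6 → M4 K) (g : Fin 6 → G) (h0 : e 0 = 1)
    (hs : ∀ i, i ≠ 0 → e i * e i = -1) (ha : ∀ i j, i ≠ 0 → j ≠ 0 → i ≠ j → e j * e i = -(e i * e j))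
    (hv : ∃ c : K, e 1 * (e 2 * e 3) * (e 4 * e 5) = c • 1) (hl : ∀ i, Lf ρ (g i) (e i)) :
    ∃ A, Fr ρ A fun i j => g i * g j := by
  let f : Fin 6 → M4 K := fun i => if i = 0 then 1 else -e i
  have fe : ∀ i, f i * e i = 1 := fun i => by
    by_cases hi : i = 0
    · simp [f, hi, h0]
    · simp [f, hi, hs i hi]
  have ef : ∀ i, e i * f i = 1 := fun i => mul_eq_one_comm.1 (fe i)
  refine ⟨fun i j => f i * e j, fun i j k => ?_, fe, fun i j hij => ?_, ?_, fun i j => ?_⟩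
  · rw [Matrix.mul_assoc, ← Matrix.mul_assoc (e j), ef, Matrix.one_mul]
  · by_cases hi : i = 0
    · subst hi; simp [f, hij.symm, h0]
    by_cases hj : j = 0
    · subst hj; simp [f, hi, h0]
    simp [f, hi, hj, ha i j hi hj hij]
  · obtain ⟨c, hc⟩ := hv
    exact ⟨c, by simp [f, ← hc]⟩
  · refine Lf.mul ?_ (hl j)
    by_cases hi : i = 0
    · subst hi; simpa [f, h0] using hl 0
    · simpa [f, hi] using (hl i).neg

theorem cliff {R : Type*} [Ring R] [Algebra K R] {X Y P Q : R} {i : K} (hi : i * i = -1)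
    (hX : X * X = 1) (hY : Y * Y = 1) (hP : P * P = 1) (hQ : Q * Q = 1) (e1 : X * Y = -(Y * X))
    (e2 : P * Q = -(Q * P)) (c1 : P * X = X * P) (c2 : P * Y = Y * P) (c3 : Q * X = X * Q)
    (c4 : Q * Y = Y * Q) (e : Fin 6 → R)
    (he : e = ![1, i • X, i • Y, X * Y * P, X * Y * Q, i • (X * Y * P * Q)]) :
    (∀ j, j ≠ 0 → e j * e j = -1) ∧ (∀ j k, j ≠ 0 → k ≠ 0 → j ≠ k → e k * e j = -(e j * e k)) ∧
      e 1 * (e 2 * e 3) * (e 4 * e 5) = i • 1 := by
  have e1' : Y * X = -(X * Y) := by rw [e1, neg_neg]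
  have e2' : Q * P = -(P * Q) := by rw [e2, neg_neg]
  have a1 : ∀ t, X * (X * t) = t := fun t => by rw [← mul_assoc, hX, one_mul]
  have a2 : ∀ t, Y * (Y * t) = t := fun t => by rw [← mul_assoc, hY, one_mul]
  have a3 : ∀ t, P * (P * t) = t := fun t => by rw [← mul_assoc, hP, one_mul]
  have a4 : ∀ t, Q * (Q * t) = t := fun t => by rw [← mul_assoc, hQ, one_mul]
  have b1 : ∀ t, Y * (X * t) = -(X * (Y * t)) := fun t => by
    rw [← mul_assoc, e1', neg_mul, mul_assoc]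
  have b2 : ∀ t, Q * (P * t) = -(P * (Q * t)) := fun t => by
    rw [← mul_assoc, e2', neg_mul, mul_assoc]
  have d1 : ∀ t, P * (X * t) = X * (P * t) := fun t => by rw [← mul_assoc, c1, mul_assoc]
  have d2 : ∀ t, P * (Y * t) = Y * (P * t) := fun t => by rw [← mul_assoc, c2, mul_assoc]
  have d3 : ∀ t, Q * (X * t) = X * (Q * t) := fun t => by rw [← mul_assoc, c3, mul_assoc]
  have d4 : ∀ t, Q * (Y * t) = Y * (Q * t) := fun t => by rw [← mul_assoc, c4, mul_assoc]
  have ii : ∀ t : R, i • i • t = -t := fun t => by rw [smul_smul, hi, neg_one_smul]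
  subst he
  refine ⟨fun j hj => ?_, fun j k hj hk hjk => ?_, ?_⟩
  · fin_cases j <;> first
      | exact absurd rfl hj
      | simp [mul_assoc, a1, a2, a3, a4, b1, b2, d1, d2, d3, d4, hX, hY, hP, hQ, e1', e2', c1, c2,
          c3, c4, ii]
  · fin_cases j <;> fin_cases k <;> first
      | exact absurd rfl hj
      | exact absurd rfl hk
      | exact absurd rfl hjk
      | simp [mul_assoc, a1, a2, a3, a4, b1, b2, d1, d2, d3, d4, hX, hY, hP, hQ, e1', e2', c1, c2,
          c3, c4, ii]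
  · simp [mul_assoc, a1, a2, a3, a4, b1, b2, d1, d2, d3, d4, hX, hY, hP, hQ, e1', e2', c1, c2,
      c3, c4, ii]

end EA

/-- Two commuting anticommuting pairs of involutions give a frame. -/
theorem St.exists_fr (H : St ρ) (hx : x * x = 1) (hy : y * y = 1) (k : Ac ρ x y)
    (hx' : x' * x' = 1) (hy' : y' * y' = 1) (k' : Ac ρ x' y') (c1 : Cm ρ x' x) (c2 : Cm ρ x' y)
    (c3 : Cm ρ y' x) (c4 : Cm ρ y' y) :
    ∃ A a, Fr ρ A a ∧ frE a = Subgroup.closure {x, y, x', y'} := by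
  obtain ⟨X, lX, hX⟩ := H.exists_sq hx
  obtain ⟨Y, lY, hY⟩ := H.exists_sq hy
  obtain ⟨P, lP, hP⟩ := H.exists_sq hx'
  obtain ⟨Q, lQ, hQ⟩ := H.exists_sq hy'
  obtain ⟨i, hi⟩ := H.exists_i
  have i0 : i ≠ 0 := fun e => by simp [e] at hi
  obtain ⟨s1, s2, s3⟩ := EA.cliff hi hX hY hP hQ (k _ _ lX lY) (k' _ _ lP lQ) (c1 _ _ lP lX)
    (c2 _ _ lP lY) (c3 _ _ lQ lX) (c4 _ _ lQ lY) _ rfl
  obtain ⟨A, hA⟩ := EA.fr_of (ρ := ρ) _ ![1, x, y, x * y * x', x * y * y', x * y * x' * y'] rfl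
    s1 s2 ⟨i, s3⟩ fun j => by
      fin_cases j
      exacts [Lf.one, lX.smul i0, lY.smul i0, (lX.mul lY).mul lP, (lX.mul lY).mul lQ,
        (((lX.mul lY).mul lP).mul lQ).smul i0]
  refine ⟨A, _, hA, le_antisymm ((Subgroup.closure_le _).2 ?_) ((Subgroup.closure_le _).2 ?_)⟩
  · have m : ∀ z ∈ ({x, y, x', y'} : Set G), z ∈ Subgroup.closure ({x, y, x', y'} : Set G) :=
      fun z hz => Subgroup.subset_closure hz
    have mx := m x (by simp)
    have my := m y (by simp)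
    have mp := m x' (by simp)
    have mq := m y' (by simp)
    have : ∀ j, ![1, x, y, x * y * x', x * y * y', x * y * x' * y'] j ∈
        Subgroup.closure ({x, y, x', y'} : Set G) := fun j => by
      fin_cases j
      exacts [one_mem _, mx, my, mul_mem (mul_mem mx my) mp, mul_mem (mul_mem mx my) mq,
        mul_mem (mul_mem (mul_mem mx my) mp) mq]
    rintro _ ⟨i, j, rfl⟩
    exact mul_mem (this i) (this j)
  · have m : ∀ j, ![1, x, y, x * y * x', x * y * y', x * y * x' * y'] j ∈ frE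
        fun i j => ![1, x, y, x * y * x', x * y * y', x * y * x' * y'] i *
          ![1, x, y, x * y * x', x * y * y', x * y * x' * y'] j :=
      fun j => Subgroup.subset_closure ⟨0, j, (one_mul _).symm⟩
    have mxy := mul_mem (m 1) (m 2)
    rintro z (rfl | rfl | rfl | rfl)
    exacts [m 1, m 2, (mul_mem_cancel_left mxy).1 (m 3), (mul_mem_cancel_left mxy).1 (m 4)]

end Cfsg.Lib.Four
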