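import Cfsg.Agent.Class.Four.Blk
import Cfsg.Agent.Mit.Hom4

/-!
# No homology of order four
-/

set_option autoImplicit false

namespace Cfsg.Lib.Four

open Matrix Cfsg.Geo Cfsg.Lib.Class Cfsg.Lib.Class.Asch Cfsg.Lib.Mit
open scoped MatrixGroups

universe u

theorem St.noTv {K : Type*} [Field K] {G : Type*} [Group G] {ρ : G →* PGL(I4, K)} (H : St ρ) :
    ∀ g ∈ lin ρ, ¬ IsTv g := by
  rintro _ hg ⟨h1, v, f, h0, rfl⟩
  refine h1 (Units.ext ?_)
  rw [tv_coe h0, H.nt v f h0 (tv_coe h0 ▸ mem_lin.1 hg), add_zero, Units.val_one]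

theorem wH4 : WH4.{u} := fun K _ _ G _ _ ρ H i c f hi h hm => by
  classical
  have hY := H.noTv
  have h2 := H.two
  have hμ := i_sub_ne_zero hi h2
  let X : Set G := {g | ∃ c f, f ⬝ᵥ c = i - 1 ∧ ρ g = ProjGenLinGroup.mk (tv c f)}
  obtain ⟨w, hw⟩ := hm
  have hwX : w ∈ X := by
    obtain ⟨u, e, e'⟩ := hw
    exact ⟨c, f, h, by rw [e', show u = tv c f from Units.ext (e.trans (tv_coe' (hom_ne hi h)).symm)]⟩
  have top : Subgroup.closure X = ⊤ := by
    refine top_unique (((H.simple.eq_bot_or_eq_top_of_normal (Subgroup.normalClosure X)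
      inferInstance).resolve_left fun e => ?_).ge.trans (Subgroup.closure_mono fun x hx => ?_))
    · obtain rfl : w = 1 := Subgroup.mem_bot.1 (e.le (Subgroup.subset_normalClosure hwX))
      obtain ⟨k, -, e⟩ := hw.scalar
      have e1 : vecMulVec c f = (k - 1) • 1 := by rw [sub_smul, ← e]; simp
      have e2 := det_vecMulVec c f
      rw [e1, det_smul, det_one, mul_one, pow_eq_zero_iff (by simp)] at e2
      have e3 := trace_vecMulVec c f
      rw [e1, e2, zero_smul, trace_zero, dotProduct_comm, h] at e3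
      exact hμ e3.symm
    · obtain ⟨y, ⟨c, f, k, e⟩, hy⟩ := Group.mem_conjugatesOfSet_iff.1 hx
      obtain ⟨g, rfl⟩ := isConj_iff.1 hy
      obtain ⟨u, hu⟩ := ProjGenLinGroup.mk_surjective (ρ g)
      exact ⟨_, _, (vecMul_inv_dot_mulVec u f c).trans k, by
        rw [← conj_tv]; simp only [map_mul, map_inv, e, hu]⟩
  have ex : ∀ S : Finset (I4 → K), c ∈ S → S.card < 4 → ∃ c' f', f' ⬝ᵥ c' = i - 1 ∧
      tv c' f' ∈ lin ρ ∧ c' ∉ Submodule.span K (S : Set (I4 → K)) ∧
      ∃ v ∈ S, f' ⬝ᵥ v ≠ 0 := fun S hc hS => by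
    by_contra hn
    push Not at hn
    rcases H.irr' (Submodule.span K (S : Set (I4 → K))) (fun A ⟨g, hg⟩ => by
      have m : g ∈ Submonoid.closure X :=
        Subgroup.closure_toSubmonoid_of_finite.le (top.ge (Subgroup.mem_top g))
      induction m using Submonoid.closure_induction generalizing A with
      | mem x hx =>
        obtain ⟨c', f', k, e⟩ := hx
        obtain ⟨a, -, rfl⟩ := Lf.uniq ⟨_, rfl, e⟩ hg
        intro v hv
        rw [smul_mulVec, tv_mulVec' (hom_ne hi k)]
        refine Submodule.smul_mem _ _ (add_mem hv ?_)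
        by_cases hc' : c' ∈ Submodule.span K (S : Set (I4 → K))
        · exact Submodule.smul_mem _ _ hc'
        · have : f' ⬝ᵥ v = 0 := by
            induction hv using Submodule.span_induction with
            | mem y hy => exact hn c' f' k ⟨x, e⟩ hc' y hy
            | zero => simp
            | add y z _ _ k1 k2 => simp [k1, k2]
            | smul b y _ k1 => simp [k1]
          simp [this]
      | one =>
        obtain ⟨a, -, rfl⟩ := hg.scalar
        exact fun v hv => by simpa [smul_mulVec] using Submodule.smul_mem _ a hv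
      | mul x y _ _ k1 k2 =>
        obtain ⟨B, hB⟩ := exists_lf ρ x
        obtain ⟨C, hC⟩ := exists_lf ρ y
        obtain ⟨a, -, rfl⟩ := (hB.mul hC).uniq hg
        intro v hv
        rw [smul_mulVec, ← mulVec_mulVec]
        exact Submodule.smul_mem _ _ (k1 B hB.mem hB _ (k2 C hC.mem hC v hv))) with k | k
    · have : c = 0 := k.le (Submodule.subset_span hc)
      exact hμ (by simpa [this] using h.symm)
    · exact (span_lt_top_of_card_lt_finrank (s := (S : Set (I4 → K))) (by simpa using hS)).ne k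
  have m₁ : tv c f ∈ lin ρ := mem_lin.2 (tv_coe' (hom_ne hi h) ▸ hw.mem)
  obtain ⟨c₂, f₂, h₂, m₂, n₂, v, hv, k₂⟩ := ex {c} (by simp) (by simp)
  rw [Finset.mem_singleton.1 hv] at k₂
  have h₁₂ := (pair4 hi h2 hY h₂ h m₂ m₁ fun b e => n₂
    (e ▸ Submodule.smul_mem _ _ (Submodule.subset_span (by simp)))).resolve_left fun h => k₂ h.1
  obtain ⟨c₃, f₃, h₃, m₃, n₃, v, hv, k₃⟩ :=
    ex {c, c₂} (by simp) (Finset.card_le_two.trans_lt (by simp))
  rw [Finset.coe_pair] at n₃
  rcases Finset.mem_insert.1 hv with rfl | hv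
  · refine triple4 hi h2 hY h₂ h h₃ m₂ m₁ m₃ h₁₂ ((mul_comm _ _).trans ((pair4 hi h2 hY h₃ h m₃ m₁
      fun b e => n₃ (e ▸ Submodule.smul_mem _ _ (Submodule.subset_span (by simp)))).resolve_left
      fun h => k₃ h.1)) (by rwa [Set.pair_comm])
  · rw [Finset.mem_singleton.1 hv] at k₃
    refine triple4 hi h2 hY h h₂ h₃ m₁ m₂ m₃ ((mul_comm _ _).trans h₁₂) ((mul_comm _ _).trans
      ((pair4 hi h2 hY h₃ h₂ m₃ m₂ fun b e => n₃ (e ▸ Submodule.smul_mem _ _
        (Submodule.subset_span (by simp)))).resolve_left fun h => k₃ h.1)) n₃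

end Cfsg.Lib.Four
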