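import Cfsg.Agent.Class.Four.L27Dat
import Cfsg.Agent.Class.UCases
import Cfsg.Agent.Class.AL.Exc
import Cfsg.Agent.Mit.L27

/-!
# `2.L₂(7)` does not give a maximal subgroup of `SL₄` or `SU₄`
-/

set_option autoImplicit false

namespace Cfsg.Lib.Four

open Matrix Cfsg.Geo Cfsg.Lib.Class Cfsg.Lib.Class.Asch Cfsg.Lib.Mit
open Cfsg.Lib.Known Cfsg.Lib.Known.G168
open scoped MatrixGroups

universe u

namespace L27

variable {F : Type*} [Field F] {H P X : Subgroup (GL (Fin 4) F)} {b : F} {hb : b * b + b + 2 = 0}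
  {Q a t g : GL (Fin 4) F}

/-- The normaliser of the group in the coordinates of the model. -/
structure Dat (H : Subgroup (GL (Fin 4) F)) (b : F) (hb : b * b + b + 2 = 0)
    (Q a t : GL (Fin 4) F) : Prop where
  aH : a ∈ H
  tH : t ∈ H
  ea : a.1 * Q.1 = Q.1 * A0.map (ev b hb)
  et : t.1 * Q.1 = Q.1 * T0.map (ev b hb)
  gen : ∀ N : Subgroup (GL (Fin 4) F), scalars (Fin 4) F ≤ N → a ∈ N → t ∈ N → H ≤ N
  three : ∀ h ∈ H, h ^ 3 = 1 → h ∉ scalars (Fin 4) F →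
    ∃ y, ∃ z ∈ scalars (Fin 4) F, h = y * (t * a) * y⁻¹ * z
  comm : ∀ K : M F, K * a.1 = a.1 * K → K * t.1 = t.1 * K → ∃ k : F, K = k • 1
  tr : tr4 a = 1 + b
  tr' : tr4 a⁻¹ = -b

theorem exists_dat [Finite F] (hP : QS P) (hPH : P ≤ H) (hN : NrmG H P)
    (e : Nonempty (Bar P ≃* PSL(2, ZMod 7))) (h2 : (2 : F) ≠ 0) (h7 : (7 : F) ≠ 0) :
    ∃ b hb Q a t, Dat H b hb Q a t := by
  obtain ⟨e⟩ := e
  obtain ⟨e'⟩ := nonempty_equiv_psl
  obtain ⟨π, h⟩ := exists_proj (e'.trans e.symm)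
  have hS := hP.le_specialLinear
  obtain ⟨a, ha, a7⟩ := h.exists_lift hS (k := 7) (by decide) (b := tab.el 1) (by decide +kernel)
  obtain ⟨c, hc, c3⟩ := h.exists_lift hS (k := 3) (by decide) (b := tab.el 161)
    (by decide +kernel)
  obtain ⟨d, hd, d3⟩ := h.exists_lift hS (k := 3) (by decide) (b := tab.el 2 * tab.el 1)
    (by decide +kernel)
  obtain ⟨t, rfl⟩ : ∃ t, d = t * a := ⟨d * a⁻¹, by simp⟩
  have ht : π t = tab.el 2 := by rwa [map_mul, ha, mul_left_inj] at hd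
  have cj : ∀ {k : ℕ} {x : P}, x ^ k = 1 → ∀ p : P, (p * x * p⁻¹) ^ k = 1 := fun hx p => by
    rw [conj_pow, hx, mul_one, mul_inv_cancel]
  have e1 := h.lift_unique hS (k := 7) (by decide) (x := c * a * c⁻¹) (y := a * a) (by
    simp only [map_mul, map_inv, hc, ha]; decide +kernel) (cj a7 c) (by
      rw [← sq, ← pow_mul, mul_comm, pow_mul, a7, one_pow])
  have e2 := h.lift_unique hS (k := 3) (by decide) (x := t * c * t⁻¹) (y := c⁻¹) (by
    simp only [map_mul, map_inv, hc, ht]; decide +kernel) (cj c3 t) (by rw [inv_pow, c3, inv_one])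
  obtain ⟨s, hs, ts⟩ := exists_scalar_of_ker hP h (z := t * t) (by
    rw [map_mul, ht]; decide +kernel)
  have gen : ∀ N : Subgroup (GL (Fin 4) F), scalars (Fin 4) F ≤ N → a.1 ∈ N → t.1 ∈ N → P ≤ N :=
    fun N hN h1 h2 => h.le_of_closure hN (l27_gen ⟨a, h1, ha⟩ ⟨t, h2, ht⟩)
  obtain ⟨b, hb, t1, t2, hr, hp⟩ := eig (a := a.1) (c := c.1) h7 (congrArg Subtype.val a7)
    (fun e => absurd ((h.ker a).2 (e ▸ one_mem _)) (by rw [ha]; decide +kernel))
    (AL.mem_specialLinear'.1 (hS a.2)) (congrArg Subtype.val e1)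
  obtain ⟨Q, q1, q2⟩ := model (a := a.1) (c := c.1) (t := t.1) hb h2 (congrArg Subtype.val a7)
    (congrArg Subtype.val c3) (congrArg Subtype.val (mul_inv_eq_iff_eq_mul.1 e1))
    (congrArg Subtype.val (show c * t * c = t by
      rw [mul_assoc, mul_inv_eq_iff_eq_mul.1 e2, mul_inv_cancel_left])) ts hs
    (congrArg Subtype.val d3) hr hp fun W h1 h3 => irr_of_env_eq_top hP.env_top W
      (gen (AL.setStab W) (fun z hz v hv => by
        obtain ⟨k, hk⟩ := (mem_scalars_iff' z).1 hz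
        rw [hk, smul_mulVec, one_mulVec]
        exact W.smul_mem k hv) h1 h3)
  have nrm : ∀ g ∈ H, ∃ p : P, p.1⁻¹ * g ∈ scalars (Fin 4) F := fun g hg => by
    obtain ⟨ψ, hψ, hψ'⟩ := h.exists_ind (hN g hg)
    rcases l27_aut ψ hψ with ⟨p, hp⟩ | ⟨p, hp⟩ <;> obtain ⟨p, rfl⟩ := h.surj p
    · exact ⟨p, h.mem_of_inner hP (hN g hg) fun x => by rw [← hψ', hp]⟩
    rw [← ha, hψ', ← map_inv, ← map_inv, ← map_mul, ← map_mul] at hp
    have e3 := h.lift_unique hS (k := 7) (by decide) hp (cj a7 p) (by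
      rw [inv_pow, inv_eq_one]
      exact Subtype.ext (by rw [Subgroup.coe_pow, conj_pow, ← Subgroup.coe_pow, a7]; simp))
    have e4 : tr4 (p.1 * a.1 * p.1⁻¹) = tr4 (g * a.1⁻¹ * g⁻¹) :=
      (congrArg (fun x : P => tr4 x.1) e3).trans (congrArg tr4 (by simp [mul_assoc]))
    rw [tr4_conj, tr4_conj, t1, t2] at e4
    exact absurd (by linear_combination 4 * hb - (2 * b + 1) * e4) h7
  refine ⟨b, hb, Q, a, t, hPH a.2, hPH t.2, q1, q2, fun N hN h1 h3 g hg => ?_,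
    fun g hg g3 g1 => ?_, fun K h1 h3 => ?_, t1, t2⟩
  · obtain ⟨p, hp⟩ := nrm g hg
    simpa using mul_mem (gen N hN h1 h3 p.2) (hN hp)
  · obtain ⟨p, hp⟩ := nrm g hg
    have c1 : Commute p.1 (p.1⁻¹ * g) := (comm_of_mem_scalars hp p.1).symm
    have c2 := c1.mul_pow 3
    rw [mul_inv_cancel_left, g3] at c2
    have p3 : π p ^ 3 = 1 := by
      rw [← map_pow, h.ker, Subgroup.coe_pow, eq_inv_of_mul_eq_one_left c2.symm]
      exact inv_mem (pow_mem hp 3)
    have p1 : π p ≠ 1 := fun e => g1 (by simpa using mul_mem ((h.ker p).1 e) hp)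
    have := Fact.mk Nat.prime_three
    obtain ⟨y, hy⟩ := conj_three (π p) ((orderOf_eq _).symm.trans (orderOf_eq_prime p3 p1))
    obtain ⟨y, hy'⟩ := h.surj (y * (tab.el 2)⁻¹)
    have e3 : π (y * (t * a) * y⁻¹) = π p := by
      rw [map_mul, map_mul, map_inv, hy', hd, ← hy,
        show tab.el 2 * tab.el 1 = tab.el 2 * tab.el 4 * (tab.el 2)⁻¹ by decide +kernel]
      group
    exact ⟨y, _, mul_mem (h.eq_iff.1 e3) hp, by simp [mul_assoc]⟩
  · let N : Subgroup (GL (Fin 4) F) :=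
      { carrier := {x | Commute K x.1}
        one_mem' := Commute.one_right K
        mul_mem' := fun h1 h2 => Commute.mul_right h1 h2
        inv_mem' := fun h1 => Commute.units_inv_right h1 }
    refine eq_smul_one_of_env_eq_top hP.env_top (gen N (fun z hz => ?_) h1 h3)
    obtain ⟨k, hk⟩ := (mem_scalars_iff' z).1 hz
    change K * z.1 = z.1 * K
    simp [hk]

theorem exists_g (φ : R →+* F) (h2 : (2 : F) ≠ 0) :
    ∃ g ∈ specialLinear (Fin 4) F, g.1 = (2 : F)⁻¹ • G0.map φ := by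
  have e : ((2 : F)⁻¹ • G0.map φ).det = 1 := by
    rw [det_smul, ← RingHom.mapMatrix_apply, ← RingHom.map_det, G0_det, map_ofNat,
      Fintype.card_fin]
    field_simp
    norm_num
  exact ⟨GeneralLinearGroup.mkOfDetNeZero _ (e ▸ one_ne_zero), AL.mem_specialLinear'.2 e, rfl⟩

theorem cube_conj {x : GL (Fin 4) F} (h : x.1 * x.1 + x.1 + 1 = 0) (y : GL (Fin 4) F) :
    (y * x * y⁻¹).1 * (y * x * y⁻¹).1 + (y * x * y⁻¹).1 + 1 = 0 := by
  have := congrArg (y.1 * · * (y⁻¹).1) h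
  simpa [mul_add, add_mul, mul_assoc, -coe_units_inv] using this

theorem Dat.false [Finite F] (h : Dat H b hb Q a t) (h2 : (2 : F) ≠ 0) (h7 : (7 : F) ≠ 0)
    (hH : IsMaximalIn X H) (hg : g.1 = (2 : F)⁻¹ • G0.map (ev b hb)) (gX : Q * g * Q⁻¹ ∈ X)
    (tv : ∃ x ∈ X, ∃ v f, TvP.IsTv x v f) : False := by
  let N := (Stab fun i => (om i).map (ev b hb)).comap (MulAut.conj Q⁻¹).toMonoidHom
  have cq : ∀ {x : GL (Fin 4) F} {Y : M F}, x.1 * Q.1 = Q.1 * Y → (Q⁻¹ * x * Q⁻¹⁻¹).1 = Y :=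
    fun e => by
      rw [inv_inv, Units.val_mul, Units.val_mul, mul_assoc, e, Units.inv_mul_cancel_left]
  have mN : ∀ {x}, x ∈ N ↔ Q⁻¹ * x * Q⁻¹⁻¹ ∈ Stab fun i => (om i).map (ev b hb) := Iff.rfl
  clear_value N
  have hN : H ≤ N := h.gen N (fun z hz => mN.2 (scalars_le_Stab _ (conj_mem_scalars hz Q⁻¹)))
    (mN.2 (mem_Stab _ ((cq h.ea).trans (one_smul F _).symm) actA))
    (mN.2 (mem_Stab _ ((cq h.et).trans (one_smul F _).symm) actT))
  obtain ⟨x, hx, v, f, tv⟩ := tv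
  have gH : Q * g * Q⁻¹ ∈ H := (TvP.eq_inf_of_isMaximalIn hH hN fun e =>
    not_tv _ h2 h7 (tv.conj Q⁻¹) (mN.1 (e hx))).ge ⟨mN.2 (by
      rw [show Q⁻¹ * (Q * g * Q⁻¹) * Q⁻¹⁻¹ = g by group]
      exact mem_Stab _ hg actG), gX⟩
  have g2 : g.1 * g.1 + g.1 + 1 = 0 := by
    have := congrArg (fun Y => ((2 : F)⁻¹ * 2⁻¹) • (ev b hb).mapMatrix Y) G0_sq
    simp only [map_add, map_mul, map_zero, RingHom.mapMatrix_apply, mp_smul, map_ofNat,
      smul_zero, smul_add, smul_smul] at this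
    rw [hg, smul_mul_smul_comm, ← this]
    congr 2
    · field_simp
    · rw [show (2 : F)⁻¹ * 2⁻¹ * 4 = 1 by field_simp; norm_num]; simp
  obtain ⟨y, z, hz, e⟩ := h.three _ gH (by
    rw [conj_pow, show g ^ 3 = 1 from Units.ext (by
      rw [Units.val_pow_eq_pow_val, Units.val_one, ← sub_eq_zero, ← zero_mul (g.1 - 1), ← g2]
      noncomm_ring)]
    simp) fun e => by
      obtain ⟨k, hk⟩ := (mem_scalars_iff' _).1 (conj_mem_scalars e Q⁻¹)
      rw [show Q⁻¹ * (Q * g * Q⁻¹) * Q⁻¹⁻¹ = g by group, hg] at hk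
      have := congrFun (congrFun hk 3) 0
      simp [G0, ev_mk, h2] at this
  obtain ⟨k, hk⟩ := (mem_scalars_iff' z).1 hz
  have e1 := cube_conj (cube_conj (cube_conj g2 Q) y⁻¹) Q⁻¹
  have e2 : (y⁻¹ * (Q * g * Q⁻¹) * y⁻¹⁻¹).1 * Q.1 = Q.1 * k • (T0 * A0).map (ev b hb) := by
    rw [e, show y⁻¹ * (y * (t * a) * y⁻¹ * z) * y⁻¹⁻¹ = t * a * (y⁻¹ * (z * y)) by group,
      comm_of_mem_scalars hz y, inv_mul_cancel_left]
    simp only [Units.val_mul, hk, mul_smul_comm, smul_mul_assoc, mul_one, Matrix.map_mul]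
    rw [mul_assoc, h.ea, ← mul_assoc, h.et, mul_assoc]
  rw [cq e2, smul_mul_smul_comm, ← Matrix.map_mul] at e1
  have e3 := congrFun (congrFun e1 3) 0
  simp only [Matrix.add_apply, Matrix.smul_apply, map_apply, TA_1, TA_2] at e3
  obtain rfl : k = 0 := by simpa using e3
  simp at e1

theorem mem_GU_iff [Fintype F] {q : ℕ} (hF : Fintype.card F = q ^ 2) (x : GL (Fin 4) F) :
    x ∈ GU 4 F q ↔ x.1ᵀ * x.1.map (frobq hF) = 1 := by
  have e : ∀ u v : Fin 4 → F, hermForm 4 F q u v = u ⬝ᵥ (frobq hF ∘ v) := fun _ _ => rfl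
  have e' : ∀ u v : Fin 4 → F, hermForm 4 F q (x.1 *ᵥ u) (x.1 *ᵥ v) =
      u ⬝ᵥ (x.1ᵀ * x.1.map (frobq hF)) *ᵥ (frobq hF ∘ v) := fun u v => by
    rw [e, ← mulVec_mulVec, dotProduct_mulVec u, vecMul_transpose]
    congr 1
    funext i
    exact RingHom.map_mulVec _ _ _ i
  rw [mem_GU]
  refine ⟨fun h => ?_, fun h u v => by rw [e', h, one_mulVec, e]⟩
  ext i j
  have := h (Pi.single i 1) (Pi.single j 1)
  rw [e', e, show frobq hF ∘ Pi.single j (1 : F) = Pi.single j 1 by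
    funext k; simp [Pi.single_apply, apply_ite (frobq hF), -frobq_apply]] at this
  simpa [Pi.single_apply, one_apply, eq_comm] using this

theorem Dat.mem_GU [Fintype F] {q : ℕ} (hF : Fintype.card F = q ^ 2) (h : Dat H b hb Q a t)
    (h2 : (2 : F) ≠ 0) (hH : H ≤ GU 4 F q) (hg : g.1 = (2 : F)⁻¹ • G0.map (ev b hb)) :
    Q * g * Q⁻¹ ∈ GU 4 F q := by
  set σ := frobq hF
  have ua := (mem_GU_iff hF a).1 (hH h.aH)
  have ut := (mem_GU_iff hF t).1 (hH h.tH)
  have hσ : σ b = -1 - b := by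
    have e : (a⁻¹).1 = (a.1.map σ)ᵀ := by
      have := congrArg transpose ua
      rw [transpose_mul, transpose_transpose, transpose_one] at this
      exact Units.inv_eq_of_mul_eq_one_left this
    have := h.tr'
    rw [tr4, e, trace_transpose, ← AddMonoidHom.map_trace, ← tr4, h.tr, map_add, map_one] at this
    linear_combination this
  have st : ∀ Y : M R, (Y.map (ev b hb)).map σ = (Y.map star).map (ev b hb) := fun Y => by
    ext i j
    simp only [map_apply]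
    rw [show ∀ z : R, ev b hb z = z.re + z.im * b from fun _ => rfl,
      show ∀ z : R, ev b hb z = z.re + z.im * b from fun _ => rfl]
    simp [hσ]
    ring
  obtain ⟨K, hK⟩ : ∃ K, K = (Q⁻¹).1ᵀ * K0.map (ev b hb) * (Q⁻¹).1.map σ := ⟨_, rfl⟩
  have key : ∀ {x : GL (Fin 4) F} {Y : M R} {n : F} {m : R},
      x.1 * Q.1 = Q.1 * n • Y.map (ev b hb) → Yᵀ * K0 * Y.map star = m • K0 →
      x.1ᵀ * K * x.1.map σ = (n * σ n * ev b hb m) • K := fun {x Y n m} e1 e2 => by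
    have e3 : (Q⁻¹).1 * x.1 = n • Y.map (ev b hb) * (Q⁻¹).1 := by
      rw [← Units.mul_inv_cancel_right x.1 Q, e1, ← mul_assoc, Units.inv_mul_cancel_left]
    have e4 := congrArg (·.map (ev b hb)) e2
    simp only [Matrix.map_mul, mp_smul, transpose_map, ← st] at e4
    have e5 : ∀ Z : M F, (n • Z).map σ = σ n • Z.map σ := fun Z => by ext; simp
    rw [hK, ← mul_assoc, ← mul_assoc, ← transpose_mul, mul_assoc, ← Matrix.map_mul, e3,
      transpose_mul, Matrix.map_mul, e5, transpose_smul]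
    simp only [mul_smul_comm, smul_mul_assoc, smul_smul]
    rw [mul_assoc _ _ (K0.map _), ← mul_assoc, mul_assoc (Q⁻¹).1ᵀ, e4]
    simp only [mul_smul_comm, smul_mul_assoc, smul_smul, mul_comm n]
  have cm : ∀ {x : M F}, xᵀ * x.map σ = 1 → xᵀ * K * x.map σ = K → Kᵀ * x = x * Kᵀ :=
    fun {x} e1 e2 => by
      have := congrArg (· * xᵀ) e2
      simp only [mul_assoc, mul_eq_one_comm.1 e1, mul_one] at this
      simpa using congrArg transpose this
  obtain ⟨k, hk⟩ := h.comm Kᵀ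
    (cm ua (by simpa using key (n := 1) (by simpa using h.ea) hermA))
    (cm ut (by simpa using key (n := 1) (by simpa using h.et) hermT))
  replace hk : K = k • 1 := by simpa using congrArg transpose hk
  have k0 : k ≠ 0 := by
    rintro rfl
    have : Q.1ᵀ * K * Q.1.map σ = K0.map (ev b hb) := by
      rw [hK, ← mul_assoc, ← mul_assoc, ← transpose_mul, mul_assoc, ← Matrix.map_mul,
        Units.inv_mul]
      simp
    have := congrFun (congrFun this 0) 1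
    simp [hk, K0, ev_mk] at this
  have e := key (x := Q * g * Q⁻¹) (by
    rw [Units.val_mul, Units.inv_mul_cancel_right, Units.val_mul, hg]) hermG
  rw [map_inv₀, map_ofNat, map_ofNat, show (2 : F)⁻¹ * 2⁻¹ * 4 = 1 by field_simp; norm_num, hk,
    one_smul, mul_smul_comm, smul_mul_assoc, mul_one] at e
  exact (mem_GU_iff hF _).2 (smul_right_injective _ k0 e)

theorem conj_mem_SL (hg : g ∈ specialLinear (Fin 4) F) (Q : GL (Fin 4) F) :
    Q * g * Q⁻¹ ∈ specialLinear (Fin 4) F := by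
  rw [AL.mem_specialLinear'] at hg ⊢
  rw [Units.val_mul, Units.val_mul, det_units_conj, hg]

end L27

open L27

/-- `2.L₂(7)` is not maximal in `SL₄`. -/
theorem w27L : W27L.{u} := fun F _ _ H P hH hP hPH hN e _ _ h2 h7 => by
  obtain ⟨b, hb, Q, a, t, h⟩ := exists_dat hP hPH hN e h2 h7
  obtain ⟨g, g1, hg⟩ := exists_g (ev b hb) h2
  have e : (Pi.single 1 1 : Fin 4 → F) ⬝ᵥ Pi.single 0 1 = 0 := by simp
  exact h.false h2 h7 hH hg (conj_mem_SL g1 Q) ⟨_, AL.tv_mem_specialLinear e, _, _,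
    by simp, by simp, e, tv_coe e⟩

/-- `2.L₂(7)` is not maximal in `SU₄`. -/
theorem w27U : W27U.{u} := fun F _ _ q H P hF hq h7 hH hP hPH hN e _ _ => by
  have k : ∀ n : ℕ, q.Coprime n → (n : F) ≠ 0 := fun n hn h0 => by
    have h1 : (q : F) = 0 := pow_eq_zero_iff two_ne_zero |>.1 (by
      rw [← Nat.cast_pow, ← hF, FiniteField.cast_card_eq_zero])
    exact CharP.ringChar_ne_one (R := F) (Nat.eq_one_of_dvd_coprimes hn
      ((ringChar.spec F q).1 h1) ((ringChar.spec F n).1 h0))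
  have h2 : (2 : F) ≠ 0 := by
    exact_mod_cast k 2 ((Nat.coprime_primes hq Nat.prime_two).2 (by omega))
  replace h7 : (7 : F) ≠ 0 := by
    exact_mod_cast k 7 ((Nat.coprime_primes hq (by norm_num)).2 (by omega))
  obtain ⟨b, hb, Q, a, t, h⟩ := exists_dat hP hPH hN e h2 h7
  obtain ⟨g, g1, hg⟩ := exists_g (ev b hb) h2
  exact h.false h2 h7 hH hg ⟨h.mem_GU hF h2 (hH.1.le.trans inf_le_left) hg, conj_mem_SL g1 Q⟩
    ((TvP.tvIrr_SUG hF (by norm_num)).exists_tv (by simp))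

end Cfsg.Lib.Four
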