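import Cfsg.Agent.Class.Four.Defs

/-!
# Subgroups of `SL₄` over a finite field: traces, centre, ranks
-/

set_option autoImplicit false

namespace Cfsg.Lib.Four

open Matrix Cfsg.Geo Cfsg.Lib.Class Cfsg.Lib.Class.Asch Cfsg.Lib.Mit
open scoped MatrixGroups commutatorElement

variable {F : Type*} [Field F]

/-! ## Traces -/

/-- The trace of an invertible matrix. -/
def tr4 (x : GL (Fin 4) F) : F := (x : Matrix (Fin 4) (Fin 4) F).trace

theorem tr4_one : tr4 (1 : GL (Fin 4) F) = 4 := by simp [tr4]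

theorem tr4_conj (y x : GL (Fin 4) F) : tr4 (y * x * y⁻¹) = tr4 x := by
  simp only [tr4, Units.val_mul]
  rw [trace_mul_comm, ← mul_assoc, Units.inv_mul, one_mul]

theorem tr4_pow_char (p : ℕ) [Fact p.Prime] [CharP F p] (x : GL (Fin 4) F) :
    tr4 (x ^ p) = tr4 x ^ p := by
  rw [tr4, Units.val_pow_eq_pow_val, Five.trace_pow_char' p, tr4]

theorem tr4_pow_char_pow (p : ℕ) [Fact p.Prime] [CharP F p] (x : GL (Fin 4) F) (k : ℕ) :
    tr4 (x ^ p ^ k) = tr4 x ^ p ^ k := by
  induction k with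
  | zero => simp
  | succ k ih => rw [pow_succ, pow_mul, pow_mul, tr4_pow_char, ih]

/-- Unipotent elements have trace four. -/
theorem tr4_eq_four (p : ℕ) [Fact p.Prime] [CharP F p] {x : GL (Fin 4) F} {k : ℕ}
    (h : x ^ p ^ k = 1) : tr4 x = 4 := by
  apply (iterateFrobenius F p k).injective
  rw [iterateFrobenius_def, ← tr4_pow_char_pow, h, tr4_one, map_ofNat]

section Fields

variable [Fintype F] {P : Subgroup (GL (Fin 4) F)}

/-- Real traces give an invariant alternating or quadratic form. -/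
theorem fix_of_real4' (hP : env P = ⊤) (h : ∀ x ∈ P, tr4 x⁻¹ = tr4 x) :
    FixA P ∨ (2 : F) ≠ 0 ∧ FixQ P := by
  obtain ⟨ε, f, hf, hε, hle⟩ := exists_form_of_trace (RingEquiv.refl F) (fun _ => rfl) hP h
  by_cases h0 : ∀ v, f v v = 0
  · refine .inl ⟨f, hf.isSymplecticForm h0, ?_⟩
    rintro _ ⟨g, hg, rfl⟩ u v
    exact hle hg u v
  have h2 : (2 : F) ≠ 0 := fun h2 =>
    h0 (hf.alt_of_irr h2 (by simp) (irr_of_env_eq_top hP) (hle.trans (isoms_le_similarityGroup f)))
  rcases hε with rfl | ⟨-, rfl⟩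
  · refine .inr ⟨h2, _, hf.isNondegenerateQuadraticForm_self h2, ?_⟩
    rintro _ ⟨g, hg, rfl⟩ v
    exact hle hg v v
  · exact absurd (hf.alt_of_neg_one h2) h0

theorem fix_of_real4 (hP : env P = ⊤) (h : ∀ x ∈ P, tr4 x⁻¹ = tr4 x) : FixA P ∨ FixQ P :=
  (fix_of_real4' hP h).imp_right And.right

theorem fixA_of_real4 (hP : env P = ⊤) (h2 : (2 : F) = 0) (h : ∀ x ∈ P, tr4 x⁻¹ = tr4 x) :
    FixA P := (fix_of_real4' hP h).resolve_right fun k => k.1 h2

theorem pow_eq_self_of_tr4 (p : ℕ) [Fact p.Prime] [CharP F p] (hP : env P = ⊤) (hns : NoSub P)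
    {k : ℕ} (h : ∀ x ∈ P, tr4 x ^ p ^ k = tr4 x) (t : F) : t ^ p ^ k = t := by
  let F₀ : Subfield F := (iterateFrobenius F p k).eqLocusField (RingHom.id F)
  by_cases h0 : F₀ = ⊤
  · exact (h0.ge (Subfield.mem_top t) : iterateFrobenius F p k t = t)
  obtain ⟨Q, hQ, -⟩ := exists_ratl_of_trace_group (F₀ := F₀) hP h
  refine absurd ⟨Q⁻¹, ?_⟩ (hns F₀ h0)
  rintro _ ⟨g, hg, rfl⟩ i j
  exact hQ g hg i j

theorem card_eq_char4 (p : ℕ) [hp : Fact p.Prime] [CharP F p] (hP : env P = ⊤) (hns : NoSub P)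
    (h : ∀ x ∈ P, tr4 x ^ p = tr4 x) : Fintype.card F = p := by
  have h1 := card_le_of_pow_eq_self (n := p ^ 1) (by simpa using hp.out.one_lt)
    (pow_eq_self_of_tr4 p hP hns (k := 1) (by simpa using h))
  obtain ⟨n, -, hn⟩ := FiniteField.card F p
  rw [hn, pow_le_pow_iff_right₀ hp.out.one_lt] at h1
  rw [hn, show (n : ℕ) = 1 from le_antisymm h1 n.2, pow_one]

theorem card_eq_char_sq4 (p : ℕ) [hp : Fact p.Prime] [CharP F p] (hP : env P = ⊤) (hns : NoSub P)
    (h : ∀ x ∈ P, tr4 x ^ p ^ 2 = tr4 x) {t : F} (ht : t ^ p ≠ t) : Fintype.card F = p ^ 2 := by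
  have h1 := card_le_of_pow_eq_self (n := p ^ 2) (Nat.one_lt_pow two_ne_zero hp.out.one_lt)
    (pow_eq_self_of_tr4 p hP hns h)
  obtain ⟨n, -, hn⟩ := FiniteField.card F p
  rw [hn, pow_le_pow_iff_right₀ hp.out.one_lt] at h1
  have h2 : (n : ℕ) ≠ 1 := fun h2 => ht (by
    have := FiniteField.pow_card t
    rwa [hn, h2, pow_one] at this)
  have h3 : 0 < (n : ℕ) := n.2
  have h4 : (n : ℕ) = 2 := by omega
  rw [hn, h4]

theorem fixU_of_tr4 {q : ℕ} (hF : Fintype.card F = q ^ 2) (hP : env P = ⊤)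
    (h : ∀ x ∈ P, tr4 x⁻¹ = tr4 x ^ q) : FixU P := by
  obtain ⟨ε, f, hf, hε, hle⟩ := exists_form_of_trace (frobqEquiv hF) (pow_q_pow_q hF) hP h
  rcases hε with rfl | ⟨h0, -⟩
  · refine ⟨_, f, hf.isUnitaryForm (frobqEquiv_ne_refl hF), ?_⟩
    rintro _ ⟨g, hg, rfl⟩ u v
    exact hle hg u v
  · exact absurd h0 (frobqEquiv_ne_refl hF)

/-- Traces twisted by Frobenius. -/
theorem card_fixU4 (p : ℕ) [Fact p.Prime] [CharP F p] (hP : env P = ⊤) (hns : NoSub P)
    (h : ∀ x ∈ P, tr4 x⁻¹ = tr4 x ^ p) {t : F} (ht : t ^ p ≠ t) :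
    Fintype.card F = p ^ 2 ∧ FixU P := by
  have h1 := card_eq_char_sq4 p hP hns (fun x hx => by
    rw [pow_two, pow_mul, ← h x hx, ← h _ (inv_mem hx), inv_inv]) ht
  exact ⟨h1, fixU_of_tr4 h1 hP h⟩

/-- Traces twisted by Frobenius: unitary over the field of order `p²`, or real. -/
theorem out_of_twist (p : ℕ) [Fact p.Prime] [CharP F p] (hP : env P = ⊤) (hns : NoSub P)
    (h : ∀ x ∈ P, tr4 x⁻¹ = tr4 x ^ p) :
    (Fintype.card F = p ^ 2 ∧ FixU P) ∨ FixA P ∨ FixQ P := by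
  by_cases ht : ∃ t : F, t ^ p ≠ t
  · obtain ⟨t, ht⟩ := ht
    exact .inl (card_fixU4 p hP hns h ht)
  · push Not at ht
    exact .inr (fix_of_real4 hP fun x hx => (h x hx).trans (ht _))

end Fields

/-! ## The centre -/

section Centre

variable {P : Subgroup (GL (Fin 4) F)} {G : Type*} [Group G] {π : P →* G}

theorem proj_bar4 (P : Subgroup (GL (Fin 4) F)) :
    Proj P (QuotientGroup.mk' ((scalars (Fin 4) F).subgroupOf P)) :=
  ⟨QuotientGroup.mk'_surjective _, fun x => by simp [Subgroup.mem_subgroupOf]⟩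

theorem commutator_eq_top4 (h : QS P) : _root_.commutator P = ⊤ := by
  apply Subgroup.map_injective P.subtype_injective
  rw [_root_.commutator_def, Subgroup.map_commutator, ← MonoidHom.range_eq_map,
    Subgroup.range_subtype, h.perfect]

theorem pow_four_of_ker (hP : QS P) (h : Proj P π) {z : P} (hz : π z = 1) : z ^ 4 = 1 :=
  Subtype.ext (by simpa using pow_card_eq_one_of_scalar ((h.ker z).1 hz) (hP.le_specialLinear z.2))

theorem comm_of_ker4 (h : Proj P π) {z : P} (hz : π z = 1) (y : P) : z * y = y * z :=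
  Subtype.ext (comm_of_mem_scalars ((h.ker z).1 hz) y)

/-- The matrix of a central element. -/
theorem exists_scalar_of_ker (hP : QS P) (h : Proj P π) {z : P} (hz : π z = 1) :
    ∃ c : F, c ^ 4 = 1 ∧ (z.1 : Matrix (Fin 4) (Fin 4) F) = c • 1 := by
  have h1 : (z : GL (Fin 4) F) ^ 4 = 1 := congrArg Subtype.val (pow_four_of_ker hP h hz)
  obtain ⟨c, hc⟩ := (h.ker z).1 hz
  refine ⟨c, ?_, by rw [← hc]; ext i j; simp [diagonal_apply, one_apply]⟩
  rw [← hc, ← map_pow] at h1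
  have := congrArg (fun g : GL (Fin 4) F => (g : Matrix (Fin 4) (Fin 4) F) 0 0) h1
  simpa [Matrix.diagonal_pow] using this

/-- The centre is trivial in characteristic two. -/
theorem injective_of_two (hP : QS P) (h : Proj P π) (h2 : (2 : F) = 0) :
    Function.Injective π := by
  rw [injective_iff_map_eq_one]
  intro z hz
  obtain ⟨c, hc, e⟩ := exists_scalar_of_ker hP h hz
  have h3 : (c - 1) ^ 4 = 0 := by linear_combination hc + (-2 * c ^ 3 + 3 * c ^ 2 - 2 * c + 1) * h2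
  rw [sub_eq_zero.1 (pow_eq_zero_iff (by norm_num) |>.1 h3), one_smul] at e
  exact Subtype.ext (Units.ext e)

end Centre

/-! ## Ranks -/

section Rank

variable {P : Subgroup (GL (Fin 4) F)}

/-- Scott's lemma for an absolutely irreducible group generated modulo scalars by `a` and `b`. -/
theorem scott4 (hP : env P = ⊤) {a b c : GL (Fin 4) F} (h : a * b * c = 1) (ha1 : a ≠ 1)
    (hgen : ∀ W : Submodule F (Fin 4 → F), (∀ v ∈ W, (a : Matrix (Fin 4) (Fin 4) F) *ᵥ v ∈ W) →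
      (∀ v ∈ W, (b : Matrix (Fin 4) (Fin 4) F) *ᵥ v ∈ W) →
      ∀ g ∈ P, ∀ v ∈ W, (g : Matrix (Fin 4) (Fin 4) F) *ᵥ v ∈ W) :
    8 ≤ ((a : Matrix (Fin 4) (Fin 4) F) - 1).rank + ((b : Matrix (Fin 4) (Fin 4) F) - 1).rank +
      ((c : Matrix (Fin 4) (Fin 4) F) - 1).rank := by
  have hI := irr_of_env_eq_top hP
  let L : GL (Fin 4) F → Module.End F (Fin 4 → F) := fun g => toLin' (g : Matrix (Fin 4) (Fin 4) F)
  have hL : ∀ g v, L g v = (g : Matrix (Fin 4) (Fin 4) F) *ᵥ v := fun g v => toLin'_apply _ _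
  have hr : ∀ g : GL (Fin 4) F, Module.finrank F (LinearMap.range (1 - L g)) =
      ((g : Matrix (Fin 4) (Fin 4) F) - 1).rank := fun g => by
    have : 1 - L g = -(((g : Matrix (Fin 4) (Fin 4) F) - 1).mulVecLin) := by
      ext v i
      simp [L, sub_mulVec]
    rw [this, LinearMap.range_neg, Matrix.rank]
  have key := Cfsg.Agent.S5529.scott (L a) (L b) (L c) (by
    simp only [L, Module.End.mul_eq_comp, ← toLin'_mul, ← Units.val_mul, h, Units.val_one,
      toLin'_one]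
    rfl)
  have h1 : LinearMap.range (1 - L a) ≠ ⊥ := fun h0 => ha1 (Units.ext (by
    have := LinearMap.range_eq_bot.1 h0
    apply toLin'.injective
    rw [Units.val_one, toLin'_one]
    exact (sub_eq_zero.1 this).symm))
  have h2 : LinearMap.range (1 - L a) ⊔ LinearMap.range (1 - L b) = ⊤ := by
    refine (hI _ (hgen _ (fun v hv => ?_) fun v hv => ?_)).resolve_left
      fun h0 => h1 (le_bot_iff.1 (le_sup_left.trans h0.le))
    · have := sub_mem hv (Submodule.mem_sup_left (S := LinearMap.range (1 - L a))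
        (T := LinearMap.range (1 - L b)) ⟨v, rfl⟩)
      simpa [hL] using this
    · have := sub_mem hv (Submodule.mem_sup_right (S := LinearMap.range (1 - L a))
        (T := LinearMap.range (1 - L b)) ⟨v, rfl⟩)
      simpa [hL] using this
  have h3 : LinearMap.ker (1 - L a) ⊓ LinearMap.ker (1 - L b) = ⊥ := by
    refine (hI _ (hgen _ (fun v hv => ?_) fun v hv => ?_)).resolve_right
      fun h0 => h1 (LinearMap.range_eq_bot.2 (LinearMap.ker_eq_top.1
        (top_le_iff.1 (h0.ge.trans inf_le_left))))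
    · have : (a : Matrix (Fin 4) (Fin 4) F) *ᵥ v = v := by
        have := hv.1
        simp only [SetLike.mem_coe, LinearMap.mem_ker, LinearMap.sub_apply, hL] at this
        exact (sub_eq_zero.1 this).symm
      rwa [this]
    · have : (b : Matrix (Fin 4) (Fin 4) F) *ᵥ v = v := by
        have := hv.2
        simp only [SetLike.mem_coe, LinearMap.mem_ker, LinearMap.sub_apply, hL] at this
        exact (sub_eq_zero.1 this).symm
      rwa [this]
  rw [h2, h3, hr, hr, hr] at key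
  simpa using key

end Rank

end Cfsg.Lib.Four
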