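import Cfsg.Agent.Class.Four.L27Mod
import Cfsg.Agent.Class.Four.Tr
import Cfsg.Agent.Class.Five.Eig

/-!
# The four-dimensional representations of `2.L₂(7)` are given by the model
-/

set_option autoImplicit false

namespace Cfsg.Lib.Four.L27

open Matrix Cfsg.Geo Cfsg.Lib.Class Cfsg.Lib.Class.Asch Cfsg.Lib.Mit Cfsg.Lib.Five Finset
open scoped MatrixGroups

variable {F : Type*} [Field F]

/-- The eigenvalues of an element of order seven conjugate to its square. -/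
theorem eig {a c : GL (Fin 4) F} (h7 : (7 : F) ≠ 0) (ha : a ^ 7 = 1) (h1 : a ≠ 1)
    (hd : a.1.det = 1) (hc : c * a * c⁻¹ = a * a) :
    ∃ b : F, b * b + b + 2 = 0 ∧ tr4 a = 1 + b ∧ tr4 a⁻¹ = -b ∧ (a.1 - 1).rank = 3 ∧
      (a.1 - 1) * (a.1 * a.1 * a.1 - b • (a.1 * a.1) - (1 + b) • a.1 - 1) = 0 := by
  classical
  have inj := (algebraMap F (AC F)).injective
  obtain ⟨ε, h, hε⟩ := exists_dg (M := a.1) (n := 7) h7
    (by rw [← Units.val_pow_eq_pow_val, ha, Units.val_one])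
  have h2 : Dg (a.1 ^ 2) ε := by
    have := h.conj c
    rwa [← Units.val_mul, ← Units.val_mul, hc, Units.val_mul, ← sq] at this
  have cl : ∀ z ∈ univ.val.map ε, z ^ 2 ∈ univ.val.map ε := fun z hz => by
    obtain ⟨i, hi, rfl⟩ := Multiset.mem_map.1 hz
    rw [h2.roots.symm.trans (h.pow 2).roots]
    exact Multiset.mem_map.2 ⟨i, hi, rfl⟩
  obtain ⟨i, hi⟩ : ∃ i, ε i ≠ 1 := by
    by_contra! e
    obtain ⟨Q, hQ⟩ := h
    rw [show ε = fun _ => 1 from funext e, diagonal_one, mul_one, Units.mul_inv] at hQ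
    exact h1 (Units.ext (Matrix.map_injective inj (hQ.trans (by simp))))
  have m1 : ε i ∈ univ.val.map ε := Multiset.mem_map.2 ⟨i, mem_univ i, rfl⟩
  have z7 := hε i
  generalize ε i = ζ at hi m1 z7
  have z0 : ζ ≠ 0 := by rintro rfl; simp at z7
  have zs : 1 + ζ + ζ ^ 2 + ζ ^ 3 + ζ ^ 4 + ζ ^ 5 + ζ ^ 6 = 0 :=
    mul_left_cancel₀ (sub_ne_zero.2 hi) (by linear_combination z7)
  have z2 : ζ ^ 2 ≠ 1 := fun e => hi (by
    linear_combination z7 - (ζ + ζ ^ 3 + ζ ^ 5) * e)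
  have z3 : ζ ^ 3 ≠ 1 := fun e => hi (by linear_combination z7 - (ζ + ζ ^ 4) * e)
  have z4 : (ζ ^ 2) ^ 2 ≠ 1 := fun e => hi (by linear_combination (ζ ^ 4 + 1) * e - ζ * z7)
  obtain ⟨n1, e1⟩ := Multiset.exists_cons_of_mem m1
  have m2 := cl _ m1
  have m4 := cl _ m2
  rw [e1] at m2 m4
  obtain ⟨n2, rfl⟩ := Multiset.exists_cons_of_mem ((Multiset.mem_cons.1 m2).resolve_left
    fun e => hi (mul_left_cancel₀ z0 (by linear_combination e)))
  obtain ⟨n3, rfl⟩ := Multiset.exists_cons_of_mem ((Multiset.mem_cons.1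
    ((Multiset.mem_cons.1 m4).resolve_left fun e => z3
      (mul_left_cancel₀ z0 (by linear_combination e)))).resolve_left fun e => z2
      (mul_left_cancel₀ (pow_ne_zero 2 z0) (by linear_combination e)))
  obtain ⟨x, rfl⟩ := Multiset.card_eq_one.1 (show n3.card = 1 by
    simpa using (congrArg Multiset.card e1).symm)
  obtain rfl : 1 = x := by
    have := h.det
    rw [hd, map_one, prod_eq_multiset_prod, e1] at this
    simp only [Multiset.prod_cons, Multiset.prod_singleton] at this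
    linear_combination this + x * z7
  have hb : algebraMap F (AC F) (tr4 a - 1) = ζ + ζ ^ 2 + ζ ^ 4 := by
    rw [map_sub, tr4, h.trace, sum_eq_multiset_sum, e1]
    simp only [Multiset.sum_cons, Multiset.sum_singleton, map_one]
    ring
  refine ⟨tr4 a - 1, inj ?_, by ring, inj ?_, ?_, Matrix.map_injective inj ?_⟩
  · rw [map_add, map_add, map_mul, hb, map_ofNat, map_zero]
    linear_combination 2 * zs + ζ * z7
  · have e : (a⁻¹).1 = a.1 ^ 6 := by
      rw [← Units.val_pow_eq_pow_val, inv_eq_of_mul_eq_one_right ((pow_succ' a 6).symm.trans ha)]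
    rw [map_neg, hb, tr4, e, (h.pow 6).trace, sum_eq_multiset_sum,
      show (univ.val.map fun i => ε i ^ 6) = (univ.val.map ε).map (· ^ 6) by
        rw [Multiset.map_map]; rfl, e1]
    simp only [Multiset.map_cons, Multiset.map_singleton, Multiset.sum_cons,
      Multiset.sum_singleton]
    linear_combination zs + (ζ ^ 5 + ζ ^ 17 + ζ ^ 10 + ζ ^ 3) * z7
  · have := congrArg (Multiset.countP (· ≠ 1)) e1
    rw [Multiset.countP_map, Multiset.countP_cons_of_pos (p := (· ≠ 1)) _ hi,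
      Multiset.countP_cons_of_pos (p := (· ≠ 1)) _ z2,
      Multiset.countP_cons_of_pos (p := (· ≠ 1)) _ z4, Multiset.countP_eq_zero.2 (by simp)] at this
    rw [h.rank, card_def, filter_val]
    convert this
  · obtain ⟨Q, hQ⟩ := h
    have e : a.1.map (algebraMap F (AC F)) * Q.1 = Q.1 * diagonal ε := by
      rw [hQ, Units.inv_mul_cancel_right]
    have e' : ∀ X, a.1.map (algebraMap F (AC F)) * (Q.1 * X) = Q.1 * (diagonal ε * X) :=
      fun X => by rw [← mul_assoc, e, mul_assoc]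
    have k : ∀ (y : F) (X : M F), (y • X).map (algebraMap F (AC F)) =
        algebraMap F (AC F) y • X.map (algebraMap F (AC F)) := fun y X => by ext; simp
    have p : (diagonal ε - 1) * (diagonal ε * diagonal ε * diagonal ε -
        (ζ + ζ ^ 2 + ζ ^ 4) • (diagonal ε * diagonal ε) -
        (1 + (ζ + ζ ^ 2 + ζ ^ 4)) • diagonal ε - 1) = 0 := by
      simp only [← diagonal_one, diagonal_mul_diagonal, ← diagonal_smul, diagonal_sub,
        ← diagonal_zero, diagonal_eq_diagonal_iff, Pi.smul_apply, smul_eq_mul]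
      intro j
      have : ε j ∈ univ.val.map ε := Multiset.mem_map.2 ⟨j, mem_univ j, rfl⟩
      simp only [e1, Multiset.mem_cons, Multiset.mem_singleton] at this
      rcases this with r | r | r | r <;> rw [r]
      · linear_combination (1 - ζ) * zs
      · linear_combination (1 - ζ ^ 2) * zs + (1 - ζ ^ 2) * ζ * z7
      · linear_combination (1 - ζ ^ 4) * zs + (1 - ζ ^ 4) * (ζ ^ 2 + ζ ^ 3 + ζ) * z7
      · ring
    change (algebraMap F (AC F)).mapMatrix _ = (algebraMap F (AC F)).mapMatrix _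
    simp only [map_mul, map_sub, map_one, map_zero, RingHom.mapMatrix_apply, k, map_add, hb,
      Matrix.map_mul]
    rw [← Q.mul_left_inj, zero_mul, ← mul_zero Q.1, ← p]
    simp only [mul_sub, sub_mul, mul_assoc, smul_mul_assoc, mul_smul_comm, one_mul, mul_one, e, e']

theorem cols {X Y : M F} {u : Fin 4 → Fin 4 → F} (h : ∀ j, X *ᵥ u j = ∑ k, Y k j • u k) :
    X * (of u)ᵀ = (of u)ᵀ * Y := by
  ext i j
  simpa [mul_apply, mulVec, dotProduct, mul_comm] using congrFun (h j) i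

/-- The model. -/
theorem model {a c t : GL (Fin 4) F} {b s : F} (hb : b * b + b + 2 = 0) (h2 : (2 : F) ≠ 0)
    (ha : a ^ 7 = 1) (hc : c ^ 3 = 1) (hca : c * a = a * a * c) (hct : c * t * c = t)
    (ht : t.1 * t.1 = s • 1) (hs : s ^ 4 = 1) (hta : (t * a) ^ 3 = 1) (hr : (a.1 - 1).rank = 3)
    (hp : (a.1 - 1) * (a.1 * a.1 * a.1 - b • (a.1 * a.1) - (1 + b) • a.1 - 1) = 0)
    (irr : ∀ W : Submodule F (Fin 4 → F), (∀ v ∈ W, a.1 *ᵥ v ∈ W) → (∀ v ∈ W, t.1 *ᵥ v ∈ W) →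
      W = ⊥ ∨ W = ⊤) :
    ∃ Q : GL (Fin 4) F, a.1 * Q.1 = Q.1 * A0.map (ev b hb) ∧ t.1 * Q.1 = Q.1 * T0.map (ev b hb) := by
  have hk : Module.finrank F (LinearMap.ker (a.1 - 1).mulVecLin) = 1 := by
    have := (a.1 - 1).mulVecLin.finrank_range_add_finrank_ker
    rw [Module.finrank_fin_fun, show Module.finrank F (LinearMap.range (a.1 - 1).mulVecLin) = 3
      from hr] at this
    omega
  have mem : ∀ w, w ∈ LinearMap.ker (a.1 - 1).mulVecLin ↔ a.1 *ᵥ w = w := fun w => by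
    rw [LinearMap.mem_ker, mulVecLin_apply, sub_mulVec, one_mulVec, sub_eq_zero]
  obtain ⟨⟨v, hv⟩, v0, hv'⟩ := finrank_eq_one_iff'.1 hk
  rw [mem] at hv
  replace v0 : v ≠ 0 := fun e => v0 (Subtype.ext e)
  have fx : ∀ w, a.1 *ᵥ w = w → ∃ k : F, w = k • v := fun w hw =>
    (hv' ⟨w, (mem w).2 hw⟩).imp fun k e => (congrArg Subtype.val e).symm
  have cn : ∀ (g : GL (Fin 4) F) {x y}, g.1 *ᵥ x = g.1 *ᵥ y → x = y := fun g x y e => by
    rw [← inv_mulVec_mulVec g x, e, inv_mulVec_mulVec]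
  have ap : ∀ {g h : GL (Fin 4) F}, g = h → ∀ x, g.1 *ᵥ x = h.1 *ᵥ x := fun e x => by rw [e]
  have a7 := ap ha
  have c3 := ap hc
  have ca := ap hca
  have ct := ap hct
  have ta := ap hta
  have tt : ∀ x, t.1 *ᵥ t.1 *ᵥ x = s • x := fun x => by
    rw [mulVec_mulVec, ht, smul_mulVec, one_mulVec]
  simp only [pow_succ, pow_zero, one_mul, Units.val_mul, ← mulVec_mulVec, Units.val_one,
    one_mulVec] at a7 c3 ca ct ta
  obtain ⟨l, hl⟩ := fx (c.1 *ᵥ v) (by
    have e : a.1 *ᵥ a.1 *ᵥ c.1 *ᵥ v = c.1 *ᵥ v := by rw [← ca, hv]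
    have := a7 (a.1 *ᵥ c.1 *ᵥ v)
    rw [e, e, e, e] at this
    exact this.symm)
  have l3 : l ^ 3 = 1 := by
    have := c3 v
    simp only [hl, mulVec_smul, smul_smul] at this
    exact smul_left_injective F v0 (by simpa [pow_succ, mul_assoc] using this)
  obtain ⟨w0, h0⟩ : ∃ w, t.1 *ᵥ v = w := ⟨_, rfl⟩
  obtain ⟨w1, h1⟩ : ∃ w, a.1 *ᵥ w0 = w := ⟨_, rfl⟩
  obtain ⟨w2, h2'⟩ : ∃ w, a.1 *ᵥ w1 = w := ⟨_, rfl⟩
  obtain ⟨d, hd⟩ := fx ((a.1 * a.1 * a.1 - b • (a.1 * a.1) - (1 + b) • a.1 - 1) *ᵥ w0) (by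
    rw [← mem, LinearMap.mem_ker, mulVecLin_apply, mulVec_mulVec, hp, zero_mulVec])
  simp only [sub_mulVec, smul_mulVec, ← mulVec_mulVec, one_mulVec, h1, h2'] at hd
  have h3 : a.1 *ᵥ w2 = d • v + w0 + (1 + b) • w1 + b • w2 := by
    linear_combination (norm := module) hd
  obtain ⟨w6, h6⟩ : ∃ w, w = (-d) • v + (-(1 + b)) • w0 + (-b) • w1 + w2 := ⟨_, rfl⟩
  have a6 : a.1 *ᵥ w6 = w0 := by
    simp only [h6, mulVec_add, mulVec_smul, hv, h1, h2', h3]
    module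
  have t0 : t.1 *ᵥ w0 = s • v := by rw [← h0, tt]
  have sc : ∀ {x y : Fin 4 → F}, s • x = y → x = s ^ 3 • y := fun e => by
    rw [← e, smul_smul, ← pow_succ, hs, one_smul]
  have t1 : s • t.1 *ᵥ w1 = w6 := cn a (by
    have := congrArg (t.1 *ᵥ ·) (ta v)
    simp only [hv, h0, h1, tt] at this
    rw [mulVec_smul, this, a6])
  have c0 : l • c.1 *ᵥ w0 = w0 := by
    have := ct v
    simpa only [hl, mulVec_smul, h0] using this
  have c1 : l • c.1 *ᵥ w1 = w2 := by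
    rw [← h1, ca, ← mulVec_smul, ← mulVec_smul, c0, h1, h2']
  have c3' : l • c.1 *ᵥ a.1 *ᵥ w2 = w6 := by
    rw [← h2', ← h1, ca, ca, ca]
    simp only [← mulVec_smul, c0]
    rw [← a6, a7]
  have t2 : s • t.1 *ᵥ w2 = (l * l) • a.1 *ᵥ w2 := cn c (by
    rw [mulVec_smul, mulVec_smul, mul_smul, c3', ← t1, ← ct w1, smul_comm, ← c1, mulVec_smul,
      mulVec_smul])
  obtain ⟨A1, hA⟩ : ∃ X : M F, X = !![1, 0, 0, d; 0, 0, 0, 1; 0, 1, 0, 1 + b; 0, 0, 1, b] :=
    ⟨_, rfl⟩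
  obtain ⟨T1, hT⟩ : ∃ X : M F, X = !![0, s, -d * s ^ 3, l * l * d * s ^ 3;
    1, 0, -(1 + b) * s ^ 3, l * l * s ^ 3; 0, 0, -b * s ^ 3, l * l * (1 + b) * s ^ 3;
    0, 0, s ^ 3, l * l * b * s ^ 3] := ⟨_, rfl⟩
  have eA : a.1 * (of ![v, w0, w1, w2])ᵀ = (of ![v, w0, w1, w2])ᵀ * A1 := cols fun j => by
    fin_cases j <;> simp [hA, Fin.sum_univ_four, hv, h1, h2', h3]
  have eT : t.1 * (of ![v, w0, w1, w2])ᵀ = (of ![v, w0, w1, w2])ᵀ * T1 := cols fun j => by
    have e1 := sc t1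
    have e2 := sc t2
    rw [h6] at e1
    rw [h3] at e2
    fin_cases j <;> simp only [hT, Fin.sum_univ_four] <;> simp [h0, t0, e1, e2] <;> module
  have inv : ∀ {X Y : M F}, X * (of ![v, w0, w1, w2])ᵀ = (of ![v, w0, w1, w2])ᵀ * Y →
      ∀ x ∈ LinearMap.range (of ![v, w0, w1, w2])ᵀ.mulVecLin,
        X *ᵥ x ∈ LinearMap.range (of ![v, w0, w1, w2])ᵀ.mulVecLin := by
    rintro X Y e _ ⟨x, rfl⟩
    exact ⟨Y *ᵥ x, by simp only [mulVecLin_apply, mulVec_mulVec, e]⟩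
  obtain ⟨Q, hQ⟩ : IsUnit (of ![v, w0, w1, w2])ᵀ := mulVec_surjective_iff_isUnit.1
    (LinearMap.range_eq_top.1 ((irr _ (inv eA) (inv eT)).resolve_left fun e => v0 (by
      have := e.le ⟨Pi.single 0 1, rfl⟩
      rw [Submodule.mem_bot] at this
      rw [← this]
      ext i
      simp)))
  rw [← hQ] at eA eT
  have sq : T1 * T1 = s • 1 := Q.mul_right_inj.1 (by
    rw [← mul_assoc, ← eT, mul_assoc, ← eT, ← mul_assoc, ht]; simp)
  have s0 : s ≠ 0 := by rintro rfl; simp at hs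
  have b0 : b ≠ 0 := by rintro rfl; exact h2 (by linear_combination hb)
  have q1 := congrFun (congrFun sq 3) 2
  have q2 := congrFun (congrFun sq 2) 2
  have q3 := congrFun (congrFun sq 1) 2
  simp [hT, mul_apply, Fin.sum_univ_four] at q1 q2 q3
  have l2 : l * l = 1 := mul_left_cancel₀ (mul_ne_zero b0 (pow_ne_zero 6 s0))
    (by linear_combination q1)
  rw [l2] at q2 q3 hT
  obtain rfl : s = -1 := mul_left_cancel₀ s0 (by
    linear_combination -q2 + s ^ 6 * hb - s ^ 2 * hs)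
  obtain rfl : d = 1 := by linear_combination q3 - hb
  refine ⟨Q, eA.trans (congrArg _ ?_), eT.trans (congrArg _ ?_)⟩
  · ext i j
    fin_cases i <;> fin_cases j <;> simp [hA, A0, ev_mk]
  · ext i j
    fin_cases i <;> fin_cases j <;> simp [hT, T0, ev_mk] <;> ring

end Cfsg.Lib.Four.L27
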