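import Cfsg.Agent.Class.Four.Defs
import Cfsg.Agent.Class.TvProper
import Mathlib.Algebra.QuadraticAlgebra.Basic

/-!
# The model of `2.L₂(7) < 2.A₇` over `ℤ[b]`, `b² + b + 2 = 0`: seven alternating forms
-/

set_option autoImplicit false

namespace Cfsg.Lib.Four.L27

open Matrix Cfsg.Geo Cfsg.Lib.Class Cfsg.Lib.Class.Asch Cfsg.Lib.Mit
open scoped MatrixGroups

/-- The ring `ℤ[b]`. -/
abbrev R := QuadraticAlgebra ℤ (-2) (-1)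

/-- Square matrices of size four. -/
abbrev M (K : Type*) := Matrix (Fin 4) (Fin 4) K

/-- The element of order seven. -/
def A0 : M R := !![⟨1, 0⟩, ⟨0, 0⟩, ⟨0, 0⟩, ⟨1, 0⟩; ⟨0, 0⟩, ⟨0, 0⟩, ⟨0, 0⟩, ⟨1, 0⟩;
  ⟨0, 0⟩, ⟨1, 0⟩, ⟨0, 0⟩, ⟨1, 1⟩; ⟨0, 0⟩, ⟨0, 0⟩, ⟨1, 0⟩, ⟨0, 1⟩]

/-- The element of order four. -/
def T0 : M R := !![⟨0, 0⟩, ⟨-1, 0⟩, ⟨1, 0⟩, ⟨-1, 0⟩; ⟨1, 0⟩, ⟨0, 0⟩, ⟨1, 1⟩, ⟨-1, 0⟩;
  ⟨0, 0⟩, ⟨0, 0⟩, ⟨0, 1⟩, ⟨-1, -1⟩; ⟨0, 0⟩, ⟨0, 0⟩, ⟨-1, 0⟩, ⟨0, -1⟩]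

/-- Twice an element acting as a three-cycle on the forms. -/
def G0 : M R := !![⟨-2, 0⟩, ⟨0, 0⟩, ⟨0, 0⟩, ⟨-2, 0⟩; ⟨0, -1⟩, ⟨0, 1⟩, ⟨0, 1⟩, ⟨-2, -1⟩;
  ⟨0, -1⟩, ⟨0, 1⟩, ⟨-2, -1⟩, ⟨0, -1⟩; ⟨2, 0⟩, ⟨0, 0⟩, ⟨0, 0⟩, ⟨0, 0⟩]

/-- The invariant sesquilinear form. -/
def K0 : M R := !![⟨1, 2⟩, ⟨1, 0⟩, ⟨1, 0⟩, ⟨1, 0⟩; ⟨-1, 0⟩, ⟨1, 2⟩, ⟨1, 0⟩, ⟨1, 0⟩;
  ⟨-1, 0⟩, ⟨-1, 0⟩, ⟨1, 2⟩, ⟨1, 0⟩; ⟨-1, 0⟩, ⟨-1, 0⟩, ⟨-1, 0⟩, ⟨1, 2⟩]

/-- The seven alternating forms. -/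
def om : Fin 7 → M R := ![
  !![⟨0, 0⟩, ⟨3, 0⟩, ⟨0, 1⟩, ⟨0, 1⟩; ⟨-3, 0⟩, ⟨0, 0⟩, ⟨-1, -1⟩, ⟨-1, -1⟩;
    ⟨0, -1⟩, ⟨1, 1⟩, ⟨0, 0⟩, ⟨-1, -1⟩; ⟨0, -1⟩, ⟨1, 1⟩, ⟨1, 1⟩, ⟨0, 0⟩],
  !![⟨0, 0⟩, ⟨0, 1⟩, ⟨0, 1⟩, ⟨-1, -1⟩; ⟨0, -1⟩, ⟨0, 0⟩, ⟨-1, -1⟩, ⟨3, 0⟩;
    ⟨0, -1⟩, ⟨1, 1⟩, ⟨0, 0⟩, ⟨0, 1⟩; ⟨1, 1⟩, ⟨-3, 0⟩, ⟨0, -1⟩, ⟨0, 0⟩],
  !![⟨0, 0⟩, ⟨0, 1⟩, ⟨-1, -1⟩, ⟨0, 1⟩; ⟨0, -1⟩, ⟨0, 0⟩, ⟨0, 1⟩, ⟨-1, -1⟩;
    ⟨1, 1⟩, ⟨0, -1⟩, ⟨0, 0⟩, ⟨0, 1⟩; ⟨0, -1⟩, ⟨1, 1⟩, ⟨0, -1⟩, ⟨0, 0⟩],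
  !![⟨0, 0⟩, ⟨-1, -1⟩, ⟨0, 1⟩, ⟨-1, -1⟩; ⟨1, 1⟩, ⟨0, 0⟩, ⟨0, 1⟩, ⟨-1, -1⟩;
    ⟨0, -1⟩, ⟨0, -1⟩, ⟨0, 0⟩, ⟨3, 0⟩; ⟨1, 1⟩, ⟨1, 1⟩, ⟨-3, 0⟩, ⟨0, 0⟩],
  !![⟨0, 0⟩, ⟨0, 1⟩, ⟨-1, -1⟩, ⟨-1, -1⟩; ⟨0, -1⟩, ⟨0, 0⟩, ⟨3, 0⟩, ⟨0, 1⟩;
    ⟨1, 1⟩, ⟨-3, 0⟩, ⟨0, 0⟩, ⟨-1, -1⟩; ⟨1, 1⟩, ⟨0, -1⟩, ⟨1, 1⟩, ⟨0, 0⟩],
  !![⟨0, 0⟩, ⟨-1, -1⟩, ⟨-1, -1⟩, ⟨3, 0⟩; ⟨1, 1⟩, ⟨0, 0⟩, ⟨-1, -1⟩, ⟨0, 1⟩;
    ⟨1, 1⟩, ⟨1, 1⟩, ⟨0, 0⟩, ⟨0, 1⟩; ⟨-3, 0⟩, ⟨0, -1⟩, ⟨0, -1⟩, ⟨0, 0⟩],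
  !![⟨0, 0⟩, ⟨-1, -1⟩, ⟨3, 0⟩, ⟨0, 1⟩; ⟨1, 1⟩, ⟨0, 0⟩, ⟨0, 1⟩, ⟨0, 1⟩;
    ⟨-3, 0⟩, ⟨0, -1⟩, ⟨0, 0⟩, ⟨-1, -1⟩; ⟨0, -1⟩, ⟨0, -1⟩, ⟨1, 1⟩, ⟨0, 0⟩]]

/-- The polar form of the Pfaffian. -/
def pf {K : Type*} [CommRing K] (A B : M K) : K :=
  A 0 1 * B 2 3 - A 0 2 * B 1 3 + A 0 3 * B 1 2 + A 2 3 * B 0 1 - A 1 3 * B 0 2 + A 1 2 * B 0 3

/-- The elementary alternating matrices. -/
def el (K : Type*) [CommRing K] (p q : Fin 4) : M K := single p q 1 - single q p 1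

theorem actA : ∀ i, ∃ j, A0ᵀ * om i * A0 = (1 : R) • om j := by decide +kernel
theorem actT : ∀ i, ∃ j, T0ᵀ * om i * T0 = (1 : R) • om j := by decide +kernel
theorem actG : ∀ i, ∃ j, G0ᵀ * om i * G0 = (4 : R) • om j := by decide +kernel
theorem om_skew : ∀ i, (om i)ᵀ = -om i := by decide +kernel
theorem gram : ∀ l i, pf (om l) (om i) = (if l = i then -6 else 1) * ⟨1, 1⟩ := by decide +kernel
theorem el_span : ∀ p q, (-7 * ⟨1, 1⟩ : R) • el R p q = ∑ l, pf (om l) (el R p q) • om l := by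
  decide +kernel
theorem G0_sq : G0 * G0 + (2 : R) • G0 + (4 : R) • 1 = 0 := by decide +kernel
theorem G0_det : G0.det = 16 := by decide +kernel
theorem hermA : A0ᵀ * K0 * A0.map star = (1 : R) • K0 := by decide +kernel
theorem hermT : T0ᵀ * K0 * T0.map star = (1 : R) • K0 := by decide +kernel
theorem hermG : G0ᵀ * K0 * G0.map star = (4 : R) • K0 := by decide +kernel
theorem TA_1 : (T0 * A0) 3 0 = 0 := by decide +kernel
theorem TA_2 : (T0 * A0 * (T0 * A0)) 3 0 = -1 := by decide +kernel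

variable {F : Type*} [Field F]

/-- Evaluation at a root of `X² + X + 2`. -/
def ev (b : F) (hb : b * b + b + 2 = 0) : R →+* F where
  toFun z := z.re + z.im * b
  map_one' := show ((1 : ℤ) : F) + ((0 : ℤ) : F) * b = 1 by simp
  map_zero' := by simp
  map_add' x y := by simp; ring
  map_mul' x y := by simp; linear_combination (-(x.im : F) * y.im) * hb

theorem ev_mk (b : F) (hb : b * b + b + 2 = 0) (x y : ℤ) : ev b hb ⟨x, y⟩ = x + y * b := rfl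

theorem mp_smul (φ : R →+* F) (c : R) (X : M R) : (c • X).map φ = φ c • X.map φ := by
  ext i j; simp

theorem pf_map (φ : R →+* F) (X Y : M R) : pf (X.map φ) (Y.map φ) = φ (pf X Y) := by
  simp [pf]

theorem unit (φ : R →+* F) (h2 : (2 : F) ≠ 0) : φ ⟨1, 1⟩ ≠ 0 := fun h => h2 (by
  have := map_mul φ ⟨1, 1⟩ ⟨0, -1⟩
  rwa [h, zero_mul, show (⟨1, 1⟩ * ⟨0, -1⟩ : R) = 2 by decide, map_ofNat] at this)

/-- The stabiliser of the set of lines spanned by a family of forms. -/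
def Stab [Finite F] (ω : Fin 7 → M F) : Subgroup (GL (Fin 4) F) where
  carrier := {x | ∀ i, ∃ j, ∃ c : F, x.1ᵀ * ω i * x.1 = c • ω j}
  one_mem' i := ⟨i, 1, by simp⟩
  mul_mem' {x y} hx hy i := by
    obtain ⟨j, c, h⟩ := hx i
    obtain ⟨k, d, e⟩ := hy j
    refine ⟨k, c * d, ?_⟩
    rw [mul_smul, ← e, ← smul_mul_assoc, ← mul_smul_comm, ← h, Units.val_mul, transpose_mul]
    simp only [mul_assoc]
  inv_mem' {x} hx := by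
    have key : ∀ n : ℕ, ∀ i, ∃ j, ∃ c : F, (x ^ n).1ᵀ * ω i * (x ^ n).1 = c • ω j := fun n => by
      induction n with
      | zero => exact fun i => ⟨i, 1, by simp⟩
      | succ n ih =>
        intro i
        obtain ⟨j, c, h⟩ := ih i
        obtain ⟨k, d, e⟩ := hx j
        refine ⟨k, c * d, ?_⟩
        rw [mul_smul, ← e, ← smul_mul_assoc, ← mul_smul_comm, ← h, pow_succ, Units.val_mul,
          transpose_mul]
        simp only [mul_assoc]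
    rw [show x⁻¹ = x ^ (orderOf x - 1) by
      rw [inv_eq_iff_mul_eq_one, ← pow_succ', Nat.sub_add_cancel (orderOf_pos x),
        pow_orderOf_eq_one]]
    exact key _

theorem scalars_le_Stab [Finite F] (ω : Fin 7 → M F) : scalars (Fin 4) F ≤ Stab ω := fun x hx i => by
  obtain ⟨c, hc⟩ := (mem_scalars_iff' x).1 hx
  exact ⟨i, c * c, by simp [hc, smul_smul]⟩

theorem mem_Stab [Finite F] (φ : R →+* F) {x : GL (Fin 4) F} {X : M R} {n : F} {m : R}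
    (hx : x.1 = n • X.map φ) (h : ∀ i, ∃ j, Xᵀ * om i * X = m • om j) :
    x ∈ Stab fun i => (om i).map φ := fun i => by
  obtain ⟨j, e⟩ := h i
  refine ⟨j, n * n * φ m, ?_⟩
  have := congrArg (·.map φ) e
  simp only [Matrix.map_mul, mp_smul, transpose_map] at this
  simp only [hx, transpose_smul, smul_mul_assoc, mul_smul_comm, this, smul_smul, mul_assoc]

/-- Relations between three of the forms are trivial. -/
theorem rel (φ : R →+* F) (h2 : (2 : F) ≠ 0) (h7 : (7 : F) ≠ 0) {i j k : Fin 7} {x y z : F}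
    (h : x • (om i).map φ + y • (om j).map φ + z • (om k).map φ = 0) (l : Fin 7) :
    (if l = i then x else 0) + (if l = j then y else 0) + (if l = k then z else 0) = 0 := by
  have key : ∀ l, (if l = i then -6 else 1) * x + (if l = j then -6 else 1) * y +
      (if l = k then -6 else 1) * z = 0 := fun l => by
    have e := congrArg (pf ((om l).map φ)) h
    have e' : ∀ X Y Z W : M F, pf W (x • X + y • Y + z • Z) = x * pf W X + y * pf W Y +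
        z * pf W Z := fun X Y Z W => by simp [pf]; ring
    rw [e', pf_map, pf_map, pf_map, gram, gram, gram] at e
    simp only [map_mul, apply_ite φ, map_neg, map_ofNat, map_one, pf, Matrix.zero_apply, mul_zero,
      sub_zero, add_zero] at e
    exact mul_left_cancel₀ (unit φ h2) (by linear_combination e)
  obtain ⟨m, h1, h3, h4⟩ := (by decide : ∀ i j k : Fin 7, ∃ m, m ≠ i ∧ m ≠ j ∧ m ≠ k) i j k
  have e0 := key m
  have e1 := key l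
  simp only [h1, h3, h4, if_false] at e0
  refine mul_left_cancel₀ h7 ?_
  split_ifs at e1 ⊢ <;> linear_combination e0 - e1

/-- No transvection permutes the seven lines. -/
theorem not_tv [Finite F] (φ : R →+* F) (h2 : (2 : F) ≠ 0) (h7 : (7 : F) ≠ 0) {x : GL (Fin 4) F}
    {v f : Fin 4 → F} (h : TvP.IsTv x v f) : x ∉ Stab fun i => (om i).map φ := fun hx => by
  set N := vecMulVec v f with hN
  have hNN : N * N = 0 := by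
    rw [hN, vecMulVec_mul_vecMulVec, h.orth, zero_smul, vecMulVec_zero]
  have hNN' : Nᵀ * Nᵀ = 0 := by rw [← transpose_mul, hNN, transpose_zero]
  have sk : ∀ ω : M F, ωᵀ = -ω → Nᵀ * ω * N = 0 := fun ω hω => by
    have e : v ᵥ* ω ⬝ᵥ v = 0 := by
      have : v ᵥ* ω ⬝ᵥ v = -(v ᵥ* ω ⬝ᵥ v) := by
        conv_lhs => rw [← mulVec_transpose, hω, neg_mulVec, neg_dotProduct, dotProduct_comm,
          dotProduct_mulVec]
      exact mul_left_cancel₀ h2 (by linear_combination this)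
    rw [hN, transpose_vecMulVec, vecMulVec_mul, vecMulVec_mul_vecMulVec, e, zero_smul,
      vecMulVec_zero]
  have sk' : ∀ i, ((om i).map φ)ᵀ = -(om i).map φ := fun i => by
    rw [← transpose_map, om_skew]; ext; simp
  have act : ∀ ω : M F, ωᵀ = -ω → x.1ᵀ * ω * x.1 = ω + (Nᵀ * ω + ω * N) := fun ω hω => by
    simp only [h.coe, ← hN, transpose_add, transpose_one, add_mul, mul_add, one_mul, mul_one,
      sk ω hω]
    abel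
  have fix : ∀ i, Nᵀ * (om i).map φ + (om i).map φ * N = 0 := fun i => by
    obtain ⟨j, c, e⟩ := hx i
    obtain ⟨k, d, e'⟩ := hx j
    have e1 : (1 : F) • (om i).map φ + (-2 * c) • (om j).map φ + (c * d) • (om k).map φ = 0 := by
      rw [mul_smul, mul_smul, ← e', ← smul_mul_assoc, ← mul_smul_comm, ← e, act _ (sk' i)]
      have := sk _ (sk' i)
      simp only [h.coe, ← hN, transpose_add, transpose_one, add_mul, mul_add, one_mul, mul_one,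
        ← mul_assoc, hNN', this, zero_mul]
      simp only [mul_assoc, hNN, mul_zero]
      module
    have r1 := rel φ h2 h7 e1 i
    have r2 := rel φ h2 h7 e1 j
    obtain rfl : i = j := by
      by_contra hij
      simp only [hij, Ne.symm hij, if_true, if_false] at r1 r2
      split_ifs at r1 r2 with h3 h4
      · exact hij (h3.trans h4.symm)
      · have : c = 0 := mul_left_cancel₀ h2 (by linear_combination -r2)
        simp [this] at r1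
      · simp at r1
      · simp at r1
    have r3 := rel φ h2 h7 (i := i) (j := k) (k := k) (x := c) (y := -d) (z := 0)
      (by rw [← e, neg_smul, ← e']; simp) i
    have hc : c = 1 := by
      simp only [if_true] at r1 r3
      split_ifs at r1 r3
      · exact sub_eq_zero.1 (pow_eq_zero_iff two_ne_zero |>.1
          (show (c - 1) ^ 2 = 0 by linear_combination r1 + c * r3))
      · exact absurd (by linear_combination r1 + 2 * r3 : (1 : F) = 0) one_ne_zero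
    rw [act _ (sk' i), hc, one_smul] at e
    exact add_eq_left.1 e
  have key : ∀ p q, Nᵀ * el F p q + el F p q * N = 0 := fun p q => by
    have e := congrArg (·.map φ) (el_span p q)
    have e1 : (el R p q).map φ = el F p q := by
      ext i j; simp [el, single_apply, apply_ite φ]
    have e2 : (∑ l, pf (om l) (el R p q) • om l).map φ =
        ∑ l, φ (pf (om l) (el R p q)) • (om l).map φ := by
      ext i j; simp [Matrix.sum_apply]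
    simp only [mp_smul, e1, e2] at e
    have e3 : φ (-7 * ⟨1, 1⟩) ≠ 0 := by
      rw [map_mul, map_neg, map_ofNat]
      exact mul_ne_zero (neg_ne_zero.2 h7) (unit φ h2)
    refine (smul_eq_zero.1 ?_).resolve_left e3
    rw [smul_add, ← mul_smul_comm, ← smul_mul_assoc, e, Finset.mul_sum, Finset.sum_mul,
      ← Finset.sum_add_distrib]
    simp only [mul_smul_comm, smul_mul_assoc, ← smul_add, fix, smul_zero, Finset.sum_const_zero]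
  have k2 : ∀ q s, q ≠ s → v q * f s = 0 := fun q s hqs => by
    obtain ⟨p, h1, h3⟩ := (by decide : ∀ q s : Fin 4, ∃ p, p ≠ q ∧ p ≠ s) q s
    have := congrFun (congrFun (key p q) p) s
    simpa [hN, el, mul_sub, sub_mul, mul_apply, single_apply, vecMulVec_apply, h1, h3, hqs,
      h1.symm, h3.symm, hqs.symm] using this
  obtain ⟨q, hq⟩ := Function.ne_iff.1 h.v_ne
  obtain ⟨s, hs⟩ := Function.ne_iff.1 h.φ_ne
  obtain rfl : q = s := by_contra fun e => mul_ne_zero hq hs (k2 q s e)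
  have := h.orth
  rw [dotProduct, Finset.sum_eq_single q (fun r _ hr => by
    rw [(mul_eq_zero.1 (k2 r q hr)).resolve_right hs, mul_zero]) (by simp)] at this
  exact mul_ne_zero hs hq this

end Cfsg.Lib.Four.L27
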