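import Cfsg.Agent.Class.Four.Tr
import Cfsg.Agent.Class.Four.L34G
import Cfsg.Agent.Class.Five.Eig

/-!
# `L₃(4)` in dimension four, odd characteristic
-/

set_option autoImplicit false

namespace Cfsg.Lib.Four

open Matrix Cfsg.Geo Cfsg.Lib.Class Cfsg.Lib.Class.Asch Cfsg.Lib.Mit Finset
open scoped MatrixGroups

universe u

namespace L34

variable {F : Type*} [Field F]

/-- An element of order five centralises every abelian subgroup of coprime exponent it
normalises. -/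
theorem comm_of_five {B : Subgroup (GL (Fin 4) F)} (hc : ∀ a ∈ B, ∀ b ∈ B, a * b = b * a) {n : ℕ}
    (hn : (n : F) ≠ 0) (hB : ∀ b ∈ B, b ^ n = 1) {y : GL (Fin 4) F} (h5 : y ^ 5 = 1)
    (hy : ∀ b ∈ B, y⁻¹ * b * y ∈ B) {b : GL (Fin 4) F} (hb : b ∈ B) : y * b = b * y := by
  by_contra hne
  have : IsMulCommutative B := ⟨⟨fun a b => Subtype.ext (hc a a.2 b b.2)⟩⟩
  let _ : CommGroup B := open scoped IsMulCommutative in inferInstance
  let φ : B →* B :=
    { toFun := fun a => ⟨y⁻¹ * a * y, hy a a.2⟩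
      map_one' := Subtype.ext (by simp)
      map_mul' := fun a b => Subtype.ext (by simp [mul_assoc]) }
  let ψ : Monoid.End B := φ
  have hψ : ∀ (k : ℕ) (a : B), (((ψ ^ k) a : B) : GL (Fin 4) F) = (y ^ k)⁻¹ * a * y ^ k := by
    intro k
    induction k with
    | zero => simp
    | succ k ih =>
      intro a
      rw [pow_succ', Monoid.End.coe_mul, Function.comp_apply]
      change y⁻¹ * ((ψ ^ k) a : B) * y = _
      rw [ih, pow_succ]
      group
  have h5' : ψ ^ 5 = 1 := MonoidHom.ext fun a => Subtype.ext ((hψ 5 a).trans (by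
    rw [h5, inv_one, one_mul, mul_one]; rfl))
  let β : ℕ → B := fun m => (ψ ^ m) ⟨b, hb⟩
  have hβ : ∀ k m, (ψ ^ k) (β m) = β (k + m) := fun k m => by
    simp only [β, pow_add, Monoid.End.coe_mul, Function.comp_apply]
  have hm : ∀ m m', m % 5 = m' % 5 → β m = β m' := fun m m' e => by
    simp only [β]
    rw [pow_eq_pow_mod _ h5', e, ← pow_eq_pow_mod _ h5']
  have key := Five.orbit_le (fun a : B => (a : GL (Fin 4) F)) (fun a b => hc a a.2 b b.2) hn
    (a₀ := β 1 * (β 0)⁻¹) (fun h => hne (by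
      have h1 : y⁻¹ * b * y * b⁻¹ = 1 := h
      rw [mul_inv_eq_one, mul_assoc, inv_mul_eq_iff_eq_mul] at h1
      exact h1.symm)) (hB _ (β 1 * (β 0)⁻¹).2) (fun k : Fin 5 => y ^ (k : ℕ))
    (fun k a => (ψ ^ (k : ℕ)) a) (fun k a => by rw [hψ]; group) fun k k' hk => by
      obtain ⟨j, m, h1, h2⟩ := (by decide : ∀ k k' : Fin 5, k ≠ k' → ∃ j m : Fin 5,
        (k : ℕ) % 5 = (k' + j) % 5 ∧ ((j : ℕ) * m) % 5 = 1) k k' hk
      refine ⟨∏ t ∈ range m, β (4 * k' + j * t), ?_⟩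
      rw [← Subgroup.coe_mul, Subtype.coe_inj]
      simp only [map_prod, hβ]
      rw [prod_congr rfl fun t _ => hm (k + (4 * k' + j * t)) (j * (t + 1)) (by
          rw [mul_add_one]; omega),
        prod_congr rfl fun t _ => hm (k' + (4 * k' + j * t)) (j * t) (by omega),
        mul_right_comm, eq_mul_inv_iff_mul_eq, ← hm (j * m) 1 h2, mul_comm (β _),
        ← prod_range_succ fun t => β (j * t), prod_range_succ']
      rfl
  simp at key

/-- The second elementary symmetric function of the eigenvalues is the same for the inverse. -/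
theorem e2_inv (h2 : (2 : F) ≠ 0) {x : GL (Fin 4) F} (hx : x ^ 16 = 1)
    (hd : x ∈ specialLinear (Fin 4) F) :
    tr4 x ^ 2 - tr4 (x ^ 2) = tr4 x⁻¹ ^ 2 - tr4 (x ^ 2)⁻¹ := by
  obtain ⟨ε, h, hε⟩ := Five.exists_dg (M := (x : Matrix (Fin 4) (Fin 4) F)) (n := 16)
    (by rw [show ((16 : ℕ) : F) = 2 ^ 4 by norm_num]; exact pow_ne_zero _ h2)
    (by rw [← Units.val_pow_eq_pow_val, hx, Units.val_one])
  have ht : ∀ k, algebraMap F (Five.AC F) (tr4 (x ^ k)) = ∑ i, ε i ^ k := fun k => by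
    rw [tr4, Units.val_pow_eq_pow_val, (h.pow k).trace]
  have h1 := h.det
  rw [show (x : Matrix (Fin 4) (Fin 4) F).det = 1 from congrArg Units.val (MonoidHom.mem_ker.1 hd),
    map_one, Fin.prod_univ_four] at h1
  have e1 : x⁻¹ = x ^ 15 := inv_eq_of_mul_eq_one_right (by rw [← pow_succ', hx])
  have e2 : (x ^ 2)⁻¹ = x ^ 30 := by rw [← inv_pow, e1, ← pow_mul]
  have k : ∀ (i : Fin 4) (c : Five.AC F), ε i * c = 1 → ε i ^ 15 = c := fun i c hc => by
    linear_combination c * hε i - ε i ^ 15 * hc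
  have k0 := k 0 (ε 1 * ε 2 * ε 3) (by linear_combination -h1)
  have k1 := k 1 (ε 0 * ε 2 * ε 3) (by linear_combination -h1)
  have k2 := k 2 (ε 0 * ε 1 * ε 3) (by linear_combination -h1)
  have k3 := k 3 (ε 0 * ε 1 * ε 2) (by linear_combination -h1)
  apply (algebraMap F (Five.AC F)).injective
  have t1 := ht 1
  rw [pow_one] at t1
  rw [e1, e2, map_sub, map_sub, map_pow, map_pow, t1, ht, ht, ht]
  simp only [Fin.sum_univ_four, show 30 = 15 * 2 from rfl, pow_mul, k0, k1, k2, k3]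
  linear_combination (2 * (ε 0 * ε 1 + ε 0 * ε 2 + ε 0 * ε 3 + ε 1 * ε 2 + ε 1 * ε 3 +
    ε 2 * ε 3)) * h1

/-- Sixteen trace-orthogonal matrices have a scalar commutant. -/
theorem scalar_of_orth (h2 : (2 : F) ≠ 0) {u : Fin 16 → GL (Fin 4) F}
    (ho : ∀ i j, i ≠ j → tr4 ((u i)⁻¹ * u j) = 0) {N : Matrix (Fin 4) (Fin 4) F}
    (hN : ∀ i, (u i : Matrix (Fin 4) (Fin 4) F) * N = N * u i) : ∃ c : F, N = c • 1 := by
  have h4 : (4 : F) ≠ 0 := by rw [show (4 : F) = 2 ^ 2 by norm_num]; exact pow_ne_zero _ h2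
  have li : LinearIndependent F fun i => (u i : Matrix (Fin 4) (Fin 4) F) := by
    rw [Fintype.linearIndependent_iff]
    intro g hg j
    have h1 := congrArg (fun M => ((((u j)⁻¹ : GL (Fin 4) F) : Matrix (Fin 4) (Fin 4) F) * M).trace)
      hg
    simp only [mul_sum, mul_smul_comm, trace_sum, trace_smul, mul_zero, trace_zero,
      smul_eq_mul] at h1
    rw [sum_eq_single j, Units.inv_mul, trace_one] at h1
    · exact (mul_eq_zero.1 h1).resolve_right (by simpa using h4)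
    · exact fun i _ hi => mul_eq_zero_of_right _ (ho j i hi.symm)
    · simp
  have hs := li.span_eq_top_of_card_eq_finrank (by simp [Module.finrank_matrix])
  have hc : ∀ M : Matrix (Fin 4) (Fin 4) F, M * N = N * M := fun M => by
    have hM : M ∈ Submodule.span F (Set.range fun i => (u i : Matrix (Fin 4) (Fin 4) F)) :=
      hs ▸ Submodule.mem_top
    induction hM using Submodule.span_induction with
    | mem x hx => obtain ⟨i, rfl⟩ := hx; exact hN i
    | zero => simp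
    | add x y _ _ hx hy => rw [add_mul, mul_add, hx, hy]
    | smul c x _ hx => rw [smul_mul_assoc, mul_smul_comm, hx]
  obtain ⟨c, hc'⟩ := mem_range_scalar_of_commute_single (M := N) fun i j _ => hc _
  exact ⟨c, by rw [← hc']; ext i j; simp [diagonal_apply, one_apply]⟩

variable {P : Subgroup (GL (Fin 4) F)} {G : Type*} [Group G] {π : P →* G}

/-- The trace on `P`. -/
def T (x : P) : F := tr4 (x : GL (Fin 4) F)

theorem T_conj (y x : P) : T (y * x * y⁻¹) = T x := tr4_conj y.1 x.1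

section

variable (hP : QS P) (h : Proj P π)
include hP h

theorem T_ker {z : P} (hz : π z = 1) : ∃ c : F, c ^ 4 = 1 ∧ (c = 1 → z = 1) ∧
    (∀ x, T (z * x) = c * T x) ∧ ∀ x, T (z * x)⁻¹ = c ^ 3 * T x⁻¹ := by
  obtain ⟨c, h1, h2⟩ := exists_scalar_of_ker hP h hz
  have h3 : ∀ x, T (z * x) = c * T x := fun x => by simp [T, tr4, h2]
  refine ⟨c, h1, fun e => Subtype.ext (Units.ext (by simp [h2, e])), h3, fun x => ?_⟩
  have h4 : x⁻¹ = z * (z * x)⁻¹ := by rw [comm_of_ker4 h hz]; group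
  rw [h4, h3]
  linear_combination -T (z * x)⁻¹ * h1

theorem exists_of_conj {x y : P} (e : IsConj (π x) (π y)) : ∃ c : F, c ^ 4 = 1 ∧
    T y = c * T x ∧ T y⁻¹ = c ^ 3 * T x⁻¹ := by
  obtain ⟨g, hg⟩ := isConj_iff.1 e
  obtain ⟨w, rfl⟩ := h.surj g
  obtain ⟨c, h1, -, h2, h3⟩ := T_ker hP h (z := y * (w * x * w⁻¹)⁻¹) (by simp [← hg])
  have h4 := h2 (w * x * w⁻¹)
  have h5 := h3 (w * x * w⁻¹)
  rw [inv_mul_cancel_right] at h4 h5
  rw [T_conj] at h4
  rw [conj_inv, T_conj] at h5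
  exact ⟨c, h1, h4, h5⟩

theorem T_zero {x w : P} (e : π w * π x = π x * π w) (hne : w * x ≠ x * w) :
    T x = 0 ∧ T x⁻¹ = 0 := by
  obtain ⟨c, h1, h2, h3, h4⟩ := T_ker hP h (z := w * x * w⁻¹ * x⁻¹) (by simp [e])
  have h5 := h3 x
  have h6 := h4 x
  rw [inv_mul_cancel_right] at h5 h6
  rw [T_conj] at h5
  rw [conj_inv, T_conj] at h6
  have hc : c ≠ 1 := fun e => hne (by
    have := h2 e
    rwa [mul_inv_eq_one, mul_inv_eq_iff_eq_mul] at this)
  refine ⟨(mul_eq_zero.1 (by linear_combination h5 : (1 - c) * T x = 0)).resolve_left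
    (sub_ne_zero.2 hc.symm), (mul_eq_zero.1 (by linear_combination -c * h6 - T x⁻¹ * h1 :
      (1 - c) * T x⁻¹ = 0)).resolve_left (sub_ne_zero.2 hc.symm)⟩

theorem T_odd {k : ℕ} (hk : k.Coprime 4) {x y : P} (e : IsConj (π x) (π y)) (hx : x ^ k = 1)
    (hy : y ^ k = 1) : T x = T y := by
  obtain ⟨g, hg⟩ := isConj_iff.1 e
  obtain ⟨w, rfl⟩ := h.surj g
  rw [← T_conj w x, h.lift_unique hP.le_specialLinear (k := k) (by simpa using hk)
    (x := w * x * w⁻¹) (y := y) (by simp [← hg]) (by rw [conj_pow, hx]; group) hy]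

variable {e : Fin 16 → G} (D : Dat e) (h2 : (2 : F) ≠ 0)
include D

omit hP h in
theorem Dat.inv_eq (i : Fin 16) : (e i)⁻¹ = e i := inv_eq_of_mul_eq_one_right (D.sq i)

omit hP h in
theorem Dat.comm (i j : Fin 16) : e i * e j = e j * e i := by
  obtain ⟨k, hk⟩ := D.mul i j
  rw [hk, ← D.inv_eq, ← hk, _root_.mul_inv_rev, D.inv_eq, D.inv_eq]

theorem three_eq_zero : (3 : F) = 0 := by
  by_contra h3
  obtain ⟨a, b, g, ha', hb', hab, b1, ga, gb⟩ := D.three
  have hu := fun {x y : P} => h.lift_unique hP.le_specialLinear (k := 3) (by decide) (x := x) (y := y)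
  obtain ⟨a, rfl, ha⟩ := h.exists_lift hP.le_specialLinear (k := 3) (by decide) ha'
  obtain ⟨b, rfl, hb⟩ := h.exists_lift hP.le_specialLinear (k := 3) (by decide) hb'
  choose g hg using fun k => h.surj (g k)
  have hc : Commute a b := mul_inv_eq_iff_eq_mul.1
    (hu (x := a * b * a⁻¹) (by simp [hab]) (by rw [conj_pow, hb]; group) hb)
  let u : ℕ × ℕ → P := fun z => a ^ z.1 * b ^ z.2
  have h1 : ∀ z w, u z * u w = u (z + w) := fun z w => by
    simp only [u, Prod.fst_add, Prod.snd_add, pow_add, mul_assoc]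
    rw [← mul_assoc (b ^ z.2), ← (hc.pow_pow w.1 z.2).eq, mul_assoc]
  have h4 : ∀ (z : ℕ × ℕ) (k : ℕ), u z ^ k = u (z.1 * k, z.2 * k) := fun z k => by
    simp only [u, (hc.pow_pow _ _).mul_pow, pow_mul]
  have h5 : ∀ z, u z ^ 3 = 1 := fun z => by
    rw [h4]; simp only [u, pow_mul', ha, hb, one_pow, mul_one]
  have hm : ∀ z w : ℕ × ℕ, z.1 % 3 = w.1 % 3 → z.2 % 3 = w.2 % 3 → u z = u w := fun z w e1 e2 => by
    simp only [u]
    rw [pow_eq_pow_mod _ ha, pow_eq_pow_mod _ hb, e1, e2, ← pow_eq_pow_mod _ ha,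
      ← pow_eq_pow_mod _ hb]
  let τ : Fin 5 → ℕ × ℕ → ℕ × ℕ := fun k z =>
    ((mq k).1 * z.1 + (mq k).2.2.1 * z.2, (mq k).2.1 * z.1 + (mq k).2.2.2 * z.2)
  have hs : ∀ k z, g k * u z * (g k)⁻¹ = u (τ k z) := fun k z => by
    have e1 : g k * a * (g k)⁻¹ = u ((mq k).1, (mq k).2.1) :=
      hu (by simp [u, hg, ga]) (by rw [conj_pow, ha]; group) (h5 _)
    have e2 : g k * b * (g k)⁻¹ = u ((mq k).2.2.1, (mq k).2.2.2) :=
      hu (by simp [u, hg, gb]) (by rw [conj_pow, hb]; group) (h5 _)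
    calc _ = (g k * a * (g k)⁻¹) ^ z.1 * (g k * b * (g k)⁻¹) ^ z.2 := by
          simp only [u, conj_pow]; group
      _ = _ := by rw [e1, e2, h4, h4, h1]; rfl
  have key := Five.orbit_le (fun z => (u z : GL (Fin 4) F))
    (fun z w => by rw [← Subgroup.coe_mul, ← Subgroup.coe_mul, h1, h1, add_comm]) (n := 3)
    (by exact_mod_cast h3) (a₀ := (0, 1))
    (fun e => b1 (by rw [show b = 1 from Subtype.ext (by simpa [u] using e), map_one]))
    (congrArg Subtype.val (h5 _)) (fun k => ((g k)⁻¹ : P)) τ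
    (fun k z => by rw [← hs, ← Subgroup.coe_mul, ← Subgroup.coe_mul]; congr 1; group)
    fun k k' hk => by
      obtain ⟨i, j, e1, e2⟩ := (by decide : ∀ k k' : Fin 5, k ≠ k' → ∃ i j : Fin 3,
        (τ k (i, j)).1 % 3 = (((0, 1) : ℕ × ℕ) + τ k' (i, j)).1 % 3 ∧
        (τ k (i, j)).2 % 3 = (((0, 1) : ℕ × ℕ) + τ k' (i, j)).2 % 3) k k' hk
      exact ⟨(i, j), by rw [← Subgroup.coe_mul, h1, hm _ _ e1 e2]⟩
  simp at key

include h2

/-- Lifts of involutions have trace zero. -/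
theorem T_invol {x : P} (h1 : π x * π x = 1) (h0 : π x ≠ 1) : T x = 0 := by
  let E : Subgroup G :=
    { carrier := Set.range e
      one_mem' := ⟨0, D.zero⟩
      mul_mem' := by
        rintro _ _ ⟨i, rfl⟩ ⟨j, rfl⟩
        exact (D.mul i j).imp fun _ => Eq.symm
      inv_mem' := by
        rintro _ ⟨i, rfl⟩
        exact ⟨i, (D.inv_eq i).symm⟩ }
  by_cases hc : ∀ a b : P, π a ∈ E → π b ∈ E → a * b = b * a
  · obtain ⟨y, y5', hy, i, hi⟩ := D.five
    obtain ⟨y, rfl, y5⟩ := h.exists_lift hP.le_specialLinear (k := 5) (by decide) y5'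
    obtain ⟨b, hb⟩ := h.surj (e i)
    have := comm_of_five (B := (E.comap π).map P.subtype) (n := 8) (y := y.1) (b := b.1)
      (by
        rintro _ ⟨a, ha, rfl⟩ _ ⟨b, hb, rfl⟩
        exact congrArg Subtype.val (hc a b ha hb))
      (by rw [show ((8 : ℕ) : F) = 2 ^ 3 by norm_num]; exact pow_ne_zero _ h2)
      (by
        rintro _ ⟨a, ⟨k, hk⟩, rfl⟩
        have := pow_four_of_ker hP h (z := a ^ 2) (by rw [map_pow, ← hk, sq, D.sq])
        rw [← pow_mul] at this
        exact congrArg Subtype.val this)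
      (congrArg Subtype.val y5)
      (by
        rintro _ ⟨a, ⟨k, hk⟩, rfl⟩
        obtain ⟨l, hl⟩ := hy k
        exact ⟨y⁻¹ * a * y, ⟨l, by simp [← hk, mul_assoc, hl]⟩, rfl⟩)
      ⟨b, ⟨i, hb.symm⟩, rfl⟩
    exact absurd (by rw [← hb, ← map_mul, ← map_mul, show y * b = b * y from Subtype.ext this]) hi
  push Not at hc
  obtain ⟨a, b, ⟨i, hi⟩, ⟨j, hj⟩, hab⟩ := hc
  have h3 := (T_zero hP h (w := a) (x := b) (by rw [← hi, ← hj, D.comm]) hab).1
  obtain ⟨c, -, h4, -⟩ := exists_of_conj hP h (x := b) (y := x)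
    ((D.inv _ (by rw [← hj, D.sq]) fun e => hab (comm_of_ker4 h e a).symm).symm.trans
      (D.inv _ h1 h0))
  rw [h4, h3, mul_zero]

/-- The trace form on the normaliser. -/
theorem T_nm (h3 : (3 : F) = 0) {x : P} (hx : Nm e (π x)) :
    (T x = 0 ∧ T x⁻¹ = 0) ∨ T x * T x⁻¹ = 1 := by
  classical
  choose v hv using fun i => h.surj (e i)
  by_cases hc : ∀ i, e i * π x = π x * e i → v i * x = x * v i
  swap
  · push Not at hc
    obtain ⟨i, h4, h5⟩ := hc
    exact .inl (T_zero hP h (by rwa [hv]) h5)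
  right
  have h4 : (4 : F) = 1 := by linear_combination h3
  let cj : P → Matrix (Fin 4) (Fin 4) F := fun w => ((w * x * w⁻¹ : P) : GL (Fin 4) F)
  have hcj : ∀ w w' : P, π w = π w' → cj w = cj w' := fun w w' e => by
    have := comm_of_ker4 h (z := w'⁻¹ * w) (by simp [e]) x
    simp only [cj]
    congr 2
    calc _ = w' * (w'⁻¹ * w * x) * w⁻¹ := by group
      _ = _ := by rw [this]; group
  obtain ⟨c, hN⟩ := scalar_of_orth h2 (u := fun i => (v i : GL (Fin 4) F)) (N := ∑ i, cj (v i))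
    (fun i j hij => by
      obtain ⟨k, hk⟩ := D.mul i j
      refine T_invol hP h D h2 (x := (v i)⁻¹ * v j) (by simp [hv, D.inv_eq, hk, D.sq]) fun e => ?_
      rw [map_mul, map_inv, hv, hv, inv_mul_eq_one] at e
      exact hij (D.inj e))
    fun j => by
      choose σ hσ using D.mul j
      have hi : Function.Bijective σ := Finite.injective_iff_bijective.1 fun a b hab =>
        D.inj (mul_left_cancel (a := e j) (by rw [hσ, hσ, hab]))
      rw [mul_sum]
      conv_rhs => rw [← hi.sum_comp fun i => cj (v i), sum_mul]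
      refine sum_congr rfl fun i _ => ?_
      rw [← hcj (v j * v i) (v (σ i)) (by simp [hv, hσ])]
      simp only [cj, ← Units.val_mul, ← Subgroup.coe_mul]
      congr 2
      group
  have h5 : ∑ i, T (v i * x * (v i)⁻¹) = c * 4 := by
    have := congrArg Matrix.trace hN
    rwa [trace_sum, trace_smul, trace_one, Fintype.card_fin] at this
  have h6 : ∑ i, T (v i * x * (v i)⁻¹ * x⁻¹) = c * T x⁻¹ := by
    have := congrArg (fun M => (M * ((x⁻¹ : P) : GL (Fin 4) F).1).trace) hN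
    simp only [sum_mul, trace_sum, smul_mul_assoc, one_mul, trace_smul] at this
    exact this
  have h7 : ∀ i, T (v i * x * (v i)⁻¹ * x⁻¹) = if e i * π x = π x * e i then 1 else 0 := fun i => by
    split_ifs with h8
    · rw [hc i h8, mul_inv_cancel_right, mul_inv_cancel, ← h4]
      exact tr4_one
    · obtain ⟨k, hk⟩ := hx.1 i
      obtain ⟨l, hl⟩ := D.mul i k
      have h9 : π (v i * x * (v i)⁻¹ * x⁻¹) = e l := by
        simp only [map_mul, map_inv, hv, D.inv_eq]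
        rw [mul_assoc (e i), hk, ← mul_assoc, hl, mul_inv_cancel_right]
      refine T_invol hP h D h2 (by rw [h9, D.sq]) fun e1 => h8 ?_
      simpa [hv, mul_inv_eq_one, mul_inv_eq_iff_eq_mul] using e1
  simp only [T_conj, sum_const, card_univ, Fintype.card_fin, nsmul_eq_mul] at h5
  simp only [h7, sum_boole] at h6
  rw [← Nat.div_add_mod #{i | e i * π x = π x * e i} 3, hx.2] at h6
  push_cast at h5 h6
  linear_combination T x⁻¹ * h5 - h6 +
    ((#{i | e i * π x = π x * e i} / 3 : ℕ) - 5 * T x * T x⁻¹ + c * T x⁻¹) * h3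

/-- Traces are twisted by Frobenius. -/
theorem T_inv [CharP F 3] (x : P) : T x⁻¹ = T x ^ 3 := by
  have : Fact (Nat.Prime 3) := ⟨Nat.prime_three⟩
  have h3 : (3 : F) = 0 := by exact_mod_cast CharP.cast_eq_zero F 3
  have h4 : (4 : F) = 1 := by linear_combination h3
  obtain ⟨r, hr, hc⟩ := D.cls (π x)
  suffices ∃ y, π y = r ∧ T y⁻¹ = T y ^ 3 by
    obtain ⟨y, rfl, hy⟩ := this
    obtain ⟨c, -, h5, h6⟩ := exists_of_conj hP h hr
    rw [h5, h6, hy, mul_pow]
  rcases hc with r3 | ⟨r7, hc⟩ | ⟨r2, r1⟩ | ⟨hn, ⟨r5, hc⟩ | ⟨r4, r2⟩⟩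
  · obtain ⟨y, rfl, hy⟩ := h.exists_lift hP.le_specialLinear (k := 3) (by decide) r3
    have h5 : ∀ z : P, z ^ 3 = 1 → T z = 1 := fun z hz =>
      (tr4_eq_four 3 (k := 1) (congrArg Subtype.val hz)).trans h4
    exact ⟨y, rfl, by rw [h5 y hy, h5 y⁻¹ (by rw [inv_pow, hy, inv_one]), one_pow]⟩
  · obtain ⟨y, rfl, hy⟩ := h.exists_lift hP.le_specialLinear (k := 7) (by decide) r7
    refine ⟨y, rfl, ?_⟩
    rw [inv_eq_of_mul_eq_one_right ((pow_succ' y 6).symm.trans hy),
      T_odd hP h (k := 7) (by decide) (x := y ^ 6) (y := y ^ 3) (by simpa using hc)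
        (by rw [← pow_mul, mul_comm, pow_mul, hy, one_pow])
        (by rw [← pow_mul, mul_comm, pow_mul, hy, one_pow])]
    exact tr4_pow_char 3 y.1
  · obtain ⟨y, rfl⟩ := h.surj r
    refine ⟨y, rfl, ?_⟩
    rw [T_invol hP h D h2 r2 r1, T_invol hP h D h2 (x := y⁻¹)
      (by rw [map_inv, ← _root_.mul_inv_rev, r2, inv_one]) (by simpa using r1)]
    simp
  · obtain ⟨y, rfl, hy⟩ := h.exists_lift hP.le_specialLinear (k := 5) (by decide) r5
    refine ⟨y, rfl, ?_⟩
    have h5 : T y⁻¹ = T y := by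
      rw [inv_eq_of_mul_eq_one_right ((pow_succ' y 4).symm.trans hy)]
      exact T_odd hP h (k := 5) (by decide) (by simpa using hc)
        (by rw [← pow_mul, mul_comm, pow_mul, hy, one_pow]) hy
    rcases T_nm hP h D h2 h3 hn with ⟨h6, h7⟩ | h6
    · rw [h6, h7]; simp
    · rw [h5] at h6 ⊢
      linear_combination -T y * h6
  · obtain ⟨y, rfl⟩ := h.surj r
    refine ⟨y, rfl, ?_⟩
    have h5 : π (y ^ 2) * π (y ^ 2) = 1 := by rw [map_pow, ← pow_add, r4]
    have h6 := e2_inv h2 (x := y.1) (by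
      have := pow_four_of_ker hP h (z := y ^ 4) (by rw [map_pow, r4])
      rw [← pow_mul] at this
      exact congrArg Subtype.val this) (hP.le_specialLinear y.2)
    change T y ^ 2 - T (y ^ 2) = T y⁻¹ ^ 2 - T (y ^ 2)⁻¹ at h6
    rw [T_invol hP h D h2 h5 (by rwa [map_pow]), T_invol hP h D h2 (x := (y ^ 2)⁻¹)
      (by rw [map_inv, ← _root_.mul_inv_rev, h5, inv_one]) (by simpa using r2)] at h6
    rcases T_nm hP h D h2 h3 hn with ⟨h7, h8⟩ | h7
    · rw [h7, h8]; simp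
    · linear_combination -T y * h6 - T y⁻¹ * h7

end

end L34

/-- `L₃(4)` in dimension four. -/
theorem wL34 : WL34.{u} := by
  intro F _ _ P hP h2 hG
  obtain ⟨K, _, _, hK, ⟨e⟩⟩ := hG
  obtain ⟨f⟩ := Spor.MP.M21_equiv_PSL K hK
  obtain ⟨π, h⟩ := exists_proj (f.trans e.symm)
  have : Fact (Nat.Prime 3) := ⟨Nat.prime_three⟩
  have hc : CharP F 3 := (CharP.charP_iff_prime_eq_zero Nat.prime_three).2
    (by simpa using L34.three_eq_zero hP.qs h L34.dat_M21)
  rcases out_of_twist 3 hP.qs.env_top hP.ns fun x hx =>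
    L34.T_inv hP.qs h L34.dat_M21 h2 ⟨x, hx⟩ with ⟨h3, h4⟩ | h3 | h3
  · exact .inr (.inr ⟨3, Nat.prime_three, hc, .inr (.inr (.inl
      ⟨⟨K, _, _, hK, ⟨e⟩⟩, rfl, h3, h4⟩))⟩)
  · exact .inl h3
  · exact .inr (.inl h3)

end Cfsg.Lib.Four
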