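import Cfsg.Agent.Class.Four.LiftA

/-!
# Double covers in `SL₄`: lifts and their traces
-/

set_option autoImplicit false

namespace Cfsg.Lib.Four.Lift

open Matrix Cfsg.Geo Cfsg.Lib.Class Cfsg.Lib.Class.Asch Cfsg.Lib.Mit Cfsg.Lib.Five
open scoped MatrixGroups

universe v

variable {F : Type*} [Field F] {P : Subgroup (GL (Fin 4) F)} {G : Type v} [Group G] {π : P →* G}

/-! ## Traces -/

theorem tr4_neg (x : GL (Fin 4) F) : tr4 (-x) = -tr4 x := by simp [tr4]

theorem tr4_isConj {x y : GL (Fin 4) F} (h : IsConj x y) : tr4 y = tr4 x := by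
  obtain ⟨c, rfl⟩ := isConj_iff.1 h
  exact tr4_conj c x

theorem neg_eq_of_two (h2 : (2 : F) = 0) (x : GL (Fin 4) F) : -x = x := by
  ext i j
  rw [Units.val_neg, Matrix.neg_apply]
  linear_combination (-(x : Matrix (Fin 4) (Fin 4) F) i j) * h2

theorem isConj_inv {H : Type*} [Group H] {x y : H} (h : IsConj x y) : IsConj x⁻¹ y⁻¹ := by
  obtain ⟨c, rfl⟩ := isConj_iff.1 h
  exact isConj_iff.2 ⟨c, by group⟩

section Rat

variable (p : ℕ) [hp : Fact p.Prime] [CharP F p]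

/-- The trace is real and lies in the prime field. -/
def Rat (x : GL (Fin 4) F) : Prop := tr4 x⁻¹ = tr4 x ∧ tr4 x ^ p = tr4 x

variable {p} {x y : GL (Fin 4) F}

theorem Rat.neg (h : Rat p x) : Rat p (-x) :=
  ⟨by rw [inv_neg, tr4_neg, tr4_neg, h.1], by
    rw [tr4_neg, neg_pow, neg_one_pow_char F p, h.2, neg_one_mul]⟩

omit hp [CharP F p] in
theorem Rat.conj (h : Rat p x) (e : IsConj x y) : Rat p y :=
  ⟨by rw [tr4_isConj (isConj_inv e), tr4_isConj e, h.1], by rw [tr4_isConj e, h.2]⟩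

omit [CharP F p] in
theorem rat_of_zero (h : tr4 x = 0) (h' : tr4 x⁻¹ = tr4 x) : Rat p x :=
  ⟨h', by rw [h, zero_pow hp.out.ne_zero]⟩

theorem rat_of_unip {k : ℕ} (h : x ^ p ^ k = 1) : Rat p x :=
  ⟨(tr4_eq_four p (k := k) (by rw [inv_pow, h, inv_one])).trans (tr4_eq_four p h).symm, by
    rw [← tr4_pow_char, tr4_eq_four p h, tr4_eq_four p (k := k)
      (by rw [← pow_mul, mul_comm, pow_mul, h, one_pow])]⟩

theorem rat_of_six (h : x ^ 6 = 1) (hr : IsConj x x⁻¹) : Rat p x := by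
  refine ⟨tr4_isConj hr, ?_⟩
  apply frobenius_inj F p
  rw [frobenius_def, frobenius_def, ← tr4_pow_char, ← tr4_pow_char, ← pow_mul]
  have h1 : ∀ k, tr4 (x ^ (5 * k)) = tr4 (x ^ k) := fun k => by
    rw [pow_mul, eq_inv_of_mul_eq_one_left ((pow_succ x 5).symm.trans h)]
    exact tr4_isConj (hr.pow k)
  have h2 : p * p % 6 = p % 6 ∨ p * p % 6 = 5 * p % 6 := by
    rw [Nat.mul_mod, Nat.mul_mod 5]
    have : p % 6 < 6 := Nat.mod_lt _ (by norm_num)
    generalize p % 6 = s at *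
    interval_cases s <;> norm_num
  rcases h2 with e | e
  · rw [pow_eq_pow_mod _ h, e, ← pow_eq_pow_mod _ h]
  · rw [pow_eq_pow_mod _ h, e, ← pow_eq_pow_mod _ h, h1]

theorem rat_of_four (h : x ^ 4 = 1) (hr : IsConj x x⁻¹) : Rat p x := by
  rcases hp.out.eq_two_or_odd with rfl | h2
  · exact rat_of_unip (k := 2) h
  refine ⟨tr4_isConj hr, ?_⟩
  rw [← tr4_pow_char, pow_eq_pow_mod _ h]
  obtain e | e : p % 4 = 1 ∨ p % 4 = 3 := by omega
  · rw [e, pow_one]
  · rw [e, eq_inv_of_mul_eq_one_left ((pow_succ x 3).symm.trans h), tr4_isConj hr]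

theorem rat_of_five (h : x ^ 5 = 1) (hr : IsConj x (x ^ 2)) : Rat p x := by
  by_cases h5 : p = 5
  · subst h5
    exact rat_of_unip (k := 1) h
  have h1 : ∀ k, tr4 (x ^ (2 * k % 5)) = tr4 (x ^ k) := fun k => by
    rw [← pow_eq_pow_mod _ h, pow_mul]
    exact tr4_isConj (hr.pow k)
  have e2 : tr4 (x ^ 2) = tr4 x := (h1 1).trans (by rw [pow_one])
  have e4 := (h1 2).trans e2
  have e3 := (h1 4).trans e4
  refine ⟨by rw [← eq_inv_of_mul_eq_one_left ((pow_succ x 4).symm.trans h)]; exact e4, ?_⟩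
  have h0 : p % 5 ≠ 0 := fun h0 =>
    h5 ((Nat.prime_dvd_prime_iff_eq Nat.prime_five hp.out).1 (Nat.dvd_of_mod_eq_zero h0)).symm
  rw [← tr4_pow_char, pow_eq_pow_mod _ h]
  obtain e | e | e | e : p % 5 = 1 ∨ p % 5 = 2 ∨ p % 5 = 3 ∨ p % 5 = 4 := by omega
  all_goals rw [e]
  exacts [by rw [pow_one], e2, e3, e4]

/-- Up to sign an element of order seven conjugate to its square. -/
def Sev (x : GL (Fin 4) F) : Prop := ∃ y, (x = y ∨ x = -y) ∧ y ^ 7 = 1 ∧ IsConj y (y ^ 2)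

theorem out_of_rat [Fintype F] (hP : env P = ⊤) (hns : NoSub P) (h : ∀ x ∈ P, Rat p x ∨ Sev x) :
    FixA P ∨ FixQ P ∨ (7 : F) ≠ 0 ∧ F7 P p := by
  have sg : ∀ {x y : GL (Fin 4) F}, x = y ∨ x = -y →
      (tr4 y ^ p = tr4 y → tr4 x ^ p = tr4 x) ∧ (tr4 y⁻¹ = tr4 y ^ p → tr4 x⁻¹ = tr4 x ^ p) := by
    rintro x y (rfl | rfl)
    · exact ⟨id, id⟩
    · rw [inv_neg, tr4_neg, tr4_neg, neg_pow, neg_one_pow_char F p, neg_one_mul]
      exact ⟨congrArg _, congrArg _⟩
  by_cases h7 : p = 7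
  · subst h7
    refine (fix_of_real4 hP fun x hx => ?_).imp_right .inl
    rcases h x hx with h1 | ⟨y, rfl | rfl, h1, -⟩
    exacts [h1.1, (rat_of_unip (p := 7) (k := 1) h1).1, (rat_of_unip (p := 7) (k := 1) h1).neg.1]
  have h0 : p % 7 ≠ 0 := fun h0 =>
    h7 ((Nat.prime_dvd_prime_iff_eq (by norm_num) hp.out).1 (Nat.dvd_of_mod_eq_zero h0)).symm
  have hF : (7 : F) ≠ 0 := fun e => h7 ((Nat.prime_dvd_prime_iff_eq hp.out (by norm_num)).1
    ((CharP.cast_eq_zero_iff F p 7).1 (by exact_mod_cast e)))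
  have key : ∀ y : GL (Fin 4) F, y ^ 7 = 1 → IsConj y (y ^ 2) →
      ∀ k, tr4 (y ^ (2 * k % 7)) = tr4 (y ^ k) := fun y h1 h2 k => by
    rw [← pow_eq_pow_mod _ h1, pow_mul]
    exact tr4_isConj (h2.pow k)
  obtain h1 | h1 : (p % 7 = 1 ∨ p % 7 = 2 ∨ p % 7 = 4) ∨ (p % 7 = 3 ∨ p % 7 = 5 ∨ p % 7 = 6) := by
    omega
  · refine .inr (.inr ⟨hF, .inl ⟨card_eq_char4 p hP hns fun x hx => ?_, h1⟩⟩)
    rcases h x hx with h2 | ⟨y, e, h2, h3⟩
    · exact h2.2
    refine (sg e).1 ?_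
    have e2 : tr4 (y ^ 2) = tr4 y := tr4_isConj h3
    rw [← tr4_pow_char, pow_eq_pow_mod _ h2]
    rcases h1 with h1 | h1 | h1 <;> rw [h1]
    exacts [by rw [pow_one], e2, (key y h2 h3 2).trans e2]
  · suffices h2 : ∀ x ∈ P, tr4 x⁻¹ = tr4 x ^ p by
      rcases out_of_twist p hP hns h2 with h2 | h2 | h2
      exacts [.inr (.inr ⟨hF, .inr ⟨h2.1, h1, h2.2⟩⟩), .inl h2, .inr (.inl h2)]
    intro x hx
    rcases h x hx with h2 | ⟨y, e, h2, h3⟩
    · exact h2.1.trans h2.2.symm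
    refine (sg e).2 ?_
    have e6 : tr4 (y ^ 6) = tr4 y⁻¹ := by
      rw [eq_inv_of_mul_eq_one_left ((pow_succ y 6).symm.trans h2)]
    have e5 := (key y h2 h3 6).trans e6
    rw [← tr4_pow_char, pow_eq_pow_mod _ h2]
    rcases h1 with h1 | h1 | h1 <;> rw [h1]
    exacts [((key y h2 h3 5).trans e5).symm, e5.symm, e6.symm]

end Rat

/-! ## The centre -/

theorem pow_of_mult [Finite F] (hP : QS P) (h : Proj P π) {n : ℕ}
    (hG : HasCyclicSchurMultiplier G n) {z : P} (hz : π z = 1) : z ^ n = 1 := by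
  let e : Shrink.{v} P ≃* P := Shrink.mulEquiv
  have : Finite (Shrink.{v} P) := Finite.of_equiv _ e.symm.toEquiv
  have hc : _root_.commutator (Shrink.{v} P) = ⊤ := by
    rw [_root_.commutator_def, ← Subgroup.map_top_of_surjective e.symm.toMonoidHom e.symm.surjective,
      ← Subgroup.map_commutator, ← _root_.commutator_def, commutator_eq_top4 hP]
  obtain ⟨ρ, hρ⟩ := hG.2 (Shrink.{v} P) (π.comp e.toMonoidHom) ⟨h.surj.comp e.surjective,
    fun x hx => Subgroup.mem_center_iff.2 fun y => e.injective (by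
      rw [map_mul, map_mul]; exact (comm_of_ker4 h hx (e y)).symm), hc ▸ le_top⟩
  obtain ⟨a, ha⟩ := hρ ⟨e.symm z, by simpa using hz⟩
  have h2 : a ^ n = 1 := by
    apply Multiplicative.toAdd.injective
    simp
  have h3 := map_pow ρ a n
  rw [h2, map_one, ha] at h3
  have h4 : (e.symm z) ^ n = 1 := (congrArg Subtype.val h3).symm
  rwa [← map_pow, map_eq_one_iff _ e.symm.injective] at h4

/-- A cover with centre of order at most two. -/
structure Cv (π : P →* G) : Prop where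
  qs : QS P
  pr : Proj P π
  sq : ∀ z : P, π z = 1 → z ^ 2 = 1

theorem proj_comp {G' : Type*} [Group G'] (h : Proj P π) (e : G ≃* G') :
    Proj P (e.toMonoidHom.comp π) :=
  ⟨e.surjective.comp h.surj, fun x => (MulEquiv.map_eq_one_iff e).trans (h.ker x)⟩

theorem cv_of_mult [Finite F] (hP : QS P) (h : Proj P π) {G' : Type*} [Group G'] (e : G ≃* G')
    {n : ℕ} (hn : ¬ 4 ∣ n) (hG : HasCyclicSchurMultiplier G' n) : Cv π :=
  ⟨hP, h, fun z hz => by
    have h1 := pow_gcd_eq_one.2 ⟨pow_four_of_ker hP h hz, pow_of_mult hP (proj_comp h e) hG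
      (z := z) ((MulEquiv.map_eq_one_iff e).2 hz)⟩
    have h2 : Nat.gcd 4 n ∣ 2 := by
      have h3 := Nat.le_of_dvd (by norm_num) (Nat.gcd_dvd_left 4 n)
      have h4 := Nat.gcd_dvd_left 4 n
      have h5 := Nat.gcd_dvd_right 4 n
      generalize Nat.gcd 4 n = d at *
      interval_cases d <;> first | contradiction | norm_num at *
    obtain ⟨k, hk⟩ := h2
    rw [hk, pow_mul, h1, one_pow]⟩

namespace Cv

variable (h : Cv π)
include h

theorem comp {G' : Type*} [Group G'] (e : G ≃* G') : Cv (e.toMonoidHom.comp π) :=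
  ⟨h.qs, proj_comp h.pr e, fun z hz => h.sq z ((MulEquiv.map_eq_one_iff e).1 hz)⟩

theorem ker {z : P} (hz : π z = 1) : z.1 = 1 ∨ z.1 = -1 := by
  obtain ⟨c, -, e⟩ := exists_scalar_of_ker h.qs h.pr hz
  have h1 : z.1.1 ^ 2 = 1 := congrArg (fun x : P => x.1.1) (h.sq z hz)
  rw [e, smul_pow, one_pow] at h1
  have h2 : c ^ 2 = 1 := by simpa using congrFun (congrFun h1 0) 0
  rcases sq_eq_one_iff.1 h2 with rfl | rfl
  · exact .inl (Units.ext (by simpa using e))
  · exact .inr (Units.ext (by simpa using e))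

theorem sg {x y : P} (e : π x = π y) : x.1 = y.1 ∨ x.1 = -y.1 := by
  rcases h.ker (z := x * y⁻¹) (by rw [map_mul, map_inv, e, mul_inv_cancel]) with h1 | h1
  · exact .inl (mul_inv_eq_one.1 h1)
  · exact .inr (by simpa using (mul_inv_eq_iff_eq_mul (a := x.1) (b := y.1)).1 h1)

theorem det (x : P) : x.1.1.det = 1 := congrArg Units.val (h.qs.le_specialLinear x.2)

theorem le_closure {a b : P} (hg : ∀ M : Subgroup G, π a ∈ M → π b ∈ M → M = ⊤) :
    P ≤ Subgroup.closure {a.1, b.1, -1} := fun x hx => by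
  obtain ⟨y, hy, e⟩ := (hg (((Subgroup.closure {a.1, b.1, -1}).subgroupOf P).map π)
    ⟨a, Subgroup.subset_closure (by simp), rfl⟩
    ⟨b, Subgroup.subset_closure (by simp), rfl⟩).ge (Subgroup.mem_top (π ⟨x, hx⟩))
  have hy' : y.1 ∈ Subgroup.closure {a.1, b.1, -1} := hy
  rcases h.sg e.symm with h1 | h1
  · exact (show x = y.1 from h1) ▸ hy'
  · rw [show x = -1 * y.1 from h1.trans (neg_one_mul _).symm]
    exact mul_mem (Subgroup.subset_closure (by simp)) hy'

theorem qd {x : P} (hx : π x * π x = 1) : Qd x.1 := by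
  rcases h.ker (z := x * x) (by rw [map_mul, hx]) with e | e
  · exact ⟨0, 1, one_ne_zero, by simpa using congrArg Units.val e⟩
  · exact ⟨0, -1, by simp, by simpa using congrArg Units.val e⟩

theorem trace_two (h2 : (2 : F) ≠ 0) {x : P} (hx : π x * π x = 1) (h1 : π x ≠ 1) :
    tr4 x.1 = 0 := by
  obtain ⟨s, hs, e⟩ : ∃ s : F, s ^ 2 = 1 ∧ x.1.1 ^ 2 = s • 1 := by
    rcases h.ker (z := x * x) (by rw [map_mul, hx]) with e | e
    · exact ⟨1, by simp, by simpa [pow_two] using congrArg Units.val e⟩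
    · exact ⟨-1, by simp, by simpa [pow_two] using congrArg Units.val e⟩
  exact (trace_of_sq h2 hs e (h.det x)).resolve_left fun ⟨c, hc⟩ =>
    h1 ((h.pr.ker x).2 (mem_scalars_of_eq hc))

theorem exists_odd {k : ℕ} (hk : Odd k) {g : G} (hg : g ^ k = 1) : ∃ x : P, π x = g ∧ x ^ k = 1 :=
  h.pr.exists_lift h.qs.le_specialLinear
    (by simpa using (Nat.coprime_two_right.2 hk).pow_right 2) hg

theorem odd_unique {k : ℕ} (hk : Odd k) {x y : P} (e : π x = π y) (hx : x ^ k = 1)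
    (hy : y ^ k = 1) : x = y :=
  h.pr.lift_unique h.qs.le_specialLinear
    (by simpa using (Nat.coprime_two_right.2 hk).pow_right 2) e hx hy

theorem odd_conj {k m : ℕ} (hk : Odd k) {x : P} (hx : x ^ k = 1) (hc : IsConj (π x) (π x ^ m)) :
    IsConj x.1 (x.1 ^ m) := by
  obtain ⟨c, hc⟩ := isConj_iff.1 hc
  obtain ⟨c, rfl⟩ := h.pr.surj c
  exact isConj_iff.2 ⟨c, congrArg Subtype.val (h.odd_unique hk (x := c * x * c⁻¹) (y := x ^ m)
    (by rw [map_mul, map_mul, map_inv, map_pow, hc]) (by rw [conj_pow, hx, mul_one, mul_inv_cancel])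
    (by rw [← pow_mul, mul_comm, pow_mul, hx, one_pow]))⟩

end Cv

/-- All involutions are conjugate. -/
def OneInv (G : Type*) [Group G] : Prop :=
  ∀ a b : G, a * a = 1 → a ≠ 1 → b * b = 1 → b ≠ 1 → IsConj a b

namespace Cv

variable (h : Cv π) (hI : OneInv G)
include h hI

theorem sq_eq {x y : P} (hx : π x * π x = 1) (hx1 : π x ≠ 1) (hy : π y * π y = 1) (hy1 : π y ≠ 1) :
    x.1 * x.1 = y.1 * y.1 := by
  obtain ⟨c, hc⟩ := isConj_iff.1 (hI _ _ hx hx1 hy hy1)
  obtain ⟨c, rfl⟩ := h.pr.surj c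
  have h1 : c.1 * x.1 * c.1⁻¹ * (c.1 * x.1 * c.1⁻¹) = x.1 * x.1 := by
    rw [conj_mul, mul_inv_eq_iff_eq_mul]
    exact congrArg Subtype.val (comm_of_ker4 h.pr (z := x * x) (by rw [map_mul, hx]) c).symm
  rcases h.sg (x := y) (y := c * x * c⁻¹) (by rw [map_mul, map_mul, map_inv, hc]) with e | e
  · rw [e]; exact h1.symm
  · rw [e, neg_mul_neg]; exact h1.symm

/-- Strongly real elements have real lifts. -/
theorem real {x : P} {w : G} (hw : w * w = 1) (hc : w * π x * w⁻¹ = (π x)⁻¹)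
    (h1 : π x * π x ≠ 1) : IsConj x.1 x.1⁻¹ := by
  obtain ⟨w, rfl⟩ := h.pr.surj w
  have h2 := h.sq_eq hI (x := w * x) (y := w) (by
    rw [← eq_inv_of_mul_eq_one_left hw] at hc
    rw [map_mul, ← mul_assoc, hc, inv_mul_cancel]) (fun e => h1 (by
      rw [map_mul] at e
      rw [eq_inv_of_mul_eq_one_right e, ← _root_.mul_inv_rev, hw, inv_one])) hw fun e => h1 (by
        rw [e, one_mul, inv_one, mul_one] at hc
        exact mul_eq_one_iff_eq_inv.2 hc)
  refine isConj_iff.2 ⟨w.1⁻¹, ?_⟩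
  rw [Subgroup.coe_mul, mul_assoc, mul_right_inj] at h2
  rw [inv_inv, mul_assoc, inv_mul_eq_iff_eq_mul, eq_mul_inv_iff_mul_eq, mul_assoc, h2]

end Cv

/-! ## Classes with rational traces -/

variable (π) in
/-- All lifts have real traces in the prime field. -/
def Good (p : ℕ) (g : G) : Prop := ∀ x : P, π x = g → Rat p x.1

namespace Cv

variable {p : ℕ} [hp : Fact p.Prime] [CharP F p] (h : Cv π)
include h

theorem good_of {x : P} (hx : Rat p x.1) : Good π p (π x) := fun y e => by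
  rcases h.sg e with h1 | h1 <;> rw [h1]
  exacts [hx, hx.neg]

omit hp [CharP F p] in
theorem good_conj {g g' : G} (hg : Good π p g) (e : IsConj g g') : Good π p g' := fun y hy => by
  obtain ⟨c, rfl⟩ := isConj_iff.1 e
  obtain ⟨c, rfl⟩ := h.pr.surj c
  exact (hg (c⁻¹ * y * c) (by rw [map_mul, map_mul, map_inv, hy]; group)).conj
    (isConj_iff.2 ⟨c, by simp [mul_assoc]⟩)

theorem good_two {g : G} (hg : g * g = 1) : Good π p g := by
  rintro x rfl
  have k1 : x.1 * x.1 = 1 → Rat p x.1 := fun e =>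
    rat_of_four (by rw [show x.1 ^ 4 = x.1 * x.1 * (x.1 * x.1) by simp only [pow_succ, pow_zero, one_mul,
      mul_assoc], e, one_mul])
      (by rw [← eq_inv_of_mul_eq_one_left e])
  rcases h.ker (z := x * x) (by rw [map_mul, hg]) with e | e
  · exact k1 e
  by_cases h2 : (2 : F) = 0
  · exact k1 (e.trans (neg_eq_of_two h2 1))
  by_cases h1 : π x = 1
  · rcases h.ker h1 with e1 | e1 <;> exact k1 (by simp [e1])
  have h3 := h.trace_two h2 hg h1
  refine rat_of_zero h3 ?_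
  rw [inv_eq_of_mul_eq_one_right (b := -x.1) (by rw [mul_neg, show x.1 * x.1 = -1 from e, neg_neg]),
    tr4_neg, h3, neg_zero]

theorem good_three {g : G} (hg : g ^ 3 = 1) (hc : IsConj g (g ^ 2)) : Good π p g := by
  obtain ⟨x, rfl, hx⟩ := h.exists_odd (k := 3) (by decide) hg
  have h1 : x.1 ^ 3 = 1 := congrArg Subtype.val hx
  exact h.good_of (rat_of_six (by rw [show 6 = 3 * 2 from rfl, pow_mul, h1, one_pow]) (by
    rw [← eq_inv_of_mul_eq_one_left ((pow_succ x.1 2).symm.trans h1)]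
    exact h.odd_conj (by decide) hx hc))

theorem good_five {g : G} (hg : g ^ 5 = 1) (hc : IsConj g (g ^ 2)) : Good π p g := by
  obtain ⟨x, rfl, hx⟩ := h.exists_odd (k := 5) (by decide) hg
  exact h.good_of (rat_of_five (congrArg Subtype.val hx) (h.odd_conj (by decide) hx hc))

omit hp [CharP F p] in
theorem sev {x : P} (hg : π x ^ 7 = 1) (hc : IsConj (π x) (π x ^ 2)) : Sev x.1 := by
  obtain ⟨y, e, hy⟩ := h.exists_odd (k := 7) (by decide) hg
  exact ⟨y, h.sg e.symm, congrArg Subtype.val hy, h.odd_conj (by decide) hy (e ▸ hc)⟩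

theorem good_four (hI : OneInv G) {g w t : G} (hg : g ^ 4 = 1) (h1 : g * g ≠ 1) (hw : w * w = 1)
    (hc : w * g * w⁻¹ = g⁻¹) (ht : t * t = 1) (hgen : ∀ M : Subgroup G, t ∈ M → g ∈ M → M = ⊤) :
    Good π p g := by
  rintro x rfl
  obtain ⟨t, rfl⟩ := h.pr.surj t
  have hr := h.real hI hw hc h1
  rcases h.ker (z := x ^ 4) (by rw [map_pow, hg]) with e | e
  · exact rat_of_four e hr
  by_cases h2 : (2 : F) = 0
  · exact rat_of_four (e.trans (neg_eq_of_two h2 1)) hr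
  have e' : x.1.1 ^ 4 = (-1 : F) • 1 := by simpa using congrArg Units.val e
  have h3 := h.trace_two h2 (x := x * x) (by rw [map_mul, ← hg]; simp only [pow_succ, pow_zero, one_mul, mul_assoc])
    (by rwa [map_mul])
  have h4 : x.1 ^ 3 = -x.1⁻¹ := by
    rw [← neg_one_mul, eq_mul_inv_iff_mul_eq, ← pow_succ]; exact e
  rcases trace_of_eight h2 e' (h.det x) (by rw [pow_two]; exact h3) (by
    rw [← Units.val_pow_eq_pow_val, h4]
    exact (tr4_neg _).trans (congrArg _ (tr4_isConj hr))) with ⟨c, hc⟩ | h5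
  · refine (quad_pair h.qs.env_top (h.qd ht) ⟨c, -1, by simp, ?_⟩ (h.le_closure hgen)).elim
    have := congrArg (x.1.1 * ·) hc
    simp only [mul_sub, ← pow_succ', e', Matrix.mul_smul, mul_one] at this
    exact eq_add_of_sub_eq this
  · exact rat_of_zero h5 (tr4_isConj hr)

theorem good_six (hI : OneInv G) {g w t : G} (hg : g ^ 6 = 1) (h1 : g * g ≠ 1) (h3 : g ^ 3 ≠ 1)
    (hw : w * w = 1) (hc : w * g * w⁻¹ = g⁻¹) (ht : t * t = 1) (ht1 : t ≠ 1) (ht3 : t * g ^ 3 ≠ 1)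
    (htg : t * g = g * t) : Good π p g := by
  rintro x rfl
  obtain ⟨t, rfl⟩ := h.pr.surj t
  have hr := h.real hI hw hc h1
  have k1 : t.1 * x.1 * t.1⁻¹ = x.1 → Rat p x.1 := fun e => by
    have hc : Commute t.1 (x.1 ^ 3) := (Commute.pow_right (mul_inv_eq_iff_eq_mul.1 e) 3)
    have e2 := h.sq_eq hI (x := t * x ^ 3) (by
      rw [map_mul, map_pow, (Commute.pow_right (a := π t) htg 3).symm.mul_mul_mul_comm, ht, one_mul,
        ← pow_add, hg])
      (by rwa [map_mul, map_pow]) ht ht1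
    refine rat_of_six ?_ hr
    rw [Subgroup.coe_mul, Subgroup.coe_pow, mul_assoc, mul_right_inj, ← mul_assoc, ← hc.eq,
      mul_assoc, mul_eq_left, ← pow_add] at e2
    exact e2
  rcases h.sg (x := t * x * t⁻¹) (y := x)
    (by rw [map_mul, map_mul, map_inv, htg, mul_inv_cancel_right]) with e | e
  · exact k1 e
  by_cases h2 : (2 : F) = 0
  · exact k1 (e.trans (neg_eq_of_two h2 _))
  have h4 := tr4_conj t.1 x.1
  rw [show t.1 * x.1 * t.1⁻¹ = -x.1 from e, tr4_neg] at h4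
  exact rat_of_zero ((mul_eq_zero.1 (by linear_combination -h4 : (2 : F) * tr4 x.1 = 0)).resolve_left
    h2) (tr4_isConj hr)

end Cv

end Cfsg.Lib.Four.Lift
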