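import Cfsg.Agent.Class.Four.Tr
import Cfsg.Agent.Class.Five.Eig

/-!
# Matrices of degree four: eigenvalue lemmas, ranks, quadratic pairs
-/

set_option autoImplicit false

namespace Cfsg.Lib.Four.Lift

open Matrix Module Cfsg.Geo Cfsg.Lib.Class Cfsg.Lib.Class.Asch Cfsg.Lib.Mit Cfsg.Lib.Five
open scoped MatrixGroups

/-! ## Field identities -/

section Fld

variable {L : Type*} [Field L]

theorem four_sq {a b c d : L} (hb : b * b = a * a) (hc : c * c = a * a) (hd : d * d = a * a) :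
    (b = a ∧ c = a ∧ d = a) ∨ a + b + c + d = 0 ∨ a * b * c * d = -(a * a) ^ 2 := by
  rcases mul_self_eq_mul_self_iff.1 hb with rfl | rfl <;>
    rcases mul_self_eq_mul_self_iff.1 hc with rfl | rfl <;>
    rcases mul_self_eq_mul_self_iff.1 hd with rfl | rfl
  all_goals first
    | exact .inl ⟨rfl, rfl, rfl⟩
    | exact .inr (.inl (by ring1))
    | exact .inr (.inr (by ring1))

theorem four_im (h2 : (2 : L) ≠ 0) {a b c d : L} (ha : a * a = -1) (hb : b * b = -1)
    (hc : c * c = -1) (hd : d * d = -1) (hs : a + b + c + d = 0) :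
    (1 - a) * (1 - b) * (1 - c) * (1 - d) = 4 := by
  have h0 : a ≠ 0 := fun e => by simp [e] at ha
  have k2 : 2 * a ≠ 0 := mul_ne_zero h2 h0
  have k4 : 2 * (2 * a) ≠ 0 := mul_ne_zero h2 k2
  rcases mul_self_eq_mul_self_iff.1 (hb.trans ha.symm) with rfl | rfl <;>
    rcases mul_self_eq_mul_self_iff.1 (hc.trans ha.symm) with rfl | rfl <;>
    rcases mul_self_eq_mul_self_iff.1 (hd.trans ha.symm) with rfl | rfl
  all_goals first
    | exact absurd (by linear_combination hs) k4
    | exact absurd (by linear_combination hs) k2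
    | exact absurd (by linear_combination -hs) k2
    | linear_combination (_ * _ - 3) * ha

end Fld

variable {F : Type*} [Field F]

/-! ## Diagonalisable matrices -/

section Dg

variable {ι : Type*} [Fintype ι] [DecidableEq ι] {M : Matrix ι ι F} {ε : ι → AC F}

theorem dg_of_smul {c : F} (h : Dg (c • (1 : Matrix ι ι F)) ε) (i : ι) :
    ε i = algebraMap F (AC F) c := by
  obtain ⟨Q, hQ⟩ := h
  have h1 : (c • (1 : Matrix ι ι F)).map (algebraMap F (AC F)) = algebraMap F (AC F) c • 1 := by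
    ext i j
    by_cases e : i = j <;> simp [e, one_apply]
  rw [h1, Units.eq_mul_inv_iff_mul_eq, smul_mul_assoc, one_mul, ← mul_one (Q : Matrix ι ι (AC F)),
    ← mul_smul_comm, mul_one, Units.mul_right_inj] at hQ
  simpa using (congrFun (congrFun hQ i) i).symm

theorem smul_of_dg (h : Dg M ε) (i₀ : ι) (hε : ∀ i, ε i = ε i₀) : ∃ c : F, M = c • 1 := by
  obtain ⟨Q, hQ⟩ := h
  rw [show diagonal ε = ε i₀ • 1 by
    ext i j
    by_cases e : i = j <;> simp [e, hε j], mul_smul_comm, mul_one, smul_mul_assoc,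
    Units.mul_inv] at hQ
  refine ⟨M i₀ i₀, ?_⟩
  have h0 := congrFun (congrFun hQ i₀) i₀
  ext i j
  apply (algebraMap F (AC F)).injective
  have h1 := congrFun (congrFun hQ i) j
  simp only [map_apply, Matrix.smul_apply, one_apply_eq, smul_eq_mul, mul_one] at h0 h1
  rw [h1]
  by_cases e : i = j <;> simp [e, h0, one_apply]

theorem dg_sub_cube (h : Dg M ε) : Dg (M - M ^ 3) fun i => ε i - ε i ^ 3 := by
  obtain ⟨Q, hQ⟩ := h
  refine ⟨Q, ?_⟩
  rw [← RingHom.mapMatrix_apply, map_sub, map_pow, RingHom.mapMatrix_apply, hQ, Units.conj_pow,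
    diagonal_pow, ← sub_mul, ← mul_sub, diagonal_sub]
  rfl

end Dg

theorem ac_two (h2 : (2 : F) ≠ 0) : (2 : AC F) ≠ 0 := by
  rwa [← map_ofNat (algebraMap F (AC F)), _root_.map_ne_zero]

/-- A nonscalar matrix of determinant one whose square is `±1` has trace zero. -/
theorem trace_of_sq (h2 : (2 : F) ≠ 0) {M : Matrix (Fin 4) (Fin 4) F} {s : F} (hs : s ^ 2 = 1)
    (h : M ^ 2 = s • 1) (hd : M.det = 1) : (∃ c : F, M = c • 1) ∨ M.trace = 0 := by
  obtain ⟨ε, h1, -⟩ := exists_dg (M := M) (n := 4)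
    (by rw [show ((4 : ℕ) : F) = 2 * 2 by norm_num]; exact mul_ne_zero h2 h2)
    (by rw [show M ^ 4 = (M ^ 2) ^ 2 from pow_mul M 2 2, h, smul_pow, hs, one_pow, one_smul])
  have h3 : ∀ i, ε i * ε i = algebraMap F (AC F) s := fun i =>
    (pow_two _).symm.trans (dg_of_smul (h ▸ h1.pow 2) i)
  have h4 := h1.det
  have h5 := h1.trace
  rw [Fin.prod_univ_four, hd, map_one] at h4
  rw [Fin.sum_univ_four] at h5
  rcases four_sq ((h3 1).trans (h3 0).symm) ((h3 2).trans (h3 0).symm) ((h3 3).trans (h3 0).symm)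
    with ⟨e1, e2, e3⟩ | e | e
  · exact .inl (smul_of_dg h1 0 fun i => by fin_cases i; exacts [rfl, e1, e2, e3])
  · exact .inr ((algebraMap F (AC F)).injective (by rw [h5, e, map_zero]))
  · rw [h3, ← map_pow, hs, map_one, ← h4] at e
    exact absurd (by linear_combination e) (ac_two h2)

/-- Real elements of order eight. -/
theorem trace_of_eight (h2 : (2 : F) ≠ 0) {M : Matrix (Fin 4) (Fin 4) F}
    (h : M ^ 4 = (-1 : F) • 1) (hd : M.det = 1) (hq : (M ^ 2).trace = 0)
    (hr : (M ^ 3).trace = -M.trace) : (∃ c : F, M - M ^ 3 = c • 1) ∨ M.trace = 0 := by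
  obtain ⟨ε, h1, -⟩ := exists_dg (M := M) (n := 8)
    (by rw [show ((8 : ℕ) : F) = 2 * 2 * 2 by norm_num]; exact mul_ne_zero (mul_ne_zero h2 h2) h2)
    (by rw [show 8 = 4 * 2 from rfl, pow_mul, h, smul_pow]; simp)
  have h3 : ∀ i, ε i ^ 4 = -1 := fun i =>
    (dg_of_smul (h ▸ h1.pow 4) i).trans (by rw [map_neg, map_one])
  have h4 := h1.det
  have h5 := (h1.pow 2).trace
  have h6 := (dg_sub_cube h1).trace
  rw [Fin.prod_univ_four, hd, map_one] at h4
  rw [Fin.sum_univ_four, hq, map_zero] at h5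
  rw [Fin.sum_univ_four, trace_sub, hr] at h6
  have h7 : ∀ i, ε i ^ 2 * ε i ^ 2 = -1 := fun i => by rw [← h3 i]; ring
  have h8 := four_im (ac_two h2) (h7 0) (h7 1) (h7 2) (h7 3) h5.symm
  have h9 : ∀ i, (ε i - ε i ^ 3) * (ε i - ε i ^ 3) = 2 := fun i => by
    linear_combination (ε i ^ 2 - 2) * h3 i
  rcases four_sq ((h9 1).trans (h9 0).symm) ((h9 2).trans (h9 0).symm) ((h9 3).trans (h9 0).symm)
    with ⟨e1, e2, e3⟩ | e | e
  · exact .inl (smul_of_dg (dg_sub_cube h1) 0 fun i => by fin_cases i; exacts [rfl, e1, e2, e3])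
  · rw [e, map_eq_zero] at h6
    exact .inr ((mul_eq_zero.1 (by linear_combination h6 : (2 : F) * M.trace = 0)).resolve_left h2)
  · rw [h9] at e
    have : (2 : AC F) * (2 * 2) = 0 := by
      linear_combination e - (ε 0 * ε 1 * ε 2 * ε 3) * h8 + 4 * h4
    exact absurd this (mul_ne_zero (ac_two h2) (mul_ne_zero (ac_two h2) (ac_two h2)))

/-! ## Ranks -/

theorem sylvester {ι : Type*} [Fintype ι] [DecidableEq ι] (A B : Matrix ι ι F) :
    A.rank + B.rank ≤ (A * B).rank + Fintype.card ι := by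
  have h1 := LinearMap.finrank_range_add_finrank_ker
    (A.mulVecLin.domRestrict (LinearMap.range B.mulVecLin))
  have h2 := LinearMap.finrank_range_add_finrank_ker A.mulVecLin
  have h3 : finrank F (LinearMap.ker (A.mulVecLin.domRestrict (LinearMap.range B.mulVecLin))) ≤
      finrank F (LinearMap.ker A.mulVecLin) := by
    rw [← Submodule.finrank_map_subtype_eq]
    exact Submodule.finrank_mono (by rintro _ ⟨v, hv, rfl⟩; exact hv)
  rw [LinearMap.range_domRestrict, ← LinearMap.range_comp, ← mulVecLin_mul] at h1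
  rw [finrank_fintype_fun_eq_card] at h2
  unfold Matrix.rank
  omega

theorem rank_of_cube {N : Matrix (Fin 4) (Fin 4) F} (h : N ^ 3 = 0) : N.rank ≤ 2 := by
  have h1 := sylvester N N
  have h2 := sylvester N (N * N)
  rw [← pow_three, h, rank_zero] at h2
  rw [Fintype.card_fin] at h1 h2
  omega

theorem rank_of_inv {M : Matrix (Fin 4) (Fin 4) F} (h : M ^ 2 = 1) (ht : (2 : F) = 0 ∨ M.trace = 0) :
    (M - 1).rank ≤ 2 := by
  by_cases h2 : (2 : F) = 0
  · have h1 := sylvester (M - 1) (M - 1)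
    have h3 : (M - 1) * (M - 1) = 0 := by
      have : (M - 1) * (M - 1) = M ^ 2 - 1 + (2 : F) • (1 - M) := by
        simp only [pow_two, mul_sub, sub_mul, mul_one, one_mul]; module
      rw [this, h, h2, sub_self, zero_smul, add_zero]
    rw [h3, rank_zero, Fintype.card_fin] at h1
    omega
  classical
  obtain ⟨ε, h1, h3⟩ := exists_dg (M := M) (n := 2) (by exact_mod_cast h2) h
  have h5 := h1.trace
  rw [ht.resolve_left h2, map_zero, Fin.sum_univ_four] at h5
  have h4 : (-1 : AC F) ≠ 1 := fun e => ac_two h2 (by linear_combination -e)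
  have k2 := ac_two h2
  have k4 := mul_ne_zero k2 k2
  rw [h1.rank, Finset.card_filter, Fin.sum_univ_four]
  rcases sq_eq_one_iff.1 (h3 0) with e0 | e0 <;>
    rcases sq_eq_one_iff.1 (h3 1) with e1 | e1 <;>
    rcases sq_eq_one_iff.1 (h3 2) with e2 | e2 <;>
    rcases sq_eq_one_iff.1 (h3 3) with e3 | e3 <;>
    rw [e0, e1, e2, e3] at h5 ⊢
  all_goals first
    | (simp [h4]; done)
    | exact absurd (by linear_combination h5) k2
    | exact absurd (by linear_combination h5) k4

theorem rank_of_seven (h7 : (7 : F) ≠ 0) {g : GL (Fin 4) F} (h : g ^ 7 = 1)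
    (hc : IsConj g (g ^ 2)) : ((g : Matrix (Fin 4) (Fin 4) F) - 1).rank ≤ 3 := by
  by_cases h1 : g = 1
  · simp [h1]
  obtain ⟨c, -, h2, h3, h4⟩ := exists_count (by norm_num : Nat.Prime 7) (by exact_mod_cast h7) h h1
  have h5 := h4 2 (by norm_num) hc
  have := h5 1
  have := h5 2
  have := h5 3
  have := h5 6
  simp only [Finset.sum_range_succ, Finset.sum_range_zero, Fintype.card_fin] at h2 h3
  norm_num at *
  omega

/-- The element satisfies a quadratic equation. -/
def Qd (a : GL (Fin 4) F) : Prop := ∃ α β : F, β ≠ 0 ∧ a.1 * a.1 = α • a.1 + β • 1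

theorem rank_of_three {g : GL (Fin 4) F} (h : g ^ 3 = 1) (hc : IsConj g (g ^ 2)) :
    Qd g ∨ ((g : Matrix (Fin 4) (Fin 4) F) - 1).rank ≤ 2 := by
  have h0 : g.1 ^ 3 = 1 := by rw [← Units.val_pow_eq_pow_val, h, Units.val_one]
  by_cases h3 : (3 : F) = 0
  · refine .inr (rank_of_cube ?_)
    have : (g.1 - 1) ^ 3 = g.1 ^ 3 - 1 + (3 : F) • (g.1 - g.1 * g.1) := by
      simp only [pow_three, mul_sub, sub_mul, mul_one, one_mul]; module
    rw [this, h0, h3, sub_self, zero_smul, add_zero]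
  by_cases h1 : g = 1
  · simp [h1]
  by_cases hd : (g.1 - 1).det = 0
  · obtain ⟨c, h5, h2, h4, h6⟩ := exists_count Nat.prime_three (by exact_mod_cast h3) h h1
    have h7 := h6 2 (by norm_num) hc 1
    have h8 := rank_lt_of_det hd
    simp only [Finset.sum_range_succ, Finset.sum_range_zero, Fintype.card_fin] at h2 h4 h8
    norm_num at h7
    omega
  · have h2 := mul_geom_sum g.1 3
    rw [h0, sub_self, ((isUnit_iff_isUnit_det _).2 (Ne.isUnit hd)).mul_right_eq_zero] at h2
    simp only [Finset.sum_range_succ, Finset.sum_range_zero, pow_zero, pow_one, pow_two] at h2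
    exact .inl ⟨-1, -1, by simp, by linear_combination (norm := module) h2⟩

/-! ## Quadratic pairs -/

/-- Two quadratic elements do not generate an absolutely irreducible group. -/
theorem quad_pair {P : Subgroup (GL (Fin 4) F)} (h : env P = ⊤) {a b : GL (Fin 4) F} (ha : Qd a)
    (hb : Qd b) (hP : P ≤ Subgroup.closure {a, b, -1}) : False := by
  obtain ⟨α, α', ha0, ha2⟩ := ha
  obtain ⟨β, β', hb0, hb2⟩ := hb
  have hinv : ∀ (a : GL (Fin 4) F) (α α' : F), α' ≠ 0 → a.1 * a.1 = α • a.1 + α' • 1 →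
      (a⁻¹).1 = α'⁻¹ • (a.1 - α • 1) := fun a α α' h0 h1 => by
    refine Units.inv_eq_of_mul_eq_one_right ?_
    rw [Matrix.mul_smul, Matrix.mul_sub, h1, Matrix.mul_smul, Matrix.mul_one, add_sub_cancel_left,
      smul_smul, inv_mul_cancel₀ h0, one_smul]
  have ha' := hinv a α α' ha0 ha2
  have hb' := hinv b β β' hb0 hb2
  obtain ⟨κ, hκ⟩ := eq_smul_one_of_env_eq_top h (x := a.1 * b.1 + b.1 * a.1 - α • b.1 - β • a.1)
    fun g hg => by
      refine Subgroup.closure_induction (p := fun g _ => Commute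
        (a.1 * b.1 + b.1 * a.1 - α • b.1 - β • a.1) g.1) ?_ (Commute.one_right _)
        (fun x y _ _ hx hy => hx.mul_right hy) (fun x _ hx => hx.units_inv_right) (hP hg)
      rintro _ (rfl | rfl | rfl)
      · simp only [Commute, SemiconjBy, Matrix.add_mul, Matrix.mul_add, Matrix.sub_mul,
          Matrix.mul_sub, Matrix.smul_mul, Matrix.mul_smul, Matrix.mul_assoc, ha2]
        simp only [← Matrix.mul_assoc, ha2, Matrix.add_mul, Matrix.smul_mul, Matrix.mul_one,
          Matrix.one_mul]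
        module
      · simp only [Commute, SemiconjBy, Matrix.add_mul, Matrix.mul_add, Matrix.sub_mul,
          Matrix.mul_sub, Matrix.smul_mul, Matrix.mul_smul, Matrix.mul_assoc, hb2]
        simp only [← Matrix.mul_assoc, hb2, Matrix.add_mul, Matrix.smul_mul, Matrix.mul_one,
          Matrix.one_mul]
        module
      · exact (Commute.one_right _).neg_right
  have hba : b.1 * a.1 = κ • 1 - a.1 * b.1 + α • b.1 + β • a.1 := by rw [← hκ]; abel
  let v : Fin 4 → Matrix (Fin 4) (Fin 4) F := ![1, a.1, b.1, a.1 * b.1]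
  let S := Submodule.span F (Set.range v)
  have m : ∀ i, v i ∈ S := fun i => Submodule.subset_span ⟨i, rfl⟩
  have m0 : (1 : Matrix (Fin 4) (Fin 4) F) ∈ S := m 0
  have m1 : a.1 ∈ S := m 1
  have m2 : b.1 ∈ S := m 2
  have m3 : a.1 * b.1 ∈ S := m 3
  have lin : ∀ M : Matrix (Fin 4) (Fin 4) F, (∀ i, M * v i ∈ S) → ∀ X ∈ S, M * X ∈ S :=
    fun M hM X hX =>
    Submodule.span_induction (p := fun X _ => M * X ∈ S) (by rintro _ ⟨i, rfl⟩; exact hM i)
      (by simp) (fun x y _ _ hx hy => by rw [Matrix.mul_add]; exact add_mem hx hy)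
      (fun c x _ hx => by rw [Matrix.mul_smul]; exact S.smul_mem _ hx) hX
  have la : ∀ X ∈ S, a.1 * X ∈ S := lin _ fun i => by
    fin_cases i
    · simpa [v] using m1
    · simpa [v, ha2] using add_mem (S.smul_mem α m1) (S.smul_mem α' m0)
    · exact m3
    · simpa [v, ← Matrix.mul_assoc, ha2, Matrix.add_mul] using
        add_mem (S.smul_mem α m3) (S.smul_mem α' m2)
  have lb : ∀ X ∈ S, b.1 * X ∈ S := lin _ fun i => by
    fin_cases i
    · simpa [v] using m2
    · simpa [v, hba] using add_mem (add_mem (sub_mem (S.smul_mem κ m0) m3) (S.smul_mem α m2))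
        (S.smul_mem β m1)
    · simpa [v, hb2] using add_mem (S.smul_mem β m2) (S.smul_mem β' m0)
    · have hbb : b.1 * b.1 ∈ S := hb2 ▸ add_mem (S.smul_mem β m2) (S.smul_mem β' m0)
      simpa [v, ← Matrix.mul_assoc, hba, Matrix.sub_mul, Matrix.add_mul] using
        add_mem (add_mem (sub_mem (S.smul_mem κ m2) (la _ hbb))
          (S.smul_mem α hbb)) (S.smul_mem β m3)
  have key : ∀ g ∈ Subgroup.closure {a, b, -1},
      (∀ X ∈ S, g.1 * X ∈ S) ∧ ∀ X ∈ S, (g⁻¹).1 * X ∈ S := fun g hg => by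
    refine Subgroup.closure_induction (p := fun g _ =>
      (∀ X ∈ S, g.1 * X ∈ S) ∧ ∀ X ∈ S, (g⁻¹).1 * X ∈ S) ?_ (by simp) (fun x y _ _ hx hy =>
        ⟨fun X hX => by simpa [Matrix.mul_assoc] using hx.1 _ (hy.1 X hX), fun X hX => by
          simpa [Matrix.mul_assoc] using hy.2 _ (hx.2 X hX)⟩) (fun x _ hx => ⟨hx.2, hx.1⟩) hg
    rintro _ (rfl | rfl | rfl)
    · exact ⟨la, fun X hX => by
        rw [ha', Matrix.smul_mul, Matrix.sub_mul, Matrix.smul_mul, Matrix.one_mul]
        exact S.smul_mem _ (sub_mem (la X hX) (S.smul_mem α hX))⟩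
    · exact ⟨lb, fun X hX => by
        rw [hb', Matrix.smul_mul, Matrix.sub_mul, Matrix.smul_mul, Matrix.one_mul]
        exact S.smul_mem _ (sub_mem (lb X hX) (S.smul_mem β hX))⟩
    · simp
  have hS : S = ⊤ := eq_top_iff.2 fun X _ => env_induction (L := P) (p := (· ∈ S))
    (fun g hg => by simpa using (key g (hP hg)).1 1 m0) S.zero_mem (fun _ _ => S.add_mem)
    (fun c _ => S.smul_mem c) (h ▸ Algebra.mem_top)
  have h4 : finrank F S ≤ 4 := finrank_range_le_card (R := F) v
  rw [hS, finrank_top, Module.finrank_matrix] at h4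
  simp at h4

end Cfsg.Lib.Four.Lift
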