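import Cfsg.Agent.Class.Four.Defs

/-! Finite Jordan division algebras of `2 × 2` matrices are commutative. -/

set_option autoImplicit false

namespace Cfsg.Lib.Four.Qr

open Matrix Polynomial

variable {K : Type*} [Field K]

/-- An additive group of `2 × 2` matrices closed under `a b a` whose nonzero members are
invertible. -/
structure JS (A : AddSubgroup (M2 K)) : Prop where
  two : (2 : K) ≠ 0
  one : (1 : M2 K) ∈ A
  half : ∀ a ∈ A, (2⁻¹ : K) • a ∈ A
  aba : ∀ a ∈ A, ∀ b ∈ A, a * b * a ∈ A
  unit : ∀ a ∈ A, a ≠ 0 → IsUnit a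

theorem anticomm_of_trace {c d : M2 K} (hc : c.trace = 0) (hd : d.trace = 0) :
    c * d + d * c = (c * d).trace • (1 : M2 K) := by
  rw [trace_fin_two] at hc hd
  have h1 : c 1 1 = -c 0 0 := by linear_combination hc
  have h2 : d 1 1 = -d 0 0 := by linear_combination hd
  ext i j
  fin_cases i <;> fin_cases j <;> simp [mul_apply, trace_fin_two, Fin.sum_univ_two, h1, h2] <;> ring

theorem sq_of_trace {c : M2 K} (hc : c.trace = 0) : c * c = (-c.det) • (1 : M2 K) := by
  rw [trace_fin_two] at hc
  have h1 : c 1 1 = -c 0 0 := by linear_combination hc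
  ext i j
  fin_cases i <;> fin_cases j <;> simp [mul_apply, det_fin_two, Fin.sum_univ_two, h1] <;> ring

theorem eq_zero_of_smul_trace (h2 : (2 : K) ≠ 0) {l : K} (h : (l • (1 : M2 K)).trace = 0) : l = 0 := by
  simpa [h2] using h

theorem comm_of_comm_traceless (h2 : (2 : K) ≠ 0) {c a b : M2 K} (hc : c.trace = 0) (h0 : c ≠ 0)
    (ha : c * a = a * c) (hb : c * b = b * c) : a * b = b * a := by
  rw [trace_fin_two] at hc
  have h1 : c 1 1 = -c 0 0 := by linear_combination hc
  have a0 := congrFun (congrFun ha 0) 0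
  have a1 := congrFun (congrFun ha 0) 1
  have a2 := congrFun (congrFun ha 1) 0
  have b0 := congrFun (congrFun hb 0) 0
  have b1 := congrFun (congrFun hb 0) 1
  have b2 := congrFun (congrFun hb 1) 0
  simp only [mul_apply, Fin.sum_univ_two, h1] at a0 a1 a2 b0 b1 b2
  have key : a 0 1 * b 1 0 = b 0 1 * a 1 0 ∧
      a 0 1 * (b 0 0 - b 1 1) = b 0 1 * (a 0 0 - a 1 1) ∧
      a 1 0 * (b 0 0 - b 1 1) = b 1 0 * (a 0 0 - a 1 1) := by
    by_cases e0 : c 0 0 = 0
    · by_cases e1 : c 0 1 = 0
      · have e2 : c 1 0 ≠ 0 := by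
          intro e2
          apply h0
          ext i j
          fin_cases i <;> fin_cases j <;> simp [e0, e1, e2, h1]
        refine ⟨mul_left_cancel₀ e2 ?_, mul_left_cancel₀ e2 ?_, mul_left_cancel₀ e2 ?_⟩
        · linear_combination (-b 1 0) * a0 + a 1 0 * b0 + (a 1 0 * b 1 0 - a 1 0 * b 1 0) * e1
        · linear_combination a 0 1 * b2 - b 0 1 * a2 + 2 * (a 0 1 * b 1 0 - b 0 1 * a 1 0) * e0
        · linear_combination a 1 0 * b2 - b 1 0 * a2
      · refine ⟨mul_left_cancel₀ e1 ?_, mul_left_cancel₀ e1 ?_, mul_left_cancel₀ e1 ?_⟩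
        · linear_combination a 0 1 * b0 - b 0 1 * a0
        · linear_combination b 0 1 * a1 - a 0 1 * b1
        · linear_combination b 1 0 * a1 - a 1 0 * b1 + 2 * (a 1 0 * b 0 1 - b 1 0 * a 0 1) * e0
    · have e0' : 2 * c 0 0 ≠ 0 := mul_ne_zero h2 e0
      refine ⟨mul_left_cancel₀ e0' ?_, mul_left_cancel₀ e0' ?_, mul_left_cancel₀ e0' ?_⟩
      · linear_combination b 1 0 * a1 + b 0 1 * a2 + (a 0 0 - a 1 1) * b0
      · linear_combination (b 0 0 - b 1 1) * a1 - (a 0 0 - a 1 1) * b1
      · linear_combination (a 0 0 - a 1 1) * b2 - (b 0 0 - b 1 1) * a2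
  obtain ⟨k1, k2, k3⟩ := key
  ext i j
  fin_cases i <;> fin_cases j <;> simp [mul_apply, Fin.sum_univ_two]
  · linear_combination k1
  · linear_combination -k2
  · linear_combination k3
  · linear_combination -k1

namespace JS

variable {A : AddSubgroup (M2 K)} (h : JS A)
include h

theorem jor {a b : M2 K} (ha : a ∈ A) (hb : b ∈ A) : a * b + b * a ∈ A := by
  have := A.sub_mem (A.sub_mem (h.aba _ (A.add_mem ha h.one) _ hb) (h.aba _ ha _ hb)) hb
  convert this using 1
  noncomm_ring

theorem of_two {a : M2 K} (ha : a + a ∈ A) : a ∈ A := by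
  have := h.half _ ha
  rwa [← two_smul K a, smul_smul, inv_mul_cancel₀ h.two, one_smul] at this

theorem pow_mem {a : M2 K} (ha : a ∈ A) (n : ℕ) : a ^ n ∈ A := by
  induction n using Nat.twoStepInduction with
  | zero => simpa using h.one
  | one => simpa using ha
  | more n ih _ =>
    have := h.aba _ ha _ ih
    rwa [← pow_succ', ← pow_succ] at this

theorem sq_mem {a : M2 K} (ha : a ∈ A) : a * a ∈ A := by
  simpa using h.aba _ ha _ h.one

theorem smul_mem {l : K} (hl : l • (1 : M2 K) ∈ A) {a : M2 K} (ha : a ∈ A) : l • a ∈ A :=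
  h.of_two (by simpa using h.jor hl ha)

/-- The scalars in `A`. -/
def scal : Subring K where
  carrier := {l | l • (1 : M2 K) ∈ A}
  mul_mem' := fun ha hb => by
    have := h.smul_mem ha hb
    rwa [smul_smul] at this
  one_mem' := by simpa using h.one
  add_mem' := fun ha hb => by
    have := A.add_mem ha hb
    rwa [← add_smul] at this
  zero_mem' := by simp
  neg_mem' := fun ha => by
    have := A.neg_mem ha
    rwa [← neg_smul] at this

omit h in
theorem scal_eq_1' : type_of% @scal.eq_1 := @scal.eq_1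

theorem exists_sol [Finite K] {α β : K} (hα : α • (1 : M2 K) ∈ A) (hβ : β • (1 : M2 K) ∈ A)
    (h0 : α ≠ 0) : ∃ u v : K, u • (1 : M2 K) ∈ A ∧ v • (1 : M2 K) ∈ A ∧ u ^ 2 = α * v ^ 2 + β := by
  have := Fintype.ofFinite K
  have := Fintype.ofFinite h.scal
  have hK : Fintype.card K % 2 = 1 := FiniteField.odd_card_of_char_ne_two fun e =>
    h.two (by exact_mod_cast (ringChar.spec K 2).mpr (e ▸ dvd_rfl))
  have hR : Fintype.card h.scal % 2 = 1 := by
    have h1 := AddSubgroup.card_addSubgroup_dvd_card h.scal.toAddSubgroup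
    rw [Nat.card_eq_fintype_card (α := K)] at h1
    have h2 : Nat.card h.scal.toAddSubgroup = Fintype.card h.scal := Nat.card_eq_fintype_card
    rw [h2] at h1
    exact Nat.odd_iff.mp (Odd.of_dvd_nat (Nat.odd_iff.mpr hK) h1)
  let a : h.scal := ⟨α, hα⟩
  let b : h.scal := ⟨β, hβ⟩
  have ha : -a ≠ 0 := neg_ne_zero.mpr fun e => h0 (congrArg Subtype.val e)
  obtain ⟨u, v, huv⟩ := FiniteField.exists_root_sum_quadratic (f := (X : h.scal[X]) ^ 2)
    (g := C (-a) * X ^ 2 + C 0 * X + C (-b)) (degree_X_pow 2) (degree_quadratic ha) hR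
  refine ⟨u, v, u.2, v.2, ?_⟩
  have := congrArg Subtype.val huv
  simp [a, b] at this
  linear_combination this

theorem comm [Finite K] {a b : M2 K} (ha : a ∈ A) (hb : b ∈ A) : a * b = b * a := by
  by_contra hne
  set c := a * b - b * a with hc
  have hc0 : c ≠ 0 := sub_ne_zero.mpr hne
  have hct : c.trace = 0 := by rw [hc, trace_sub, trace_mul_comm, sub_self]
  have hder : ∀ x ∈ A, c * x - x * c ∈ A := by
    intro x hx
    have := A.sub_mem (h.jor ha (h.jor hb hx)) (h.jor hb (h.jor ha hx))
    convert this using 1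
    rw [hc]
    noncomm_ring
  obtain ⟨x, hx, hd0⟩ : ∃ x ∈ A, c * x - x * c ≠ 0 := by
    by_contra hh
    push Not at hh
    exact hne (comm_of_comm_traceless h.two hct hc0 (sub_eq_zero.mp (hh a ha)) (sub_eq_zero.mp (hh b hb)))
  have hd := hder x hx
  set d := c * x - x * c with hdd
  have hdt : d.trace = 0 := by rw [hdd, trace_sub, trace_mul_comm, sub_self]
  have het : (c * d).trace = 0 := by
    rw [hdd, mul_sub, trace_sub, ← mul_assoc c x c, trace_mul_comm (c * x) c, sub_self]
  clear_value d
  have hcd : d * c = -(c * d) := by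
    have := anticomm_of_trace hct hdt
    rw [het, zero_smul] at this
    exact eq_neg_of_add_eq_zero_right this
  have he : c * d ∈ A := h.of_two (by simpa [hcd] using hder d hd)
  have hdu := h.unit d hd hd0
  have hα := sq_of_trace hdt
  have hβ := sq_of_trace het
  obtain ⟨u, v, hu, hv, huv⟩ := h.exists_sol (hα ▸ h.sq_mem hd) (hβ ▸ h.sq_mem he)
    (neg_ne_zero.mpr ((isUnit_iff_isUnit_det d).mp hdu).ne_zero)
  have hw : v • d + c * d = 0 := by
    have hwt : (v • d + c * d).trace = 0 := by rw [trace_add, trace_smul, hdt, het]; simp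
    have hsq : (v • d + c * d) * (v • d + c * d) = (u ^ 2) • (1 : M2 K) := by
      have e : d * (c * d) = -(c * d * d) := by rw [← mul_assoc, hcd, neg_mul]
      rw [add_mul, mul_add, mul_add, smul_mul_smul_comm, smul_mul_assoc, mul_smul_comm, e, hα, hβ, huv]
      module
    by_cases h0 : u • (1 : M2 K) + (v • d + c * d) = 0
    · have h1 := congrArg trace h0
      rw [trace_add, hwt, add_zero, trace_zero] at h1
      rwa [eq_zero_of_smul_trace h.two h1, zero_smul, zero_add] at h0
    · have h1 := h.unit _ (A.add_mem hu (A.add_mem (h.smul_mem hv hd) he)) h0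
      have h2 : (u • (1 : M2 K) + (v • d + c * d)) * (u • (1 : M2 K) - (v • d + c * d)) = 0 := by
        generalize v • d + c * d = w at hsq
        rw [add_mul, mul_sub, mul_sub, hsq]
        simp only [smul_mul_assoc, mul_smul_comm, one_mul, mul_one]
        module
      have h3 := h1.mul_right_eq_zero.mp h2
      have h4 := congrArg trace h3
      rw [trace_sub, hwt, sub_zero, trace_zero] at h4
      rwa [eq_zero_of_smul_trace h.two h4, zero_smul, zero_sub, neg_eq_zero] at h3
  have h5 : (v • (1 : M2 K) + c) * d = 0 := by rw [add_mul, smul_mul_assoc, one_mul, hw]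
  have h6 := hdu.mul_left_eq_zero.mp h5
  have h7 := congrArg trace h6
  rw [trace_add, hct, add_zero, trace_zero] at h7
  rw [eq_zero_of_smul_trace h.two h7, zero_smul, zero_add] at h6
  exact hc0 h6

/-- The members of `A` are semisimple. -/
theorem comm_of_comm_comm [Finite K] {x a : M2 K} (hx : x ∈ A)
    (hc : x * (x * a - a * x) = (x * a - a * x) * x) : x * a = a * x := by
  have := Fintype.ofFinite K
  let l : K := 2⁻¹ * x.trace
  set n : M2 K := x - l • 1 with hn
  have hx' : x = l • 1 + n := by rw [hn]; abel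
  have hnt : n.trace = 0 := by
    rw [hn, trace_sub, trace_smul, trace_one]
    simp only [l, Fintype.card_fin, Nat.cast_ofNat, smul_eq_mul]
    field_simp [h.two]
    ring
  have hnn := sq_of_trace hnt
  by_cases hdet : n.det = 0
  · rw [hdet, neg_zero, zero_smul] at hnn
    have hp : ∀ N : ℕ, x ^ (N + 1) = l ^ (N + 1) • (1 : M2 K) + (((N + 1 : ℕ) : K) * l ^ N) • n := by
      intro N
      induction N with
      | zero => simpa using hx'
      | succ N ih =>
        rw [pow_succ, ih]
        conv_lhs => enter [2]; rw [hx']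
        simp only [add_mul, mul_add, smul_mul_assoc, mul_smul_comm, one_mul, mul_one, hnn, smul_zero]
        push_cast
        module
    obtain ⟨N, hN⟩ : ∃ N, Fintype.card K = N + 1 := ⟨_, (Nat.succ_pred_eq_of_pos Fintype.card_pos).symm⟩
    have h1 := h.pow_mem hx (N + 1)
    rw [hp, ← hN, FiniteField.pow_card, FiniteField.cast_card_eq_zero, zero_mul, zero_smul, add_zero] at h1
    have h2 : n = 0 := by
      by_contra h0
      exact h0 ((h.unit n (A.sub_mem hx h1) h0).mul_right_eq_zero.mp hnn)
    rw [hx', h2]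
    simp
  · set c := x * a - a * x with hcd
    have hct : c.trace = 0 := by rw [hcd, trace_sub, trace_mul_comm, sub_self]
    have h1 : (n * c).trace = 0 := by
      rw [hn, sub_mul, trace_sub, smul_mul_assoc, one_mul, trace_smul, hct, hcd, mul_sub, trace_sub,
        ← mul_assoc x a x, trace_mul_comm (x * a) x]
      simp
    have h2 := anticomm_of_trace hnt hct
    have h3 : c * n = n * c := by rw [hn, mul_sub c x, sub_mul x _ c, hc]; simp
    rw [h1, zero_smul, h3, ← two_smul K] at h2
    have h4 : n * c = 0 := (smul_eq_zero.mp h2).resolve_left h.two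
    have h5 : (-n.det) • c = 0 := by
      rw [← one_mul c, ← smul_mul_assoc, ← hnn, mul_assoc, h4, mul_zero]
    exact sub_eq_zero.mp ((smul_eq_zero.mp h5).resolve_left (neg_ne_zero.mpr hdet))

end JS

end Cfsg.Lib.Four.Qr
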