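import Cfsg.Agent.Class.Four.Blk
import Cfsg.Agent.Class.Four.QAlg
import Cfsg.Agent.Class.QuadComm

/-! No quadratic root groups. -/

set_option autoImplicit false

namespace Cfsg.Lib.Four

open Matrix Cfsg.Lib.Class
open scoped MatrixGroups

universe u

namespace Qr

variable {K : Type*} [Field K] {G : Type*} [Group G] {ρ : G →* PGL(I4, K)} {k : Subfield K}
  {s t r : M4 K}

/-- A root element. -/
def Rt (ρ : G →* PGL(I4, K)) (k : Subfield K) (s : M4 K) : Prop :=
  s * s = 0 ∧ ∀ c ∈ k, Mem ρ (1 + c • s)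

theorem Rt_eq_1' : type_of% @Rt.eq_1 := @Rt.eq_1

theorem Rt.zero : Rt ρ k 0 := ⟨by simp, fun c _ => by simpa using Mem.one⟩

theorem Rt.mem (h : Rt ρ k s) : Mem ρ (1 + s) := by simpa using h.2 1 k.one_mem

theorem Rt.smul (h : Rt ρ k s) {c : K} (hc : c ∈ k) : Rt ρ k (c • s) :=
  ⟨by rw [smul_mul_smul_comm, h.1, smul_zero], fun d hd => by
    rw [smul_smul]; exact h.2 _ (k.mul_mem hd hc)⟩

theorem Rt.neg (h : Rt ρ k s) : Rt ρ k (-s) := by
  simpa using h.smul (k.neg_mem k.one_mem)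

theorem Rt.add (hs : Rt ρ k s) (ht : Rt ρ k t) (h1 : s * t = 0) (h2 : t * s = 0) : Rt ρ k (s + t) :=
  ⟨by rw [add_mul, mul_add, mul_add, hs.1, ht.1, h1, h2]; simp, fun c hc =>
    ((hs.2 c hc).mul (ht.2 c hc)).congr (by
      rw [add_mul, mul_add, mul_add, smul_mul_smul_comm, h1, smul_add]; simp; abel)⟩

theorem Rt.conj {W : M4 K} (hs : Rt ρ k s) (hW : Mem ρ W) (e : W * s = t * W) : Rt ρ k t := by
  refine ⟨hW.isUnit.mul_left_eq_zero.mp ?_, fun c hc => ?_⟩
  · rw [mul_assoc, ← e, ← mul_assoc, ← e, mul_assoc, hs.1, mul_zero]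
  · obtain ⟨g, hg⟩ := hW
    obtain ⟨x, hx⟩ := hs.2 c hc
    exact (hg.conj hx (by rw [mul_add, add_mul, mul_smul_comm, e, smul_mul_assoc]; simp)).mem

theorem Rt.cj {B : GL I4 K} (hs : Rt ρ k s) (e : s * B = B * t) : Rt (cj B ρ) k t := by
  refine ⟨B.isUnit.mul_right_eq_zero.mp ?_, fun c hc => ?_⟩
  · rw [← mul_assoc, ← e, mul_assoc, ← e, ← mul_assoc, hs.1, zero_mul]
  · obtain ⟨x, hx⟩ := hs.2 c hc
    exact (lf_cj_of hx (by rw [mul_add, add_mul, mul_smul_comm, smul_mul_assoc, e]; simp)).mem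

theorem two_le_finrank (H : St ρ) (hs : Rt ρ k s) (h0 : s ≠ 0) :
    2 ≤ Module.finrank K (LinearMap.range (toLin' s)) := by
  by_contra hc
  obtain ⟨v, hv⟩ := finrank_le_one_iff.mp (show Module.finrank K (LinearMap.range (toLin' s)) ≤ 1 by omega)
  have : ∀ j, ∃ c : K, c • (v : I4 → K) = s.col j := fun j => by
    obtain ⟨c, hc⟩ := hv ⟨s.col j, Pi.single j 1, by simp⟩
    exact ⟨c, congrArg Subtype.val hc⟩
  choose f hf using this
  refine h0 (H.eq_zero_of_rank hs.mem hs.1 (v := v) (f := f) ?_)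
  ext i j
  have := congrFun (hf j) i
  simp only [Pi.smul_apply, smul_eq_mul, col_apply] at this
  rw [vecMulVec_apply, ← this, mul_comm]

theorem ker_eq_range (H : St ρ) (hs : Rt ρ k s) (h0 : s ≠ 0) {v : I4 → K} (hv : s *ᵥ v = 0) :
    ∃ w, s *ᵥ w = v := by
  have h1 : LinearMap.range (toLin' s) ≤ LinearMap.ker (toLin' s) := by
    rintro _ ⟨w, rfl⟩
    simp [hs.1]
  have h2 := LinearMap.finrank_range_add_finrank_ker (toLin' s)
  have h3 := two_le_finrank H hs h0
  have h4 : Module.finrank K (I4 → K) = 4 := by simp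
  have h5 := Submodule.eq_of_le_of_finrank_le h1 (by omega)
  have : v ∈ LinearMap.range (toLin' s) := by rw [h5]; simpa using hv
  obtain ⟨w, hw⟩ := this
  exact ⟨w, by simpa using hw⟩

/-- Matrices as endomorphisms over the subfield. -/
noncomputable def ph (k : Subfield K) : M4 K →+* Module.End k (I4 → K) where
  toFun A := (toLin' A).restrictScalars k
  map_one' := by ext v; simp
  map_mul' A B := by ext v; simp
  map_zero' := by ext v; simp
  map_add' A B := by ext v; simp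

theorem ph_eq_1' : type_of% @ph.eq_1 := @ph.eq_1

theorem ph_apply (A : M4 K) (v : I4 → K) : ph k A v = A *ᵥ v := rfl

theorem ph_inj : Function.Injective (ph k) := fun _ _ h =>
  toLin'.injective (LinearMap.ext fun v => congrArg (fun f : Module.End k (I4 → K) => f v) h)

theorem ph_smul (c : k) (A : M4 K) : ph k ((c : K) • A) = c • ph k A :=
  LinearMap.ext fun v => by rw [ph_apply, smul_mulVec]; rfl

/-- The linear group over the subfield. -/
noncomputable def Gh (ρ : G →* PGL(I4, K)) (k : Subfield K) :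
    Subgroup (LinearMap.GeneralLinearGroup k (I4 → K)) :=
  (lin ρ).map (Units.map (ph k).toMonoidHom)

theorem Gh_eq_1' : type_of% @Gh.eq_1 := @Gh.eq_1

theorem qs_iff : ph k s ∈ QS (Gh ρ k) ↔ Rt ρ k s := by
  constructor
  · rintro ⟨h1, h2⟩
    refine ⟨ph_inj (k := k) (by rw [map_mul, h1, map_zero]), fun c hc => ?_⟩
    obtain ⟨_, ⟨u, hu, rfl⟩, hg⟩ := h2 ⟨c, hc⟩
    refine (mem_lin.mp hu).congr (ph_inj (k := k) ?_)
    rw [map_add, map_one, ph_smul ⟨c, hc⟩]
    exact hg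
  · rintro ⟨h1, h2⟩
    refine ⟨by rw [← map_mul, h1, map_zero], fun c => ?_⟩
    obtain ⟨u, hu⟩ := (h2 c c.2).isUnit
    refine ⟨_, ⟨u, mem_lin.mpr ((h2 c c.2).congr hu.symm), rfl⟩, ?_⟩
    change ph k u = _
    rw [hu, map_add, map_one, ph_smul]

theorem exists_of_qs {x : Module.End k (I4 → K)} (hx : x ∈ QS (Gh ρ k)) : ∃ s, Rt ρ k s ∧ ph k s = x := by
  obtain ⟨_, ⟨u, -, rfl⟩, hg⟩ := hx.2 1
  have : ph k ((u : M4 K) - 1) = x := by
    rw [map_sub, map_one, sub_eq_iff_eq_add', ← one_smul k x]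
    exact hg
  exact ⟨_, qs_iff.mp (this ▸ hx), this⟩

theorem ringChar_ne_two (H : St ρ) : ringChar k ≠ 2 := fun e => H.two (by
  have : ((2 : ℕ) : k) = 0 := (ringChar.spec k 2).mpr (e ▸ dvd_rfl)
  have h := congrArg k.subtype this
  rw [map_natCast, map_zero] at h
  exact_mod_cast h)

theorem ker_ph (H : St ρ) (hs : Rt ρ k s) (h0 : s ≠ 0) :
    LinearMap.ker (ph k s) = LinearMap.range (ph k s) := by
  apply le_antisymm
  · intro v hv
    exact ker_eq_range H hs h0 hv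
  · rintro _ ⟨w, rfl⟩
    rw [LinearMap.mem_ker, ← Module.End.mul_apply, ← map_mul, hs.1, map_zero]; rfl

variable [Finite K]

theorem qd_of (H : St ρ) (hs : Rt ρ k s) (h0 : s ≠ 0) : ph k s ∈ QD (Gh ρ k) := by
  refine ⟨qs_iff.mpr hs, fun h => h0 (ph_inj (by rw [h, map_zero])), fun x hx hx0 => ?_⟩
  obtain ⟨t, ht, rfl⟩ := exists_of_qs hx
  have h1 := rk_add_ker (ph k s)
  have h2 := rk_add_ker (ph k t)
  rw [ker_ph H hs h0] at h1
  rw [ker_ph H ht fun h => hx0 (by rw [h, map_zero])] at h2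
  unfold rk at *
  omega

theorem Rt.tst (H : St ρ) (h3 : Nat.card k ≠ 3) (hs : Rt ρ k s) (ht : Rt ρ k t) : Rt ρ k (t * s * t) := by
  by_cases h0 : t = 0
  · rw [h0, mul_zero]; exact Rt.zero
  have := (zz_mul_mem (ringChar_ne_two H) h3 (qs_iff.mpr hs) (qd_of H ht h0)).1
  rw [zz_mul_right (qs_iff.mpr ht).1, ← map_mul, ← map_mul] at this
  exact qs_iff.mp this

theorem Rt.comm (H : St ρ) (h3 : Nat.card k ≠ 3) (hs : Rt ρ k s) (ht : Rt ρ k t) (h : t * s * t = 0) :
    s * t = t * s := by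
  by_contra hne
  have hs0 : s ≠ 0 := by rintro rfl; simp at hne
  have ht0 : t ≠ 0 := by rintro rfl; simp at hne
  have h' : ph k t * ph k s * ph k t = 0 := by rw [← map_mul, ← map_mul, h, map_zero]
  have h1 := (comm_struct (ringChar_ne_two H) h3 (qd_of H hs hs0) (qd_of H ht ht0) h' (by
    rw [← map_mul, ← map_mul, ← map_sub]
    exact fun e => hne (sub_eq_zero.mp (ph_inj (by rw [e, map_zero]))))).2.1
  rw [Submodule.eq_bot_iff] at h1
  apply ht0
  apply ph_inj (k := k)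
  rw [map_zero]
  refine LinearMap.ext fun m => h1 _ ⟨?_, m, rfl⟩
  rw [← ker_ph H hs hs0]
  refine h1 _ ⟨⟨_, rfl⟩, ?_⟩
  rw [← ker_ph H ht ht0]
  exact congrArg (fun f : Module.End k (I4 → K) => f m) h'

theorem Rt.invpair (H : St ρ) (h3 : Nat.card k ≠ 3) (hs : Rt ρ k s) (ht : Rt ρ k t)
    (h : t * s * t ≠ 0) : ∃ y, Rt ρ k y ∧ t * y * t = t ∧ y * t * y = y := by
  have hs0 : s ≠ 0 := by rintro rfl; simp at h
  have ht0 : t ≠ 0 := by rintro rfl; simp at h
  obtain ⟨y, hy, -, h1, h2⟩ := exists_invpair (ringChar_ne_two H) h3 (qd_of H hs hs0) (qd_of H ht ht0) (by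
    rw [← map_mul, ← map_mul]
    exact fun e => h (ph_inj (by rw [e, map_zero])))
  obtain ⟨y, hy', rfl⟩ := exists_of_qs (Esp.qs hy)
  exact ⟨y, hy', ph_inj (k := k) (by rw [map_mul, map_mul, h1]),
    ph_inj (k := k) (by rw [map_mul, map_mul, h2])⟩

omit [Finite K] in
theorem eq_top_of_normal (H : St ρ) (hs : Rt ρ k s) (h0 : s ≠ 0) (N : Subgroup G) (hN : N.Normal)
    (h : ∀ g, Lf ρ g (1 + s) → g ∈ N) : N = ⊤ := by
  have := H.simple
  refine hN.eq_bot_or_eq_top.resolve_left fun e => h0 ?_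
  obtain ⟨g, hg⟩ := hs.mem
  have h1 := h g hg
  rw [e, Subgroup.mem_bot] at h1
  obtain ⟨c, -, hc⟩ := (h1 ▸ hg).scalar
  have h2 : s = (c - 1) • (1 : M4 K) := by rw [sub_smul, ← hc]; simp
  have h3 := hs.1
  rw [h2, smul_mul_smul_comm, mul_one, smul_eq_zero, mul_self_eq_zero] at h3
  rw [h2, h3.resolve_right one_ne_zero, zero_smul]

omit [Finite K] in
/-- The root elements generate the group. -/
theorem eq_top_of_roots (H : St ρ) (hs : Rt ρ k s) (h0 : s ≠ 0) (N : Subgroup G)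
    (h : ∀ g r, Rt ρ k r → Lf ρ g (1 + r) → g ∈ N) : N = ⊤ := by
  let S : Set G := {g | ∃ r, Rt ρ k r ∧ Lf ρ g (1 + r)}
  have h1 := eq_top_of_normal H hs h0 (Subgroup.normalClosure S) inferInstance fun g hg =>
    Subgroup.subset_normalClosure ⟨s, hs, hg⟩
  rw [eq_top_iff, ← h1]
  refine (Subgroup.closure_le _).mpr fun x hx => ?_
  obtain ⟨g, ⟨r, hr, hg⟩, hx⟩ := Group.mem_conjugatesOfSet_iff.mp hx
  obtain ⟨y, rfl⟩ := isConj_iff.mp hx
  obtain ⟨W, hW⟩ := exists_lf ρ y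
  have e : W * r = W * r * W⁻¹ * W := by rw [mul_assoc _ W⁻¹, hW.inv_mul, mul_one]
  exact h _ _ (hr.conj hW.mem e) (hW.conj hg (by rw [mul_add, add_mul, ← e]; simp))

/-- The elements whose lifts commute with a set of matrices. -/
def Ct (ρ : G →* PGL(I4, K)) (S : Set (M4 K)) : Subgroup G where
  carrier := {g | ∃ A, Lf ρ g A ∧ ∀ M ∈ S, M * A = A * M}
  one_mem' := ⟨1, Lf.one, by simp⟩
  mul_mem' := fun ⟨A, hA, h1⟩ ⟨B, hB, h2⟩ => ⟨A * B, hA.mul hB, fun M hM => by
    rw [← mul_assoc, h1 M hM, mul_assoc, h2 M hM, mul_assoc]⟩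
  inv_mem' := fun ⟨A, hA, h1⟩ => ⟨A⁻¹, hA.inv, fun M hM => by
    calc M * A⁻¹ = A⁻¹ * (A * M) * A⁻¹ := by rw [← mul_assoc, hA.inv_mul, one_mul]
      _ = A⁻¹ * M := by rw [← h1 M hM, mul_assoc, mul_assoc, hA.mul_inv, mul_one]⟩

omit [Finite K] in
theorem Ct_eq_1' : type_of% @Ct.eq_1 := @Ct.eq_1

omit [Finite K] in
theorem scalar_of_Ct (H : St ρ) {S : Set (M4 K)} (h : Ct ρ S = ⊤) {M : M4 K} (hM : M ∈ S) :
    ∃ c : K, M = c • 1 := by
  refine H.scalar_of_comm fun A ⟨g, hg⟩ => ?_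
  obtain ⟨B, hB, h1⟩ : g ∈ Ct ρ S := h ▸ Subgroup.mem_top g
  obtain ⟨c, -, rfl⟩ := hB.uniq hg
  rw [mul_smul_comm, smul_mul_assoc, h1 M hM]

omit [Finite K] in
theorem scalar_of_comm_roots (H : St ρ) (hs : Rt ρ k s) (h0 : s ≠ 0) {M : M4 K}
    (h : ∀ r, Rt ρ k r → M * r = r * M) : ∃ c : K, M = c • 1 :=
  scalar_of_Ct H (S := {M}) (eq_top_of_roots H hs h0 _ fun g r hr hg => ⟨_, hg, by
    rintro _ rfl
    rw [mul_add, add_mul, h r hr]; simp⟩) rfl

omit [Finite K] in
theorem isUnit_of_ker {ι : Type*} [Fintype ι] [DecidableEq ι] {M : Matrix ι ι K}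
    (h : ∀ v, M *ᵥ v = 0 → v = 0) : IsUnit M :=
  mulVec_injective_iff_isUnit.mp fun v w e => sub_eq_zero.mp (h _ (by rw [mulVec_sub, e, sub_self]))

omit [Finite K] in
theorem ad_ne_zero : ad (1 : M2 K) 0 ≠ 0 := by
  intro h
  have := congrFun (congrFun h (Sum.inl 0)) (Sum.inr 0)
  simp [ad] at this

section Std

variable (H : St ρ) (h3 : Nat.card k ≠ 3) (he : Rt ρ k (ad 1 0)) (hf : Rt ρ k (ad 0 1))

/-- The upper root group. -/
def AA (ρ : G →* PGL(I4, K)) (k : Subfield K) : AddSubgroup (M2 K) where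
  carrier := {m | Rt ρ k (ad m 0)}
  zero_mem' := by
    have : ad (0 : M2 K) 0 = 0 := by simp [ad]
    change Rt ρ k _
    rw [this]
    exact Rt.zero
  add_mem' := fun ha hb => by
    have := Rt.add ha hb (by simp [ad_mul_ad, dg]) (by simp [ad_mul_ad, dg])
    rwa [ad_add_ad, add_zero] at this
  neg_mem' := fun ha => by
    have := Rt.neg ha
    rwa [neg_ad, neg_zero] at this

omit [Finite K] in
theorem AA_eq_1' : type_of% @AA.eq_1 := @AA.eq_1

omit [Finite K] in
include he hf in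
theorem swap_iff {m : M2 K} : Rt ρ k (ad 0 m) ↔ m ∈ AA ρ k := by
  have hw : Mem ρ (ad 1 (-1)) := ((he.mem.mul hf.neg.mem).mul he.mem).congr (by
    rw [← fromBlocks_one]
    simp only [ad, fromBlocks_add, fromBlocks_neg, fromBlocks_multiply]
    simp)
  constructor
  · intro h
    have := h.conj hw (t := ad (-m) 0) (by simp [ad_mul_ad])
    simpa using (AA ρ k).neg_mem this
  · intro h
    have := Rt.conj h hw (t := ad 0 (-m)) (by simp [ad_mul_ad])
    simpa [neg_ad] using this.neg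

include H h3 he hf

theorem js : JS (AA ρ k) where
  two := H.two
  one := he
  half := fun a ha => by
    have := Rt.smul ha (c := 2⁻¹) (k.inv_mem (ofNat_mem k 2))
    rwa [smul_ad, smul_zero] at this
  aba := fun a ha b hb => by
    have := Rt.tst H h3 ((swap_iff he hf).mpr hb) ha
    rwa [ad_mul_ad, dg_mul_ad, mul_zero] at this
  unit := fun a ha h0 => by
    refine isUnit_of_ker fun v hv => ?_
    obtain ⟨w, hw⟩ := ker_eq_range H ha (fun e => h0 (by
      rw [show (0 : M4 K) = ad 0 0 by simp [ad], ad_inj] at e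
      exact e.1)) (v := Sum.elim 0 v) (by
        rw [ad, fromBlocks_mulVec]
        simp [hv])
    rw [ad, fromBlocks_mulVec] at hw
    ext i
    simpa using (congrFun hw (Sum.inr i)).symm

theorem ur_mem {a b c d : M2 K} (h : Rt ρ k (fromBlocks a b c d)) : b ∈ AA ρ k := by
  have := Rt.tst H h3 h hf
  rw [← swap_iff he hf]
  simpa [ad, fromBlocks_multiply] using this

omit hf in
theorem ll_mem {a b c d : M2 K} (h : Rt ρ k (fromBlocks a b c d)) : c ∈ AA ρ k := by
  have := Rt.tst H h3 h he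
  change Rt ρ k _
  simpa [ad, fromBlocks_multiply] using this

theorem diag_mem {a b c d m : M2 K} (h : Rt ρ k (fromBlocks a b c d)) (hm : m ∈ AA ρ k) :
    m * d - a * m ∈ AA ρ k := by
  have h1 := ur_mem H h3 he hf (h.conj (Rt.mem hm)
    (t := fromBlocks (a + m * c) (b + (m * d - a * m) - m * c * m) c (d - c * m)) (by
      rw [← fromBlocks_one]
      simp only [ad, fromBlocks_add, fromBlocks_multiply, fromBlocks_inj]
      refine ⟨?_, ?_, ?_, ?_⟩ <;> noncomm_ring))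
  have h2 := (AA ρ k).sub_mem ((AA ρ k).add_mem h1 ((js H h3 he hf).aba _ hm _ (ll_mem H h3 he h)))
    (ur_mem H h3 he hf h)
  convert h2 using 1
  abel

theorem scalar_of_mem {x : M2 K} (hx : x ∈ AA ρ k) : ∃ c : K, x = c • 1 := by
  have J := js H h3 he hf
  obtain ⟨c, hc⟩ := scalar_of_comm_roots H he ad_ne_zero (M := dg x x) (by
    intro r hr
    rw [← fromBlocks_toBlocks r] at hr ⊢
    generalize r.toBlocks₁₁ = a, r.toBlocks₁₂ = b, r.toBlocks₂₁ = c, r.toBlocks₂₂ = d at hr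
    have hδ := J.comm hx (diag_mem H h3 he hf hr J.one)
    have hw := J.comm hx (diag_mem H h3 he hf hr hx)
    rw [one_mul, mul_one] at hδ
    have ha : x * a = a * x := J.comm_of_comm_comm hx (by
      have e : x * a - a * x = (x * d - a * x) - x * (d - a) := by noncomm_ring
      rw [e, mul_sub x (x * d - a * x), hw, sub_mul (x * d - a * x) _ x, mul_assoc x (d - a), ← hδ])
    have hd : x * d = d * x := by
      rw [mul_sub, sub_mul, ha] at hδ
      exact sub_left_injective hδ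
    simp [dg, fromBlocks_multiply, ha, hd, J.comm hx (ur_mem H h3 he hf hr),
      J.comm hx (ll_mem H h3 he hr)])
  rw [← dg_smul_one, dg_inj] at hc
  exact ⟨c, hc.1⟩

theorem root_shape (hr : Rt ρ k r) : (∀ x, dg x x * r = r * dg x x) ∨ ∃ a, r = dg a a := by
  have J := js H h3 he hf
  rw [← fromBlocks_toBlocks r] at hr ⊢
  generalize r.toBlocks₁₁ = a, r.toBlocks₁₂ = b, r.toBlocks₂₁ = c, r.toBlocks₂₂ = d at hr
  obtain ⟨β, rfl⟩ := scalar_of_mem H h3 he hf (ur_mem H h3 he hf hr)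
  obtain ⟨γ, rfl⟩ := scalar_of_mem H h3 he hf (ll_mem H h3 he hr)
  obtain ⟨δ, hδ⟩ := scalar_of_mem H h3 he hf (diag_mem H h3 he hf hr J.one)
  rw [one_mul, mul_one, sub_eq_iff_eq_add'] at hδ
  subst hδ
  have h2 := hr.1
  rw [fromBlocks_multiply, ← fromBlocks_zero, fromBlocks_inj] at h2
  obtain ⟨e1, e2, e3, e4⟩ := h2
  by_cases hs : (2 : K) • a + δ • (1 : M2 K) = 0
  · left
    intro x
    have : a = (-(2⁻¹ * δ)) • (1 : M2 K) := by
      have h5 := congrArg (fun y => (2⁻¹ : K) • y) (eq_neg_of_add_eq_zero_left hs)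
      simpa [smul_smul, inv_mul_cancel₀ H.two] using h5
    rw [this]
    simp [dg, fromBlocks_multiply, mul_add, add_mul]
  · right
    have key : ∀ l : K, l • ((2 : K) • a + δ • (1 : M2 K)) = 0 → l = 0 := fun l hl =>
      (smul_eq_zero.mp hl).resolve_right hs
    have hβ : β = 0 := key β (by
      rw [← e2]; simp only [smul_mul_assoc, mul_smul_comm, one_mul, mul_one]; module)
    have hγ : γ = 0 := key γ (by
      rw [← e3]; simp only [smul_mul_assoc, mul_smul_comm, one_mul, mul_one]; module)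
    subst hβ hγ
    have hδ : δ = 0 := key δ (by
      rw [← sub_zero (0 : M2 K)]
      nth_rewrite 1 [← e4]
      rw [← e1]
      simp only [add_mul, mul_add, smul_mul_assoc, mul_smul_comm, one_mul, mul_one]
      module)
    exact ⟨a, by simp [hδ, dg]⟩

theorem false_of_std : False := by
  let S : Set (M4 K) := Set.range fun x : M2 K => dg x x
  have hN : (Ct ρ S).Normal := by
    rw [← Subgroup.normalizer_eq_top_iff]
    refine eq_top_of_roots H he ad_ne_zero _ fun g r hr hg => ?_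
    rcases root_shape H h3 he hf hr with h | ⟨a, rfl⟩
    · refine Subgroup.le_normalizer ⟨_, hg, ?_⟩
      rintro _ ⟨x, rfl⟩
      rw [mul_add, add_mul, h x]; simp
    · refine Subgroup.centralizer_le_normalizer _ ?_
      rintro y ⟨A, hA, h⟩
      refine H.comm_of hA hg (c := 1) ?_
      rw [one_smul, mul_add, add_mul, h _ ⟨a, rfl⟩]; simp
  have h1 := eq_top_of_normal H he ad_ne_zero _ hN fun g hg => ⟨_, hg, by
    rintro _ ⟨x, rfl⟩
    rw [mul_add, add_mul, dg_mul_ad, ad_mul_dg]; simp⟩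
  obtain ⟨c, hc⟩ := scalar_of_Ct H h1 (M := dg !![0, 1; 0, 0] !![0, 1; 0, 0]) ⟨_, rfl⟩
  have := congrFun (congrFun hc (Sum.inl 0)) (Sum.inl 1)
  simp [dg] at this

end Std

theorem noQ (H : St ρ) : NoQ ρ := by
  intro k h3 s hs2 hsm
  have hs : Rt ρ k s := ⟨hs2, hsm⟩
  by_contra h0
  obtain ⟨t, ht, hst⟩ : ∃ t, Rt ρ k t ∧ s * t * s ≠ 0 := by
    by_contra hc
    push Not at hc
    obtain ⟨c, hc⟩ := scalar_of_comm_roots H hs h0 (M := s) fun r hr => (Rt.comm H h3 hr hs (hc r hr)).symm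
    rw [hc, smul_mul_smul_comm, mul_one, smul_eq_zero, mul_self_eq_zero] at hs2
    exact h0 (by rw [hc, hs2.resolve_right one_ne_zero, zero_smul])
  obtain ⟨y, hy, h1, -⟩ := Rt.invpair H h3 ht hs hst
  obtain ⟨u, hu⟩ := exists_linearIndependent_of_le_finrank (two_le_finrank H hs h0)
  choose w hw using fun i => (u i).2
  let W : Matrix I4 (Fin 2) K := Matrix.of fun r i => w i r
  have hU : ∀ v, (s * W) *ᵥ v = 0 → v = 0 := by
    intro v hv
    refine funext (Fintype.linearIndependent_iff.mp hu v (Subtype.ext ?_))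
    rw [ZeroMemClass.coe_zero, ← hv, ← mulVec_mulVec]
    simp only [AddSubmonoidClass.coe_finsetSum, SetLike.val_smul, ← hw, toLin'_apply, ← mulVec_smul]
    rw [← mulVec_sum]
    congr 1
    ext r
    simp [W, mulVec, dotProduct, mul_comm]
  have e1 : s * (s * W) = 0 := by rw [← Matrix.mul_assoc, hs2, Matrix.zero_mul]
  have e2 : s * (y * (s * W)) = s * W := by rw [← Matrix.mul_assoc, ← Matrix.mul_assoc, h1]
  have e3 : y * (y * (s * W)) = 0 := by rw [← Matrix.mul_assoc, hy.1, Matrix.zero_mul]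
  obtain ⟨B, hB⟩ : IsUnit (fromCols (s * W) (y * (s * W))) := by
    refine isUnit_of_ker fun v hv => ?_
    rw [fromCols_mulVec] at hv
    have h2 := congrArg (s *ᵥ ·) hv
    simp only [mulVec_add, mulVec_mulVec, e1, e2, zero_mulVec, zero_add, mulVec_zero] at h2
    have h3 := hU _ h2
    rw [h3, mulVec_zero, add_zero] at hv
    have h4 := hU _ hv
    ext (i | i)
    · exact congrFun h4 i
    · exact congrFun h3 i
  refine false_of_std (H.cj B) h3 (hs.cj ?_) (hy.cj ?_)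
  · rw [hB, mul_fromCols, ad, fromCols_mul_fromBlocks, e1, e2]; simp
  · rw [hB, mul_fromCols, ad, fromCols_mul_fromBlocks, e3]; simp

end Qr

theorem wQ : WQ.{u} := fun _ _ _ _ _ _ _ H => Qr.noQ H

end Cfsg.Lib.Four
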