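import Cfsg.Agent.Class.Four.Defs
import Cfsg.Agent.Char.Burnside
import Cfsg.Agent.Known.PresAlt

/-!
# The nonsolvable subgroups of `S₆`
-/

set_option autoImplicit false

namespace Cfsg.Lib.Four

open Equiv Equiv.Perm Cfsg.Lib.Known

namespace S6

/-- Six points as the digits of a number. -/
def enc (a b c d e f : ℕ) : ℕ :=
  .add (.add (.add (.add (.add a (.mul 8 b)) (.mul 64 c)) (.mul 512 d)) (.mul 4096 e)) (.mul 32768 f)

theorem enc_eq_1' : type_of% @enc.eq_1 := @enc.eq_1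

/-- A digit. -/
def ap (n i : ℕ) : ℕ := .mod (.div n (.pow 8 i)) 8

theorem ap_eq_1' : type_of% @ap.eq_1 := @ap.eq_1

/-- Composition of encoded permutations. -/
def cp (n m : ℕ) : ℕ :=
  enc (ap n (ap m 0)) (ap n (ap m 1)) (ap n (ap m 2)) (ap n (ap m 3)) (ap n (ap m 4)) (ap n (ap m 5))

theorem cp_eq_1' : type_of% @cp.eq_1 := @cp.eq_1

/-- The code of a permutation. -/
def code (π : Perm (Fin 6)) : ℕ := enc (π 0) (π 1) (π 2) (π 3) (π 4) (π 5)

theorem code_eq_1' : type_of% @code.eq_1 := @code.eq_1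

/-- The value of a word. -/
def ev (gs : List ℕ) (w : List ℕ) : ℕ := w.foldr (fun i x => cp (gs.getD i 181896) x) 181896

theorem ev_eq_1' : type_of% @ev.eq_1 := @ev.eq_1

theorem ap_code (π : Perm (Fin 6)) (i : Fin 6) : ap (code π) i = π i := by
  have h0 := (π 0).2; have h1 := (π 1).2; have h2 := (π 2).2
  have h3 := (π 3).2; have h4 := (π 4).2; have h5 := (π 5).2
  show (π 0 + 8 * π 1 + 64 * π 2 + 512 * π 3 + 4096 * π 4 + 32768 * π 5 : ℕ) / 8 ^ (i : ℕ) % 8 = _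
  fin_cases i <;> simp only [Fin.zero_eta, Fin.mk_one, Fin.reduceFinMk] <;> omega

theorem code_mul (π σ : Perm (Fin 6)) : code (π * σ) = cp (code π) (code σ) := by
  have := ap_code σ
  rw [cp, show ap (code σ) 0 = σ 0 from this 0, show ap (code σ) 1 = σ 1 from this 1,
    show ap (code σ) 2 = σ 2 from this 2, show ap (code σ) 3 = σ 3 from this 3,
    show ap (code σ) 4 = σ 4 from this 4, show ap (code σ) 5 = σ 5 from this 5]
  simp only [ap_code]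
  rfl

theorem code_inj {π σ : Perm (Fin 6)} (h : code π = code σ) : π = σ :=
  Equiv.ext fun i => Fin.ext (by rw [← ap_code, h, ap_code])

theorem forall_code {P : ℕ → Prop} (h : ∀ a b : Fin 6, a ≠ b → ∀ c : Fin 6, a ≠ c ∧ b ≠ c →
    ∀ d : Fin 6, a ≠ d ∧ b ≠ d ∧ c ≠ d → ∀ e : Fin 6, a ≠ e ∧ b ≠ e ∧ c ≠ e ∧ d ≠ e →
    ∀ f : Fin 6, a ≠ f ∧ b ≠ f ∧ c ≠ f ∧ d ≠ f ∧ e ≠ f → P (enc a b c d e f)) (π : Perm (Fin 6)) :
    P (code π) := h _ _ (by simp) _ (by simp) _ (by simp) _ (by simp) _ (by simp)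

/-- The number is the code of an element of `H`. -/
def In (H : Subgroup (Perm (Fin 6))) (n : ℕ) : Prop := ∃ π ∈ H, code π = n

theorem In_eq_1' : type_of% @In.eq_1 := @In.eq_1

variable {H : Subgroup (Perm (Fin 6))}

theorem In.ev {gs : List ℕ} (h : ∀ x ∈ gs, In H x) (w : List ℕ) : In H (ev gs w) := by
  induction w with
  | nil => exact ⟨1, H.one_mem, show _ = 181896 by decide⟩
  | cons i w ih =>
    obtain ⟨σ, hσ, e⟩ := ih
    have : In H (gs.getD i 181896) := by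
      rw [List.getD_eq_getElem?_getD]
      cases e : gs[i]? with
      | none => exact ⟨1, H.one_mem, by decide⟩
      | some x => exact h x (List.mem_of_getElem? e)
    obtain ⟨π, hπ, f⟩ := this
    exact ⟨π * σ, H.mul_mem hπ hσ, by rw [code_mul, e, f]; rfl⟩

theorem In.mem {π : Perm (Fin 6)} {n : ℕ} (h : In H n) (e : code π = n) : π ∈ H := by
  obtain ⟨σ, hσ, f⟩ := h
  rwa [code_inj (e.trans f.symm)]

/-- An element of order five. -/
def c0 : Perm (Fin 6) := swap 0 3 * swap 0 4 * swap 0 2 * swap 0 1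

theorem c0_eq_1' : type_of% @c0.eq_1 := @c0.eq_1

/-- An involution. -/
def y0 : Perm (Fin 6) := swap 2 3 * swap 4 5

theorem y0_eq_1' : type_of% @y0.eq_1 := @y0.eq_1

/-- An element of order four. -/
def t0 : Perm (Fin 6) := swap 1 4 * swap 1 3 * swap 1 2

theorem t0_eq_1' : type_of% @t0.eq_1 := @t0.eq_1

theorem in_c (h : c0 ∈ H) : In H 176401 := ⟨_, h, by decide⟩

theorem in_y (h : y0 ∈ H) : In H 152776 := ⟨_, h, by decide⟩

attribute [local instance 2000] List.decidableBAll List.decidableBEx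

set_option synthInstance.maxSize 1000 in
theorem chk1 (π : Perm (Fin 6)) : cp (code π) (cp (code π) (code π)) = 181896 → code π = 181896 ∨
    ∃ v ∈ [[1], [0, 1, 0, 0, 0, 0], [0, 0, 1, 0, 0, 0], [0, 0, 0, 1, 0, 0], [0, 0, 0, 0, 1, 0]], ∃ w ∈ [[1, 0, 1, 1, 0, 1], [0, 0, 1, 0, 1, 0, 0], [0, 1], [0, 1, 1, 0, 1, 1], [1], [0, 1, 0, 1], [1, 0, 0,
      1, 0], [1, 0, 0, 0, 1], [1, 1, 0], [1, 1, 0, 1, 0, 1, 1], [1, 0, 0, 1], [0, 1, 0, 0, 0, 1]],
      ev [176401, ev [176401, code π] v] w ∈ [181777, 152776] :=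
  forall_code (P := fun n => cp n (cp n n) = 181896 → n = 181896 ∨
    ∃ v ∈ [[1], [0, 1, 0, 0, 0, 0], [0, 0, 1, 0, 0, 0], [0, 0, 0, 1, 0, 0], [0, 0, 0, 0, 1, 0]], ∃ w ∈ [[1, 0, 1, 1, 0, 1], [0, 0, 1, 0, 1, 0, 0], [0, 1], [0, 1, 1, 0, 1, 1], [1], [0, 1, 0, 1], [1, 0, 0,
      1, 0], [1, 0, 0, 0, 1], [1, 1, 0], [1, 1, 0, 1, 0, 1, 1], [1, 0, 0, 1], [0, 1, 0, 0, 0, 1]],
      ev [176401, ev [176401, n] v] w ∈ [181777, 152776]) (by decide +kernel) π

theorem step1 (hc : c0 ∈ H) {g : Perm (Fin 6)} (hg : g ∈ H) (h3 : orderOf g = 3) :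
    c3 2 0 1 ∈ H ∨ y0 ∈ H := by
  have := pow_orderOf_eq_one g
  rw [h3, pow_three] at this
  rcases chk1 g (by rw [← code_mul, ← code_mul, this]; decide) with e | ⟨v, -, w, -, e⟩
  · rw [code_inj (σ := 1) (e.trans (by decide)), orderOf_one] at h3
    omega
  · have k : In H (ev [176401, ev [176401, code g] v] w) := In.ev (by
      simpa using ⟨in_c hc, In.ev (by simpa using ⟨in_c hc, g, hg, rfl⟩) v⟩) w
    rcases List.mem_pair.1 e with e | e <;> rw [e] at k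
    · exact Or.inl (k.mem (by decide))
    · exact Or.inr (k.mem (by decide))

/-- The elements of `L₂(5)`. -/
def L60 : List ℕ := [181896, 176401, 152776, 164578, 139609, 120849, 168988, 131755, 115522, 22114, 84505, 174147,
  136725, 103720, 13644, 86787, 53404, 17515, 145986, 106597, 10473, 71520, 35155, 9997, 49365, 47272,
  101004, 17053, 77932, 50730, 15009, 35610, 78373, 67369, 43744, 6931, 67789, 46341, 21204, 54307,
  72388, 132189, 107052, 135402, 99681, 6490, 42820, 88152, 141835, 104581, 165460, 168099, 82251,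
  153217, 117328, 178186, 172824, 144208, 119050, 181441]

theorem L60_eq_1' : type_of% @L60.eq_1 := @L60.eq_1

/-- Coset representatives with words. -/
def R10 : List (ℕ × List ℕ) := [(117314, [2, 2]), (153154, [2, 2]), (181826, [2, 2]), (181777, [2]), (178242, [2, 2]), (177416, [0,
  2, 2]), (45228, [2, 2, 0]), (177409, [0, 2, 2]), (151761, [2, 1]), (166027, [2, 0])]

theorem R10_eq_1' : type_of% @R10.eq_1 := @R10.eq_1

theorem chk2 : L60 = List.map (ev [176401, 152776]) [[], [0], [1], [0, 0], [1, 0], [0, 1], [0, 0, 0], [1, 0, 0], [0, 1, 0], [0, 0, 1], [1, 0, 1], [0, 0,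
    0, 0], [1, 0, 0, 0], [0, 1, 0, 0], [0, 0, 1, 0], [1, 0, 1, 0], [0, 0, 0, 1], [1, 0, 0, 1], [0, 1, 0,
    1], [0, 1, 0, 0, 0], [0, 0, 1, 0, 0], [1, 0, 1, 0, 0], [0, 0, 0, 1, 0], [1, 0, 0, 1, 0], [1, 0, 0,
    0, 1], [0, 1, 0, 0, 1], [0, 0, 1, 0, 1], [0, 0, 1, 0, 0, 0], [1, 0, 1, 0, 0, 0], [0, 0, 0, 1, 0, 0],
    [1, 0, 0, 1, 0, 0], [1, 0, 0, 0, 1, 0], [0, 1, 0, 0, 0, 1], [0, 0, 1, 0, 0, 1], [1, 0, 1, 0, 0, 1],
    [0, 0, 0, 1, 0, 1], [1, 0, 0, 1, 0, 1], [0, 0, 0, 1, 0, 0, 0], [1, 0, 0, 1, 0, 0, 0], [1, 0, 0, 0,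
    1, 0, 0], [0, 1, 0, 0, 0, 1, 0], [0, 0, 1, 0, 0, 0, 1], [1, 0, 1, 0, 0, 0, 1], [0, 0, 0, 1, 0, 0,
    1], [1, 0, 0, 1, 0, 0, 1], [1, 0, 0, 0, 1, 0, 1], [1, 0, 0, 0, 1, 0, 0, 0], [0, 1, 0, 0, 0, 1, 0,
    0], [0, 0, 1, 0, 0, 0, 1, 0], [1, 0, 1, 0, 0, 0, 1, 0], [1, 0, 0, 1, 0, 0, 0, 1], [1, 0, 0, 0, 1, 0,
    0, 1], [0, 1, 0, 0, 0, 1, 0, 0, 0], [0, 0, 1, 0, 0, 0, 1, 0, 0], [1, 0, 1, 0, 0, 0, 1, 0, 0], [1, 0,
    0, 1, 0, 0, 0, 1, 0], [0, 1, 0, 0, 0, 1, 0, 0, 1], [0, 0, 1, 0, 0, 0, 1, 0, 0, 0], [1, 0, 1, 0, 0,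
    0, 1, 0, 0, 0], [1, 0, 0, 1, 0, 0, 0, 1, 0, 0]] := by decide +kernel

theorem chk3 : ∀ r ∈ R10, ev [176401, 152776, r.1] r.2 = 181777 := by decide +kernel

theorem chk4 (π : Perm (Fin 6)) :
    ∃ l ∈ L60, cp l (code π) = 181896 ∨ cp l (code π) = 170192 ∨ ∃ r ∈ R10, cp l (code π) = r.1 := by
  have := forall_code (P := fun n => (L60.any fun l =>
    (181896 :: 170192 :: R10.map Prod.fst).any (Nat.beq (cp l n))) = true) (by decide +kernel) π
  obtain ⟨l, hl, h⟩ := List.any_eq_true.1 this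
  obtain ⟨x, hx, h⟩ := List.any_eq_true.1 h
  rw [← Nat.eq_of_beq_eq_true h, List.mem_cons, List.mem_cons, List.mem_map] at hx
  exact ⟨l, hl, hx.imp_right (Or.imp_right fun ⟨r, hr, e⟩ => ⟨r, hr, e.symm⟩)⟩

theorem step2 (π : Perm (Fin 6)) : (∀ H : Subgroup (Perm (Fin 6)), c0 ∈ H → y0 ∈ H → π ∈ H) ∨
    (∀ H : Subgroup (Perm (Fin 6)), c0 ∈ H → y0 ∈ H → t0 * π⁻¹ ∈ H) ∨
    ∀ H : Subgroup (Perm (Fin 6)), c0 ∈ H → y0 ∈ H → π ∈ H → c3 2 0 1 ∈ H := by
  obtain ⟨l, hl, h⟩ := chk4 π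
  have k : ∀ H : Subgroup (Perm (Fin 6)), c0 ∈ H → y0 ∈ H → ∃ σ ∈ H, code (σ * π) = cp l (code π) :=
    fun H h1 h2 => by
      rw [chk2] at hl
      obtain ⟨w, -, rfl⟩ := List.mem_map.1 hl
      obtain ⟨σ, hσ, e⟩ := In.ev (H := H) (gs := [176401, 152776]) (by simpa using ⟨in_c h1, in_y h2⟩) w
      exact ⟨σ, hσ, by rw [code_mul, e]⟩
  rcases h with h | h | ⟨r, hr, h⟩
  · refine Or.inl fun H h1 h2 => ?_
    obtain ⟨σ, hσ, e⟩ := k H h1 h2
    rw [eq_inv_of_mul_eq_one_right (code_inj (σ := 1) (e.trans (h.trans (by decide))))]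
    exact H.inv_mem hσ
  · refine Or.inr (Or.inl fun H h1 h2 => ?_)
    obtain ⟨σ, hσ, e⟩ := k H h1 h2
    rwa [← code_inj (σ := t0) (e.trans (h.trans (by decide))), mul_inv_cancel_right]
  · refine Or.inr (Or.inr fun H h1 h2 h3 => ?_)
    obtain ⟨σ, hσ, e⟩ := k H h1 h2
    have := In.ev (H := H) (gs := [176401, 152776, r.1])
      (by simpa using ⟨in_c h1, in_y h2, _, H.mul_mem hσ h3, e.trans h⟩) r.2
    rw [chk3 r hr] at this
    exact this.mem (by decide)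

theorem tot_mul {a b : Perm (Fin 6)} (ha : Tot a) (hb : Tot b) : Tot (a * b) := fun i j k l h1 h2 h3 =>
  ha _ _ _ _ (b.injective.ne h1) (b.injective.ne h2) (hb i j k l h1 h2 h3)

/-- The stabiliser of the one-factorisation. -/
def TG : Subgroup (Perm (Fin 6)) where
  carrier := {π | Tot π}
  one_mem' := fun _ _ _ _ _ _ h => h
  mul_mem' := tot_mul
  inv_mem' := fun {a} ha => by
    have : ∀ n : ℕ, Tot (a ^ n) := fun n => by
      induction n with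
      | zero => exact fun _ _ _ _ _ _ h => h
      | succ n ih => rw [pow_succ]; exact tot_mul ih ha
    rw [inv_eq_of_mul_eq_one_left (b := a) (a := a ^ (orderOf a - 1)) (by
      rw [← pow_succ, Nat.sub_add_cancel (orderOf_pos a), pow_orderOf_eq_one])]
    exact this _

theorem TG_eq_1' : type_of% @TG.eq_1 := @TG.eq_1

theorem mem_TG {π : Perm (Fin 6)} : π ∈ TG ↔ Tot π := Iff.rfl

theorem idx2 {P : Subgroup (Perm (Fin 6))} (h1 : H ≤ P) (h2 : ∀ π ∈ P, sign π = 1 → π ∈ H) :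
    (∀ π, π ∈ H ↔ sign π = 1 ∧ π ∈ P) ∨ ∀ π, π ∈ H ↔ π ∈ P := by
  by_cases h : ∀ π ∈ H, sign π = 1
  · exact Or.inl fun π => ⟨fun e => ⟨h π e, h1 e⟩, fun e => h2 π e.2 e.1⟩
  push Not at h
  obtain ⟨g, hg, e⟩ := h
  refine Or.inr fun π => ⟨fun e => h1 e, fun hπ => ?_⟩
  rcases Int.units_eq_one_or (sign π) with f | f
  · exact h2 π hπ f
  · refine (H.mul_mem_cancel_left hg).1 (h2 _ (P.mul_mem (h1 hg) hπ) ?_)
    rw [map_mul, f, (Int.units_eq_one_or _).resolve_left e, neg_mul_neg, one_mul]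

theorem shape (hc : c0 ∈ H) {g : Perm (Fin 6)} (hg : g ∈ H) (h3 : orderOf g = 3) :
    ∃ n, ∀ π, π ∈ H ↔ sh n π := by
  by_cases hx : c3 2 0 1 ∈ H
  · have k : ∀ w, In H (ev [176401, 181777] w) := In.ev (by simpa using ⟨in_c hc, _, hx, by decide⟩)
    have h5 : altOn {i | i ≠ 5} ≤ H := altOn_le_of_c3 (α := 0) (β := 1) (by decide) fun i h0 h1 h2 => by
      obtain rfl | rfl | rfl : i = 2 ∨ i = 3 ∨ i = 4 := by revert i; decide
      · exact hx
      · exact (k [0, 0, 0, 0, 1, 0]).mem (by decide)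
      · exact (k [1, 0, 0, 0, 1, 0]).mem (by decide)
    by_cases h : ∀ π ∈ H, π 5 = 5
    · rcases idx2 (P := MulAction.stabilizer _ (5 : Fin 6)) h
        (fun π h1 h2 => h5 ⟨h2, fun x hx => by rw [not_not.1 hx]; exact h1⟩) with e | e
      exacts [⟨0, e⟩, ⟨1, e⟩]
    push Not at h
    obtain ⟨σ, hσ, e⟩ := h
    obtain ⟨b, d, h1, h2, h3, h4, h6⟩ := (by decide : ∀ a : Fin 6, ∃ b d, b ≠ d ∧ b ≠ a ∧ d ≠ a ∧ b ≠ 5 ∧ d ≠ 5)
      (σ⁻¹ 5)
    have n : ∀ x, x ≠ σ⁻¹ 5 → σ x ≠ 5 := fun x hx e => hx (Perm.eq_inv_iff_eq.2 e)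
    have h6 : altOn Set.univ ≤ H := altOn_le_of_c3 (σ.injective.ne h1) fun i _ i1 i2 => by
      by_cases e' : i = 5
      · have := H.mul_mem (H.mul_mem hσ (h5 (c3_mem_altOn h2.symm h3.symm
          (fun f => e (Perm.inv_eq_iff_eq.1 f).symm) h4 h6))) (H.inv_mem hσ)
        rwa [conj_c3, show σ (σ⁻¹ 5) = 5 from σ.apply_symm_apply 5, ← e'] at this
      · exact h5 (c3_mem_altOn i1 i2 e' (n b h2) (n d h3))
    rcases idx2 (P := ⊤) le_top (fun π _ h2 => h6 ⟨h2, fun x hx => absurd trivial hx⟩) with e | e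
    · exact ⟨2, fun π => (e π).trans (and_iff_left trivial)⟩
    · exact ⟨3, e⟩
  have hy := (step1 hc hg h3).resolve_left hx
  have t1 : c0 ∈ TG := mem_TG.2 (by decide +kernel)
  have t2 : y0 ∈ TG := mem_TG.2 (by decide +kernel)
  rcases idx2 (H := H) (P := TG) (fun π hπ => by
      rcases step2 π with e | e | e
      · exact e _ t1 t2
      · exact inv_mem_iff.1 ((TG.mul_mem_cancel_left (mem_TG.2 (by decide +kernel))).1 (e _ t1 t2))
      · exact absurd (e _ hc hy hπ) hx)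
    (fun π hπ hs => by
      rcases step2 π with e | e | e
      · exact e _ hc hy
      · have := mem_alternatingGroup.1 (e (alternatingGroup _)
          (mem_alternatingGroup.2 (by decide +kernel)) (mem_alternatingGroup.2 (by decide +kernel)))
        rw [map_mul, map_inv, hs] at this
        exact absurd this (by decide +kernel)
      · exact absurd (mem_TG.1 (e _ t1 t2 hπ)) (by decide +kernel)) with e | e
  exacts [⟨4, e⟩, ⟨5, e⟩]

theorem exists_ord {Γ : Subgroup (Perm (Fin 6))} (h : ¬ Group.IsSolvable Γ) {p : ℕ} (hp : p = 3 ∨ p = 5) :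
    ∃ g ∈ Γ, orderOf g = p := by
  have : Fact p.Prime := ⟨by rcases hp with rfl | rfl <;> norm_num⟩
  have hd : Nat.card Γ ∣ 720 := by
    have := Γ.card_subgroup_dvd_card
    rwa [Nat.card_perm, Nat.card_fin] at this
  have : p ∣ Nat.card Γ := by
    by_contra e
    have hc := ((Nat.Prime.coprime_iff_not_dvd Fact.out).2 e).symm
    rcases hp with rfl | rfl
    · exact h (Char.isSolvable_of_card_dvd (a := 4) (b := 1) Nat.prime_two Nat.prime_five _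
        ((hc.pow_right 2).dvd_of_dvd_mul_left hd))
    · exact h (Char.isSolvable_of_card_dvd (a := 4) (b := 2) Nat.prime_two Nat.prime_three _
        (hc.dvd_of_dvd_mul_left hd))
  obtain ⟨g, hg⟩ := exists_prime_orderOf_dvd_card' p this
  exact ⟨g, g.2, by rw [Subgroup.orderOf_coe, hg]⟩

end S6

open S6 in
theorem wS6 : WS6 := fun Γ h => by
  obtain ⟨g, hg, g5⟩ := exists_ord h (Or.inr rfl)
  obtain ⟨x, hx, x3⟩ := exists_ord h (Or.inl rfl)
  have : Fact (Nat.Prime 5) := ⟨Nat.prime_five⟩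
  have c5 : orderOf c0 = 5 := orderOf_eq_prime (by decide) (by decide)
  have k : ∀ a : Perm (Fin 6), orderOf a = 5 → a.IsCycle := fun a e =>
    isCycle_of_prime_order' (e ▸ Nat.prime_five) (by rw [e]; decide)
  obtain ⟨σ, e⟩ := isConj_iff.1 ((k _ c5).isConj (k _ g5) (by rw [← (k _ c5).orderOf, ← (k _ g5).orderOf, c5, g5]))
  obtain ⟨n, hn⟩ := shape (H := Γ.comap (MulAut.conj σ).toMonoidHom) (g := σ⁻¹ * x * σ)
    (show σ * c0 * σ⁻¹ ∈ Γ from e ▸ hg) (by simpa [mul_assoc] using hx)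
    (by rw [← x3, ← (MulAut.conj σ⁻¹).orderOf_eq x]; simp)
  exact ⟨σ, n, hn⟩

end Cfsg.Lib.Four
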