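import Cfsg.Agent.Class.Four.Base
import Cfsg.Agent.Mit.PGL2p

/-!
# The icosahedral obstruction
-/

set_option autoImplicit false

namespace Cfsg.Lib.Four

open Matrix Cfsg.Geo Cfsg.Lib.Class Cfsg.Lib.Class.Asch Cfsg.Lib.Mit
open scoped MatrixGroups commutatorElement

universe u

namespace Tri

variable {K : Type*} [Field K] {G : Type*} [Group G] {ρ : G →* PGL(I4, K)}

/-- Two anticommuting involutory matrices generate a matrix algebra. -/
theorem exists_hom (h2 : (2 : K) ≠ 0) {α β : M4 K} (hα : α * α = 1) (hβ : β * β = 1)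
    (h : β * α = -(α * β)) : ∃ Φ : M2 K →ₐ[K] M4 K, ∀ x : M2 K,
      Φ x = ((x 0 0 + x 1 1) / 2) • (1 : M4 K) + ((x 0 0 - x 1 1) / 2) • α +
        ((x 0 1 + x 1 0) / 2) • β + ((x 0 1 - x 1 0) / 2) • (α * β) := by
  have e1 : ∀ y, α * (α * y) = y := fun y => by rw [← mul_assoc, hα, one_mul]
  have e2 : ∀ y, β * (α * y) = -(α * (β * y)) := fun y => by
    rw [← mul_assoc, h, neg_mul, mul_assoc]
  let f : M2 K →ₗ[K] M4 K :=
    { toFun := fun x => ((x 0 0 + x 1 1) / 2) • (1 : M4 K) + ((x 0 0 - x 1 1) / 2) • α +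
        ((x 0 1 + x 1 0) / 2) • β + ((x 0 1 - x 1 0) / 2) • (α * β)
      map_add' := fun x y => by
        simp only [Matrix.add_apply]
        module
      map_smul' := fun c x => by
        simp only [Matrix.smul_apply, smul_eq_mul, RingHom.id_apply]
        module }
  refine ⟨AlgHom.ofLinearMap f ?_ fun x y => ?_, fun _ => rfl⟩
  · simp only [f, LinearMap.coe_mk, AddHom.coe_mk, Matrix.one_apply_eq, Matrix.one_apply_ne (show (0 : Fin 2) ≠ 1 by decide),
      Matrix.one_apply_ne (show (1 : Fin 2) ≠ 0 by decide)]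
    match_scalars <;> field_simp <;> ring
  · simp only [f, LinearMap.coe_mk, AddHom.coe_mk, Matrix.mul_apply, Fin.sum_univ_two, add_mul,
      mul_add, smul_mul_assoc, mul_smul_comm, one_mul, mul_one, mul_assoc, hα, hβ, h, e1, e2,
      mul_neg]
    match_scalars <;> field_simp <;> ring

variable [Finite K] (p : ℕ) [hp : Fact p.Prime] [CharP K p]

omit [Finite K] in
theorem eq_zero (hQ : NoQ ρ) (h3 : p ≠ 3) {s : M4 K} (h : s * s = 0) (hm : Mem ρ (1 + s)) :
    s = 0 := by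
  refine hQ ⊥ (by rwa [Subfield.card_bot K p]) s h fun c hc => ?_
  obtain ⟨n, rfl⟩ := (mem_bot_iff_intCast p K).1 hc
  have key : ∀ n : ℕ, Mem ρ (1 + (n : K) • s) := fun n => by
    induction n with
    | zero => simpa using Mem.one
    | succ n ih =>
      refine (ih.mul hm).congr ?_
      simp only [add_mul, mul_add, smul_mul_assoc, one_mul, mul_one, h, Nat.cast_succ]
      module
  obtain ⟨m, rfl | rfl⟩ := n.eq_nat_or_neg
  · simpa using key m
  · refine (key m).inv_of ?_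
    simp only [add_mul, mul_add, smul_mul_assoc, mul_smul_comm, one_mul, mul_one, h]
    push_cast
    module

omit [Finite K] in
theorem sq_eq_zero {y : M2 K} (hd : y.det = 1) (h : y ^ p = 1) : (y - 1) * (y - 1) = 0 := by
  have h1 : (y - 1) ^ p = 0 := by
    rw [sub_pow_char_of_commute p (Commute.one_right y), h, one_pow, sub_self]
  have h2 : (y - 1).det = 0 := by
    have := congrArg Matrix.det h1
    rw [Matrix.det_pow, Matrix.det_zero] at this
    exact pow_eq_zero_iff hp.out.ne_zero |>.1 this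
  rw [Matrix.det_fin_two] at hd h2
  simp at h2
  ext i j
  fin_cases i <;> fin_cases j <;> simp [Matrix.mul_apply, Fin.sum_univ_two]
  · linear_combination -h2 + (y 0 0 - 1) * (hd - h2)
  · linear_combination (y 0 1) * (hd - h2)
  · linear_combination (y 1 0) * (hd - h2)
  · linear_combination -h2 + (y 1 1 - 1) * (hd - h2)

/-- The elements of `SL₂` represented in the group. -/
def X (ρ : G →* PGL(I4, K)) (Φ : M2 K →ₐ[K] M4 K) : Subgroup (GL (Fin 2) K) where
  carrier := {x | (x : M2 K).det = 1 ∧ Mem ρ (Φ x)}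
  one_mem' := ⟨by simp, by simpa using Mem.one⟩
  mul_mem' := fun {a b} ha hb => ⟨by rw [Units.val_mul, det_mul, ha.1, hb.1, one_mul],
    by rw [Units.val_mul, map_mul]; exact ha.2.mul hb.2⟩
  inv_mem' := fun {a} ha => ⟨by
      have := congrArg Matrix.det a.inv_mul
      rwa [det_mul, ha.1, mul_one, det_one] at this,
    ha.2.inv_of (by rw [← map_mul, a.mul_inv, map_one])⟩

theorem not_dvd (h2 : (2 : K) ≠ 0) (hQ : NoQ ρ) (h3 : p ≠ 3) (Φ : M2 K →ₐ[K] M4 K) :
    ¬ p ∣ Nat.card ((X ρ Φ).map ProjGenLinGroup.mk) := fun h => by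
  obtain ⟨⟨_, x, hx, rfl⟩, ho⟩ := exists_prime_orderOf_dvd_card' p h
  rw [← Subgroup.orderOf_coe] at ho
  change orderOf (ProjGenLinGroup.mk x) = p at ho
  have h1 := pow_orderOf_eq_one (ProjGenLinGroup.mk x)
  rw [ho, ← map_pow, mk_eq_one_iff] at h1
  obtain ⟨c, -, hc⟩ := h1
  have h4 : c * c = 1 := by
    have := congrArg Matrix.det hc
    rw [Units.val_pow_eq_pow_val, det_pow, hx.1, one_pow, det_smul, det_one, Fintype.card_fin,
      mul_one, pow_two] at this
    exact this.symm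
  have h5 : ((x * x : GL (Fin 2) K) : M2 K) ^ p = 1 := by
    rw [← Units.val_pow_eq_pow_val, ← pow_two, ← pow_mul, mul_comm, pow_mul, pow_two,
      Units.val_mul, hc, smul_mul_smul, h4, one_mul, one_smul]
  have h6 := (X ρ Φ).mul_mem hx hx
  have h7 := eq_zero p hQ h3 (s := Φ (((x * x : GL (Fin 2) K) : M2 K) - 1))
    (by rw [← map_mul, sq_eq_zero p h6.1 h5, map_zero])
    (by rw [map_sub, map_one, add_sub_cancel]; exact h6.2)
  have h8 : ((x * x : GL (Fin 2) K) : M2 K) - 1 = 0 :=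
    (Φ : M2 K →+* M4 K).injective (h7.trans (map_zero _).symm)
  have h9 : ProjGenLinGroup.mk x ^ 2 = 1 := by
    rw [pow_two, ← map_mul, show x * x = 1 from Units.ext (sub_eq_zero.1 h8), map_one]
  have h10 := orderOf_dvd_of_pow_eq_one h9
  rw [ho, Nat.prime_dvd_prime_iff_eq hp.out Nat.prime_two] at h10
  subst h10
  exact h2 (CharP.cast_eq_zero K 2)

theorem s4_three (a b : Equiv.Perm (Fin 4)) (ha : a ^ 3 = 1) (hb : b ^ 3 = 1) :
    (a * b) ^ 2 = 1 ∨ (a * b) ^ 3 = 1 := by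
  revert a b
  decide +kernel

/-- The product of two elements of order three of a `p'`-subgroup of `PGL₂`. -/
theorem three {H : Subgroup PGL(2, K)} (hH : ¬ p ∣ Nat.card H) {a b : PGL(2, K)} (haH : a ∈ H)
    (hbH : b ∈ H) (ha : a ^ 3 = 1) (hb : b ^ 3 = 1) :
    (a * b) ^ 2 = 1 ∨ (a * b) ^ 3 = 1 ∨ (a * b) ^ 5 = 1 := by
  have key : a * b = b * a → (a * b) ^ 2 = 1 ∨ (a * b) ^ 3 = 1 ∨ (a * b) ^ 5 = 1 := fun e =>
    .inr (.inl (by rw [Commute.mul_pow e, ha, hb, one_mul]))
  have k2 : ∀ {c : PGL(2, K)}, c ^ 3 = 1 → c * c = 1 → c = 1 := fun {c} h1 h2 => by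
    rwa [pow_succ, pow_two, h2, one_mul] at h1
  rcases pgl2_cases p hH with h | ⟨x, y, hxy, h⟩ | h | ⟨⟨e⟩⟩ | h
  · exact key (h a haH b hbH)
  · by_cases h1 : a * a = 1
    · exact key (by rw [k2 ha h1, one_mul, mul_one])
    by_cases h2 : b * b = 1
    · exact key (by rw [k2 hb h2, one_mul, mul_one])
    exact key (commute_of_mem_fixPair hxy (mem_fixPair_of_mul_self_ne hxy (h haH) h1)
      (mem_fixPair_of_mul_self_ne hxy (h hbH) h2))
  · exact (pow_of_equiv_A4 h ⟨a * b, mul_mem haH hbH⟩).imp (congrArg Subtype.val)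
      fun e => .inl (congrArg Subtype.val e)
  · rcases s4_three (e ⟨a, haH⟩) (e ⟨b, hbH⟩)
      (by rw [← map_pow, map_eq_one_iff _ e.injective]; exact Subtype.ext ha)
      (by rw [← map_pow, map_eq_one_iff _ e.injective]; exact Subtype.ext hb) with h1 | h1 <;>
      rw [← map_mul, ← map_pow, map_eq_one_iff _ e.injective] at h1
    exacts [.inl (congrArg Subtype.val h1), .inr (.inl (congrArg Subtype.val h1))]
  · exact (pow_of_equiv_A5 h ⟨a * b, mul_mem haH hbH⟩).imp (congrArg Subtype.val)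
      (Or.imp (congrArg Subtype.val) (congrArg Subtype.val))

omit [Finite K] hp [CharP K p] in
theorem cube {x : GL (Fin 2) K} (h : (x : M2 K) * x + x + 1 = 0) : ProjGenLinGroup.mk x ^ 3 = 1 := by
  rw [← map_pow, show x ^ 3 = 1 from Units.ext ?_, map_one]
  rw [Units.val_pow_eq_pow_val, Units.val_one, ← sub_eq_zero]
  calc (x : M2 K) ^ 3 - 1 = ((x : M2 K) - 1) * (x * x + x + 1) := by noncomm_ring
    _ = 0 := by rw [h, mul_zero]

theorem main (h2 : (2 : K) ≠ 0) (h3 : (3 : K) ≠ 0) {H : Subgroup PGL(2, K)}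
    (hH : ¬ p ∣ Nat.card H) {a b : GL (Fin 2) K} (ha : ProjGenLinGroup.mk a ∈ H)
    (hb : ProjGenLinGroup.mk b ∈ H) (ha3 : (a : M2 K) * a + a + 1 = 0)
    (hb3 : (b : M2 K) * b + b + 1 = 0) {g : M2 K} (hg : (a : M2 K) * b = g)
    (e : g * g = (1 / 2 : K) • g - 1) (h0 : g 0 1 ≠ 0) : False := by
  have key : ∀ (n : ℕ) (u v : K), g ^ n = u • g - v • (1 : M2 K) →
      ((ProjGenLinGroup.mk a * ProjGenLinGroup.mk b) ^ n = 1 ↔ u = 0) := fun n u v h => by
    rw [← map_mul, ← map_pow, mk_eq_one_iff, Units.val_pow_eq_pow_val, Units.val_mul, hg]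
    refine ⟨fun ⟨c, _, hc⟩ => ?_, fun hu => ⟨-v, fun hv => ?_, by rw [h, hu]; module⟩⟩
    · have := congrFun (congrFun (h.symm.trans hc) 0) 1
      simpa [h0] using this
    · rw [hu, neg_eq_zero.1 hv, zero_smul, zero_smul, sub_zero, ← hg, ← Units.val_mul,
        ← Units.val_pow_eq_pow_val] at h
      exact Units.ne_zero _ h
  have e2 : g ^ 2 = (1 / 2 : K) • g - (1 : K) • (1 : M2 K) := by rw [pow_two, e, one_smul]
  have e3 : g ^ 3 = (-3 / 4 : K) • g - (1 / 2 : K) • (1 : M2 K) := by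
    rw [pow_succ, e2, sub_mul, smul_mul_assoc, smul_mul_assoc, e, one_mul]
    have h4 : (4 : K) ≠ 0 := by rw [show (4 : K) = 2 * 2 by norm_num]; exact mul_ne_zero h2 h2
    match_scalars <;> field_simp <;> ring
  have e5 : g ^ 5 = (5 * (1 / 2) ^ 4 : K) • g - (-7 * (1 / 2) ^ 3 : K) • (1 : M2 K) := by
    rw [show g ^ 5 = g ^ 3 * g ^ 2 from pow_add g 3 2, e2, e3]
    simp only [sub_mul, mul_sub, smul_mul_assoc, mul_smul_comm, e, one_mul, mul_one]
    have h4 : (4 : K) ≠ 0 := by rw [show (4 : K) = 2 * 2 by norm_num]; exact mul_ne_zero h2 h2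
    match_scalars <;> field_simp <;> ring
  rcases three p hH ha hb (cube ha3) (cube hb3) with h | h | h
  · exact one_div_ne_zero h2 ((key _ _ _ e2).1 h)
  · have h4 : (4 : K) ≠ 0 := by rw [show (4 : K) = 2 * 2 by norm_num]; exact mul_ne_zero h2 h2
    exact div_ne_zero (neg_ne_zero.2 h3) h4 ((key _ _ _ e3).1 h)
  · have h5 : (5 : K) = 0 := (mul_eq_zero.1 ((key _ _ _ e5).1 h)).resolve_right
      (pow_ne_zero _ (one_div_ne_zero h2))
    have h6 : p = 5 := (Nat.prime_dvd_prime_iff_eq hp.out (by norm_num)).1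
      ((CharP.cast_eq_zero_iff K p 5).1 h5)
    subst h6
    refine hH (orderOf_eq_prime h (fun h1 => ?_) ▸ Subgroup.orderOf_dvd_natCard H (mul_mem ha hb))
    exact one_ne_zero ((key 1 1 0 (by simp)).1 (by rw [h1, one_pow]))

end Tri

theorem wTri : WTri.{u} := by
  intro K _ _ G _ _ ρ H hQ h3 a b ha hb ea eb e
  have h2 := H.two
  obtain ⟨ω, hω⟩ := H.om
  obtain ⟨p, _⟩ := CharP.exists K
  have hp : Fact p.Prime := ⟨CharP.char_is_prime K p⟩
  have hp3 : p ≠ 3 := by
    rintro rfl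
    exact h3 (CharP.cast_eq_zero K 3)
  have hθ : (2 * ω + 1) * (2 * ω + 1) = -3 := by linear_combination 4 * hω
  have hθ0 : 2 * ω + 1 ≠ 0 := fun h => h3 (by rw [h] at hθ; linear_combination hθ)
  have hθ1 : 1 + ω * 2 ≠ 0 := by rwa [add_comm, mul_comm]
  have hθ2 : ω * 2 + 1 ≠ 0 := by rwa [mul_comm]
  have hω0 : ω ≠ 0 := fun h => one_ne_zero (by rw [h] at hω; linear_combination hω)
  have ea' : a * a = -a - 1 := by rw [← sub_eq_zero, ← ea]; abel
  have eb' : b * b = -b - 1 := by rw [← sub_eq_zero, ← eb]; abel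
  have e' : b * a = -(a * b) - a - b - (1 / 2 : K) • (1 : M4 K) := by
    rw [ea', eb'] at e
    simp only [sub_mul, mul_sub, neg_mul, mul_neg, one_mul, mul_one] at e
    have h1 : (1 : M4 K) = (1 / 2 : K) • (1 : M4 K) + (1 / 2 : K) • (1 : M4 K) := by
      match_scalars; field_simp; ring
    rw [← sub_eq_zero, ← sub_eq_zero.2 e]
    nth_rw 2 [h1]
    abel
  have sq : ∀ {c : M4 K}, c * c = -c - 1 → ((2 * ω + 1)⁻¹ • ((2 : K) • c + 1)) *
      ((2 * ω + 1)⁻¹ • ((2 : K) • c + 1)) = 1 := fun {c} h => by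
    simp only [add_mul, mul_add, smul_mul_assoc, mul_smul_comm, one_mul, mul_one, h]
    match_scalars <;> field_simp
    · ring
    · linear_combination -4 * hω
  obtain ⟨Φ, hΦ⟩ := Tri.exists_hom h2 (sq ea') (sq eb') (by
    simp only [add_mul, mul_add, smul_mul_assoc, mul_smul_comm, one_mul, mul_one, e']
    match_scalars <;> field_simp <;> ring)
  have da : (!![ω, 0; 0, -ω - 1] : M2 K).det = 1 := by
    rw [det_fin_two_of]; linear_combination -hω
  have db : (!![-1 / 2, (2 * ω + 1) / 2; (2 * ω + 1) / 2, -1 / 2] : M2 K).det = 1 := by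
    rw [det_fin_two_of]; field_simp; linear_combination -4 * hω
  refine Tri.main p h2 h3 (Tri.not_dvd p h2 hQ hp3 Φ)
    (a := GeneralLinearGroup.mkOfDetNeZero _ (da.trans_ne one_ne_zero))
    (b := GeneralLinearGroup.mkOfDetNeZero _ (db.trans_ne one_ne_zero))
    (Subgroup.mem_map_of_mem _ ⟨da, ha.congr ?_⟩) (Subgroup.mem_map_of_mem _ ⟨db, hb.congr ?_⟩)
    ?_ ?_ rfl ?_ ?_
  · rw [hΦ]
    simp
    match_scalars <;> field_simp <;> ring
  · rw [hΦ]
    simp
    match_scalars <;> field_simp <;> ring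
  · ext i j
    fin_cases i <;> fin_cases j <;> simp [Matrix.mul_apply, Fin.sum_univ_two] <;>
      linear_combination hω
  · ext i j
    fin_cases i <;> fin_cases j <;> simp [Matrix.mul_apply, Fin.sum_univ_two] <;> field_simp <;>
      first | ring1 | linear_combination 4 * hω
  · ext i j
    fin_cases i <;> fin_cases j <;> simp [Matrix.mul_apply, Fin.sum_univ_two] <;> field_simp <;>
      first | ring1 | linear_combination (8 - 4 * (ω ^ 2 + ω + 1)) * hω
  · simp [Matrix.mul_apply, Fin.sum_univ_two, hω0, hθ0, h2]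

end Cfsg.Lib.Four
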