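import Cfsg.Agent.Class.Four.U42A
import Cfsg.Agent.Class.Four.U42B
import Cfsg.Agent.Class.Five.Eig
import Cfsg.Agent.Class.Five.L3Lin

/-!
# `U₄(2)` in dimension four
-/

set_option autoImplicit false

namespace Cfsg.Lib.Four

open Matrix Cfsg.Lib.Class Cfsg.Lib.Mit
open scoped commutatorElement

universe u

namespace U42

section Three

variable {F : Type*} [Field F]

/-- The entries below the `k`-th superdiagonal vanish. -/
def Lv (k : ℕ) (N : Matrix (Fin 4) (Fin 4) F) : Prop :=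
  ∀ i j : Fin 4, j.val < i.val + k → N i j = 0

theorem Lv.mul {k l : ℕ} {M N : Matrix (Fin 4) (Fin 4) F} (hM : Lv k M) (hN : Lv l N) :
    Lv (k + l) (M * N) := fun i j h => by
  rw [mul_apply]
  refine Finset.sum_eq_zero fun m _ => ?_
  by_cases e : m.val < i.val + k
  · rw [hM i m e, zero_mul]
  · rw [hN m j (by omega), mul_zero]

theorem Lv.comm {k l : ℕ} {a b : GL (Fin 4) F} (ha : Lv k (a.1 - 1)) (hb : Lv l (b.1 - 1))
    (ha' : Lv 0 (a⁻¹).1) (hb' : Lv 0 (b⁻¹).1) : Lv (k + l) (⁅a, b⁆.1 - 1) := by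
  have e : ⁅a, b⁆.1 - 1 = ((a.1 - 1) * (b.1 - 1) - (b.1 - 1) * (a.1 - 1)) * (a⁻¹).1 * (b⁻¹).1 := by
    have : (b * a * a⁻¹ * b⁻¹).1 = 1 := by rw [mul_inv_cancel_right, mul_inv_cancel, Units.val_one]
    rw [← this, commutatorElement_def, this, show (a.1 - 1) * (b.1 - 1) - (b.1 - 1) * (a.1 - 1) =
      a.1 * b.1 - b.1 * a.1 by noncomm_ring, sub_mul, sub_mul, ← this]
    rfl
  rw [e]
  refine Lv.mul (k := k + l) (l := 0) (Lv.mul (k := k + l) (l := 0) (fun i j h => ?_) ha') hb'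
  rw [Matrix.sub_apply, ha.mul hb i j h, hb.mul ha i j (by omega), sub_zero]

theorem isTv_of_lv {z : GL (Fin 4) F} (h1 : z ≠ 1) (h : Lv 3 (z.1 - 1)) : IsTv z := by
  have e : (Pi.single 3 1 : Fin 4 → F) ⬝ᵥ Pi.single 0 ((z.1 - 1) 0 3) = 0 := by simp
  refine ⟨h1, _, _, e, Units.ext ?_⟩
  rw [tv_coe e, ← sub_eq_iff_eq_add']
  ext i j
  by_cases k : j.val < i.val + 3
  · rw [h i j k]
    fin_cases i <;> fin_cases j <;> simp_all [vecMulVec_apply]
  · obtain rfl : i = 0 := by omega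
    obtain rfl : j = 3 := by omega
    simp [vecMulVec_apply]

theorem TD.exists_pGroup {G : Type*} [Group G] [Finite G] {T : W → G} (h : TD T) :
    ∃ H : Subgroup G, IsPGroup 3 H ∧ ∃ a ∈ H, ∃ b ∈ H, ⁅b, ⁅b, a⁆⁆ ≠ 1 := by
  obtain ⟨b, hb3, hb⟩ := h.exists_s1
  let E := Subgroup.closure (Set.range fun i => T (pt i))
  have hE : IsMulCommutative E := Subgroup.isMulCommutative_closure (by
    rintro _ ⟨i, rfl⟩ _ ⟨j, rfl⟩
    exact h.comm_pt i j)
  have h3 : ∀ x ∈ E, x ^ 3 = 1 := fun x hx => by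
    induction hx using Subgroup.closure_induction with
    | mem x hx => obtain ⟨i, rfl⟩ := hx; exact h.cube _
    | one => exact one_pow _
    | mul x y hx hy ex ey =>
      rw [Commute.mul_pow (setLike_mul_comm (s := E) hx hy), ex, ey, one_mul]
    | inv x _ ex => rw [inv_pow, ex, inv_one]
  have pE : IsPGroup 3 E := fun x => ⟨1, Subtype.ext (h3 x x.2)⟩
  have pb : IsPGroup 3 (Subgroup.zpowers b) := fun a => ⟨1, by
    obtain ⟨_, k, rfl⟩ := a
    apply Subtype.ext
    simp only [pow_one, SubgroupClass.coe_pow, OneMemClass.coe_one]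
    rw [← zpow_natCast, ← _root_.zpow_mul, mul_comm, _root_.zpow_mul, zpow_natCast, hb3,
      _root_.one_zpow]⟩
  have : Fact (Nat.Prime 3) := ⟨Nat.prime_three⟩
  refine ⟨_, pb.to_sup_of_normal_right' pE (Subgroup.zpowers_le.2
    (Subgroup.normalizer_le_normalizer_closure _ (Subgroup.mem_normalizer_fintype ?_))), T (pt 0),
    Subgroup.mem_sup_right (Subgroup.subset_closure ⟨0, rfl⟩), b,
    Subgroup.mem_sup_left (Subgroup.mem_zpowers b), fun e => ?_⟩
  · rintro _ ⟨i, rfl⟩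
    exact ⟨_, (hb i).symm⟩
  have h0 : b * T (pt 0) * b⁻¹ = T (pt 1) := hb 0
  have h1 : b * T (pt 1) * b⁻¹ = T (pt 2) := hb 1
  have e1 : ⁅b, ⁅b, T (pt 0)⁆⁆ = T (pt 2) * (T (pt 1))⁻¹ * (T (pt 0) * (T (pt 1))⁻¹) := by
    rw [commutatorElement_def b (T (pt 0)), h0, ← h1, ← h0, commutatorElement_def]
    group
  have h2 := h.prod
  have c1 := h.cube (pt 1)
  have c01 : Commute (T (pt 0)) (T (pt 1)) := h.comm_pt 0 1
  have c02 : Commute (T (pt 0)) (T (pt 2)) := h.comm_pt 0 2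
  have c12 : Commute (T (pt 1)) (T (pt 2)) := h.comm_pt 1 2
  have e2 : (T (pt 1))⁻¹ * (T (pt 1))⁻¹ = T (pt 1) := by
    rw [← _root_.mul_inv_rev, inv_eq_iff_mul_eq_one, ← c1, pow_succ, pow_two]
  rw [e1, c01.inv_right.eq, mul_assoc, ← mul_assoc _ _ (T (pt 0)), e2, ← mul_assoc, ← c12.eq,
    mul_assoc, ← c02.eq, ← mul_assoc, ← c01.eq] at e
  rw [e, one_mul] at h2
  exact h.ne_one (by decide) h2

theorem not_three [Finite F] [CharP F 3] {P : Subgroup (GL (Fin 4) F)} {Y : W → P} (h : TD Y)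
    (nt : NoTv P) : False := by
  have : Fact (Nat.Prime 3) := ⟨Nat.prime_three⟩
  obtain ⟨H, hH, a, ha, b, hb, h1⟩ := h.exists_pGroup
  obtain ⟨g, hg⟩ := Five.L3.exists_uni 3 (hH.map P.subtype)
  let c : P →* GL (Fin 4) F := (MulAut.conj g).toMonoidHom.comp P.subtype
  have l0 : ∀ x ∈ H, Lv 0 (c x)⁻¹.1 := fun x hx i j e => by
    rw [← map_inv]
    exact (hg _ ⟨_, inv_mem hx, rfl⟩).1 (show id j < id i from e)
  have l1 : ∀ x ∈ H, Lv 1 ((c x).1 - 1) := fun x hx i j e => by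
    obtain ⟨k1, k2⟩ := hg _ ⟨_, hx, rfl⟩
    rcases Nat.lt_succ_iff_lt_or_eq.1 e with e | e
    · rw [Matrix.sub_apply, one_apply_ne (by omega), sub_zero]
      exact k1 (show id j < id i from e)
    · rw [Fin.ext e, Matrix.sub_apply, one_apply_eq, sub_eq_zero]
      exact k2 i
  have m : ⁅b, a⁆ ∈ H := mul_mem (mul_mem (mul_mem hb ha) (inv_mem hb)) (inv_mem ha)
  have l2 := (l1 b hb).comm (l1 a ha) (l0 b hb) (l0 a ha)
  rw [← map_commutatorElement] at l2
  have l3 := (l1 b hb).comm l2 (l0 b hb) (l0 _ m)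
  rw [← map_commutatorElement] at l3
  have t := (isTv_of_lv (fun e => h1 ((map_eq_one_iff c
    ((MulAut.conj g).injective.comp P.subtype_injective)).1 e)) l3).conj g⁻¹
  refine nt _ (⁅b, ⁅b, a⁆⁆ : P).2 ?_
  convert t using 1
  show _ = g⁻¹ * (g * _ * g⁻¹) * g⁻¹⁻¹
  group
  rfl

end Three

section Coprime

/-- The generating permutations of the four points. -/
def wd (t : Fin 3 × Fin 3 × Fin 3) : Fin 4 → Fin 4 :=
  (![1, 2, 0, 3] : Fin 4 → Fin 4)^[t.1] ∘ (![0, 2, 3, 1] : Fin 4 → Fin 4)^[t.2.1] ∘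
    (![1, 2, 0, 3] : Fin 4 → Fin 4)^[t.2.2]

theorem orb_small : ∀ a : Fin 4 → Fin 3, a 0 = 1 →
    3 ∣ (a 0).val + (a 1).val + (a 2).val + (a 3).val →
    (Finset.univ.image fun t => a ∘ wd t).card ≤ 4 →
    ∀ k : Fin 4, ∃ t, a ∘ wd t = fun i => if i = k then 0 else 1 := by decide +kernel

variable {K : Type*} [Field K] {G : Type*} [Group G] {T : W → G}
  {ρ : G →* Matrix (Fin 4) (Fin 4) K} {w : K}

/-- A weight of the elementary abelian group. -/
def Wt (T : W → G) (ρ : G →* Matrix (Fin 4) (Fin 4) K) (w : K) (a : Fin 4 → Fin 3) : Prop :=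
  ∃ v : Fin 4 → K, v ≠ 0 ∧ ∀ i, ρ (T (pt i)) *ᵥ v = w ^ (a i).val • v

theorem Wt.perm {a : Fin 4 → Fin 3} {s : Fin 4 → Fin 4} {g : G}
    (hg : ∀ i, g * T (pt i) * g⁻¹ = T (pt (s i))) (n : ℕ) (h : Wt T ρ w a) :
    Wt T ρ w (a ∘ s^[n]) := by
  induction n with
  | zero => exact h
  | succ n ih =>
    obtain ⟨v, h0, hv⟩ := ih
    refine ⟨ρ g⁻¹ *ᵥ v, fun e => h0 ?_, fun i => ?_⟩
    · rw [← one_mulVec v, ← map_one ρ, ← mul_inv_cancel g, map_mul, ← mulVec_mulVec, e,
        mulVec_zero]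
    · rw [mulVec_mulVec, ← map_mul, show T (pt i) * g⁻¹ = g⁻¹ * T (pt (s i)) by
        rw [← hg]; group, map_mul, ← mulVec_mulVec, hv, mulVec_smul]
      rfl

theorem Wt.linInd (hw : IsPrimitiveRoot w 3) {κ : Type*} {a : κ → Fin 4 → Fin 3}
    (ha : Function.Injective a) {v : κ → Fin 4 → K} (h0 : ∀ k, v k ≠ 0)
    (h : ∀ k i, ρ (T (pt i)) *ᵥ v k = w ^ (a k i).val • v k) : LinearIndependent K v :=
  Five.linInd_of_char (fun i => (ρ (T (pt i))).mulVecLin) v (fun k i => w ^ (a k i).val) h0 h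
    fun _ _ e => ha (funext fun i => Fin.ext (hw.pow_inj (Fin.isLt _) (Fin.isLt _) (congrFun e i)))

theorem exists_hm [IsAlgClosed K] (h : TD T) (inj : Function.Injective ρ) (h3 : (3 : K) ≠ 0) :
    ∃ w : K, w ^ 2 + w + 1 = 0 ∧ ∀ v, v ≠ 0 → Hm w (ρ (T v)) := by
  classical
  let X := fun i => ρ (T (pt i))
  have X3 : ∀ i, X i ^ 3 = 1 := fun i => by rw [← map_pow, h.cube, map_one]
  have Xc : ∀ i j, X i * X j = X j * X i := fun i j => by
    rw [← map_mul, h.comm_pt, map_mul]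
  obtain ⟨v, hv, h0, hc⟩ := Five.exists_common_eigen (fun i => (X i).mulVecLin)
    (fun i j => by
      rw [Module.End.mul_eq_comp, Module.End.mul_eq_comp, ← mulVecLin_mul, ← mulVecLin_mul, Xc])
    (LinearMap.ker (X 0 * X 0 + X 0 + 1).mulVecLin) (fun e => by
      refine h.ne_one (v := pt 0) (by decide) (inj ?_)
      rw [map_one, ← sub_eq_zero]
      refine mat_ext_mulVec fun x => ?_
      rw [zero_mulVec]
      refine (Submodule.eq_bot_iff _).1 e _ ?_
      rw [LinearMap.mem_ker, mulVecLin_apply, mulVec_mulVec,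
        show (X 0 * X 0 + X 0 + 1) * (X 0 - 1) = X 0 ^ 3 - 1 by noncomm_ring, X3, sub_self,
        zero_mulVec])
    (fun i v hv => by
      rw [LinearMap.mem_ker, mulVecLin_apply] at hv ⊢
      rw [mulVecLin_apply, mulVec_mulVec, show (X 0 * X 0 + X 0 + 1) * X i =
        X i * (X 0 * X 0 + X 0 + 1) by
          rw [mul_add, mul_add, add_mul, add_mul, mul_assoc, Xc 0 i, ← mul_assoc, Xc 0 i, mul_assoc,
            one_mul, mul_one], ← mulVec_mulVec, hv, mulVec_zero])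
  choose c hc using hc
  simp only [mulVecLin_apply] at hc
  have hw : c 0 ^ 2 + c 0 + 1 = 0 := by
    rw [LinearMap.mem_ker, mulVecLin_apply, add_mulVec, add_mulVec, ← mulVec_mulVec, hc,
      mulVec_smul, hc, one_mulVec] at hv
    refine (smul_eq_zero.1 ?_).resolve_right h0
    rw [← hv]
    module
  have c3 : ∀ i, c i ^ 3 = 1 := fun i => by
    refine smul_left_injective K h0 ?_
    have : (X i ^ 3) *ᵥ v = v := by rw [X3, one_mulVec]
    simp only [pow_three, ← mulVec_mulVec, hc, mulVec_smul, smul_smul] at this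
    simpa [pow_three'] using this
  have cp : c 0 * c 1 * c 2 * c 3 = 1 := by
    refine smul_left_injective K h0 ?_
    have : (X 0 * X 1 * X 2 * X 3) *ᵥ v = v := by
      rw [← map_mul, ← map_mul, ← map_mul, h.prod, map_one, one_mulVec]
    simp only [← mulVec_mulVec, hc, mulVec_smul, smul_smul] at this
    simp only [one_smul]
    refine Eq.trans (congrArg (· • v) (by ring)) this
  have : Fact (Nat.Prime 3) := ⟨Nat.prime_three⟩
  have hp : IsPrimitiveRoot (c 0) 3 := by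
    have := IsPrimitiveRoot.orderOf (c 0)
    rwa [orderOf_eq_prime (c3 0) fun e => one_sub_ne hw h3 (by rw [e, sub_self])] at this
  choose n hn hcn using fun i => hp.eq_pow_of_pow_eq_one (c3 i)
  let a : Fin 4 → Fin 3 := fun i => ⟨n i, hn i⟩
  have ha : Wt T ρ (c 0) a := ⟨v, h0, fun i => by rw [hcn]; exact hc i⟩
  obtain ⟨g1, -, hg1⟩ := h.exists_s1
  obtain ⟨g2, -, hg2⟩ := h.exists_s2
  have hb : ∀ t, Wt T ρ (c 0) (a ∘ wd t) := fun t =>
    ((ha.perm hg1 t.1).perm hg2 t.2.1).perm hg1 t.2.2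
  have hd := orb_small a (Fin.ext (hp.pow_inj (hn 0) (by decide) (by rw [hcn]; simp)))
    ((hp.pow_eq_one_iff_dvd _).1 (by rw [pow_add, pow_add, pow_add, hcn, hcn, hcn, hcn, cp])) (by
      have : ∀ b : (Finset.univ.image fun t => a ∘ wd t), Wt T ρ (c 0) b := fun b => by
        obtain ⟨t, -, e⟩ := Finset.mem_image.1 b.2
        exact e ▸ hb t
      choose u u0 hu using this
      have := (Wt.linInd hp Subtype.val_injective u0 hu).fintype_card_le_finrank
      rw [Fintype.card_coe, Module.finrank_fin_fun] at this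
      convert this)
  have : ∀ k : Fin 4, Wt T ρ (c 0) fun i => if i = k then 0 else 1 := fun k => by
    obtain ⟨t, e⟩ := hd k
    exact e ▸ hb t
  choose u u0 hu using this
  have li := Wt.linInd hp (by decide) u0 hu
  let Q : Matrix (Fin 4) (Fin 4) K := (of u)ᵀ
  have hQ : IsUnit Q.det := (isUnit_iff_isUnit_det Q).1 (linearIndependent_cols_iff_isUnit.1 li)
  have hf : ∀ k, Q⁻¹ 0 ⬝ᵥ u k = (1 : Matrix (Fin 4) (Fin 4) K) 0 k := fun k => by
    rw [← nonsing_inv_mul Q hQ]; rfl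
  have h1 : Hm (c 0) (ρ (T (ch 0))) := ⟨u 0, Q⁻¹ 0, by simp [hf], by
    refine ((isUnit_iff_isUnit_det Q).2 hQ).mul_right_cancel ?_
    ext i k
    show (ρ (T (pt 0)) *ᵥ u k) i = (hm (c 0) (u 0) (Q⁻¹ 0) *ᵥ u k) i
    rw [hu, hm, add_mulVec, smul_mulVec, smul_mulVec, one_mulVec, vecMulVec_mulVec, hf]
    by_cases e : 0 = k
    · subst e; simp; ring
    · simp [e, one_apply_ne e]⟩
  refine ⟨c 0, hw, orbit_ind h1 fun i v hv => ?_⟩
  rw [← h.conj, map_mul, map_mul]
  exact hv.conj (by rw [← map_mul, inv_mul_cancel, map_one])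

theorem exists_tr [IsAlgClosed K] (h : TD T) (inj : Function.Injective ρ) (h3 : (3 : K) ≠ 0) :
    ∃ w : K, w ^ 2 + w + 1 = 0 ∧ ∀ σ : K →+* K,
      (σ w = w → ∀ x, σ (ρ x).trace = (ρ x).trace) ∧
      (σ w = w ^ 2 → ∀ x, σ (ρ x).trace = (ρ x⁻¹).trace) := by
  obtain ⟨w, hw, hm⟩ := exists_hm h inj h3
  obtain ⟨A, hA, hn⟩ := exists_nf hw h3 (Y := fun i => ρ (T (ch i)))
    (fun i => hm _ (by revert i; decide))
    (fun i j e k => e ((by decide : ∀ i j, ch i = ch j ∨ ch i = -ch j → i = j) i j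
      (h.inj _ _ (inj k))))
    (fun i j e => by
      simp only [← map_mul]
      rw [h.braid (by revert i j; decide)])
    (fun i j e => by
      simp only [← map_mul]
      rw [h.comm (by revert i j; decide)])
  let M : G →* Matrix (Fin 4) (Fin 4) K :=
    { toFun := fun x => A⁻¹ * ρ x * A
      map_one' := by rw [map_one, mul_one, nonsing_inv_mul A hA]
      map_mul' := fun x y => by
        simp only [map_mul, mul_assoc, mul_nonsing_inv_cancel_left A _ hA] }
  have hM : ∀ i, M (T (ch i)) = nf w i := fun i => by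
    show A⁻¹ * ρ _ * A = _
    rw [mul_assoc, hn, nonsing_inv_mul_cancel_left A _ hA]
  have tr : ∀ x, (M x).trace = (ρ x).trace := fun x => by
    show (A⁻¹ * ρ x * A).trace = _
    rw [trace_mul_comm, mul_nonsing_inv_cancel_left A _ hA]
  clear_value M
  refine ⟨w, hw, fun σ => ⟨fun e x => ?_, fun e x => ?_⟩⟩
  · have : σ.mapMatrix.toMonoidHom.comp M = M := MonoidHom.eq_of_eqOn_dense h.gen' (by
      rintro _ ⟨i, rfl⟩
      show (M _).map σ = _
      rw [hM, nf_map e])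
    rw [← tr, AddMonoidHom.map_trace]
    exact congrArg trace (DFunLike.congr_fun this x)
  · have k : ∀ x, ((M x).map σ)ᵀ * gr w * M x = gr w := fun x => by
      induction h.gen'.ge (Subgroup.mem_top x) using Subgroup.closure_induction with
      | mem x hx => obtain ⟨i, rfl⟩ := hx; rw [hM, nf_herm hw e]
      | one => simp
      | mul x y _ _ ex ey =>
        rw [map_mul, Matrix.map_mul, transpose_mul, ← mul_assoc, mul_assoc _ _ (gr w),
          mul_assoc _ _ (M x), ex, ey]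
      | inv x _ ex =>
        conv_lhs => rw [← ex]
        rw [← mul_assoc, ← mul_assoc, ← transpose_mul, ← Matrix.map_mul, mul_assoc, ← map_mul,
          mul_inv_cancel]
        simp
    have hD := isUnit_iff_ne_zero.2 (det_gr hw h3)
    have k2 : ((M x).map σ)ᵀ = gr w * M x⁻¹ * (gr w)⁻¹ := by
      have : gr w * M x⁻¹ = ((M x).map σ)ᵀ * gr w := by
        conv_lhs => rw [← k x]
        rw [mul_assoc, ← map_mul, mul_inv_cancel, map_one, mul_one]
      rw [this, mul_nonsing_inv_cancel_right _ _ hD]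
    rw [← tr, ← tr, AddMonoidHom.map_trace, ← trace_transpose]
    refine (congrArg trace k2).trans ?_
    rw [trace_mul_comm, nonsing_inv_mul_cancel_left _ _ hD]

end Coprime

end U42

open U42 in
/-- `U₄(2)` in dimension four and odd characteristic. -/
theorem wU42 : WU42.{u} := fun F _ _ P hy h2 hU => by
  obtain ⟨Y, hY⟩ := exists_td_lift hy.qs hU
  obtain ⟨p, hp⟩ := CharP.exists F
  have pp : p.Prime := CharP.char_is_prime F p
  have : Fact p.Prime := ⟨pp⟩
  by_cases p3 : p = 3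
  · subst p3
    exact (not_three hY hy.nt).elim
  have p2 : p ≠ 2 := by
    rintro rfl
    exact h2 (CharP.cast_eq_zero F 2)
  let φ := algebraMap F (Five.AC F)
  have h3 : (3 : Five.AC F) ≠ 0 := fun e =>
    p3 ((Nat.prime_dvd_prime_iff_eq pp Nat.prime_three).1
      ((CharP.cast_eq_zero_iff (Five.AC F) p 3).1 e))
  let ρ : P →* Matrix (Fin 4) (Fin 4) (Five.AC F) :=
    (φ.mapMatrix.toMonoidHom.comp (Units.coeHom _)).comp P.subtype
  have inj : Function.Injective ρ := fun x y e =>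
    Subtype.ext (Units.ext (Matrix.map_injective φ.injective e))
  have tr : ∀ x : P, (ρ x).trace = φ (tr4 x) := fun x => (AddMonoidHom.map_trace φ _).symm
  obtain ⟨w, hw, k⟩ := exists_tr hY inj h3
  obtain ⟨k1, k2⟩ := k (frobenius _ p)
  have w3 : w ^ 3 = 1 := by linear_combination (w - 1) * hw
  have m2 : p % 2 = 1 := pp.eq_two_or_odd.resolve_left p2
  have m3 : p % 3 ≠ 0 := fun e =>
    p3 ((Nat.prime_dvd_prime_iff_eq Nat.prime_three pp).1 (Nat.dvd_of_mod_eq_zero e)).symm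
  have wp : frobenius _ p w = w ^ (p % 3) := by rw [frobenius_def, pow_eq_pow_mod p w3]
  rcases (show p % 6 = 1 ∨ p % 6 = 5 by omega) with m | m
  · refine .inr (.inr ⟨p, pp, hp, .inr (.inl ⟨hU, .inl ⟨card_eq_char4 p hy.qs.env_top hy.ns
      fun x hx => φ.injective ?_, m⟩⟩)⟩)
    have := k1 (by rw [wp, show p % 3 = 1 by omega, pow_one]) ⟨x, hx⟩
    rwa [tr, frobenius_def, ← map_pow] at this
  · rcases out_of_twist p hy.qs.env_top hy.ns (fun x hx => φ.injective (by
      have := k2 (by rw [wp, show p % 3 = 2 by omega]) ⟨x, hx⟩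
      rw [tr, tr, frobenius_def, ← map_pow] at this
      exact this.symm)) with e | e | e
    · exact .inr (.inr ⟨p, pp, hp, .inr (.inl ⟨hU, .inr ⟨e.1, m, e.2⟩⟩)⟩)
    · exact .inl e
    · exact .inr (.inl e)

end Cfsg.Lib.Four
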