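import Cfsg.Agent.Class.Four.Tr
import Cfsg.Agent.Class.SpCore
import Cfsg.Agent.S0822

/-!
# The transvections of `PSp₄(3)` as abstract group data
-/

set_option autoImplicit false

namespace Cfsg.Lib.Four.U42

open Matrix Cfsg.Lib.Class Cfsg.Lib.Mit

/-- Vectors of the natural module. -/
abbrev W := ZMod 3 × ZMod 3 × ZMod 3 × ZMod 3

/-- The alternating form. -/
def bf (x y : W) : ZMod 3 :=
  x.2.2.1 * y.1 + x.2.2.2 * y.2.1 - x.1 * y.2.2.1 - x.2.1 * y.2.2.2

/-- The transvection with centre `v`. -/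
def act (v x : W) : W := x + bf x v • v

/-- The four points of a totally isotropic line. -/
def pt : Fin 4 → W := ![(1, 0, 0, 0), (0, 1, 0, 0), (1, 1, 0, 0), (1, 2, 0, 0)]

/-- A chain basis. -/
def ch : Fin 4 → W := ![(1, 0, 0, 0), (0, 0, 1, 0), (1, 2, 0, 0), (0, 0, 0, 1)]

/-- The distance to the first basis vector. -/
def dp (v : W) : ℕ :=
  [0, 6, 8, 2, 9, 6, 4, 8, 8, 8, 7, 7, 2, 3, 4, 4, 5, 6, 10, 9, 9, 5, 7, 6, 4, 6, 5, 0, 7, 6, 1, 8,
    5, 2, 6, 6, 6, 7, 8, 4, 5, 6, 5, 6, 7, 6, 7, 7, 4, 6, 5, 5, 7, 6, 4, 8, 8, 3, 8, 7, 3, 7, 7, 4,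
    5, 6, 3, 4, 5, 5, 6, 7, 4, 6, 5, 3, 5, 4, 3, 5, 4].getD
    (27 * v.1.val + 9 * v.2.1.val + 3 * v.2.2.1.val + v.2.2.2.val) 0

theorem dp_step : ∀ v : W, v ≠ 0 → v = ch 0 ∨ ∃ i, dp (act (ch i) v) < dp v ∧ act (ch i) v ≠ 0 ∧
    act (ch i) (act (ch i) (act (ch i) v)) = v := by decide +kernel

/-- The chain transvections are transitive on nonzero vectors. -/
theorem orbit_ind {Φ : W → Prop} (h0 : Φ (ch 0)) (h : ∀ i v, Φ v → Φ (act (ch i) v)) (v : W)
    (hv : v ≠ 0) : Φ v := by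
  induction hn : dp v using Nat.strong_induction_on generalizing v with
  | _ n ih =>
    rcases dp_step v hv with rfl | ⟨i, h1, h2, h3⟩
    · exact h0
    · exact h3 ▸ h i _ (h i _ (ih _ (hn ▸ h1) _ h2 rfl))

theorem act_inj : ∀ v w : W, (∀ i, act v (ch i) = act w (ch i)) → v = w ∨ v = -w := by
  decide +kernel

theorem act_neg : ∀ v w : W, ¬ ∀ i, act v (ch i) = -act w (ch i) := by decide +kernel

theorem act_pt : ∀ x, act (pt 0) (act (pt 1) (act (pt 2) (act (pt 3) x))) = x := by decide +kernel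

/-- The class of transvections generating a group. -/
structure TD {G : Type*} [Group G] (T : W → G) : Prop where
  cube : ∀ v, T v ^ 3 = 1
  conj : ∀ v w, T v * T w * (T v)⁻¹ = T (act v w)
  neg : ∀ v, T (-v) = T v
  zero : T 0 = 1
  inj : ∀ v w, T v = T w → v = w ∨ v = -w
  prod : T (pt 0) * T (pt 1) * T (pt 2) * T (pt 3) = 1
  gen : Subgroup.closure (Set.range T) = ⊤

/-- Coordinates. -/
def toV (x : W) : Fin 2 ⊕ Fin 2 → ZMod 3 := Sum.elim ![x.1, x.2.1] ![x.2.2.1, x.2.2.2]

theorem toV_surj (v : Fin 2 ⊕ Fin 2 → ZMod 3) : ∃ x, toV x = v :=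
  ⟨(v (.inl 0), v (.inl 1), v (.inr 0), v (.inr 1)), by
    funext i; rcases i with i | i <;> fin_cases i <;> rfl⟩

theorem toV_inj {x y : W} (h : toV x = toV y) : x = y :=
  Prod.ext (congrFun h (.inl 0)) (Prod.ext (congrFun h (.inl 1))
    (Prod.ext (congrFun h (.inr 0)) (congrFun h (.inr 1))))

theorem toV_neg (x : W) : toV (-x) = -toV x := by
  funext i; rcases i with i | i <;> fin_cases i <;> rfl

theorem toV_zero : toV 0 = 0 := by
  funext i; rcases i with i | i <;> fin_cases i <;> rfl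

/-- The symplectic group. -/
noncomputable abbrev S4 := SpB (sympBilin 2 (ZMod 3))

/-- The transvections of the symplectic group. -/
noncomputable def tS (v : W) : S4 := spT (sympBilin_isAlt 2) (toV v) 1

theorem tS_apply (v x : W) : (tS v).1 (toV x) = toV (act v x) := by
  have : sympBilin 2 (ZMod 3) (toV x) (toV v) = bf x v := by
    rw [sympBilin_apply]
    simp [sympForm, toV, bf, J, dotProduct, mulVec, fromBlocks, Fintype.sum_sum_type,
      Fin.sum_univ_two, one_apply]
    ring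
  rw [tS, coe_spT, altTEquiv_apply', this, one_mul]
  funext i; rcases i with i | i <;> fin_cases i <;> rfl

theorem S4_ext {g h : S4} (e : ∀ x, g.1 (toV x) = h.1 (toV x)) : g = h :=
  Subtype.ext (LinearEquiv.ext fun v => by obtain ⟨x, rfl⟩ := toV_surj v; exact e x)

theorem S4_mul (g h : S4) (x : Fin 2 ⊕ Fin 2 → ZMod 3) : (g * h).1 x = g.1 (h.1 x) := rfl

theorem tS_cube (v : W) : tS v ^ 3 = 1 := by
  rw [pow_three, tS, spT_mul, spT_mul, show (1 + (1 + 1) : ZMod 3) = 0 from rfl, spT_zero]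

theorem exists_td_psp : ∃ T : W → PSp 2 (ZMod 3), TD T := by
  let j : S4 →* PSp 2 (ZMod 3) :=
    (QuotientGroup.mk' _).comp (spEquivSpB 2 (ZMod 3)).symm.toMonoidHom
  have hj : Function.Surjective j :=
    (QuotientGroup.mk'_surjective _).comp (spEquivSpB 2 (ZMod 3)).symm.surjective
  have hk : ∀ g, j g = 1 → g ∈ Subgroup.center S4 := fun g hg => by
    have h1 : (spEquivSpB 2 (ZMod 3)).symm g ∈ Subgroup.center _ :=
      (QuotientGroup.eq_one_iff _).1 hg
    rw [Subgroup.mem_center_iff] at h1 ⊢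
    intro a
    apply (spEquivSpB 2 (ZMod 3)).symm.injective
    rw [map_mul, map_mul, h1]
  clear_value j
  refine ⟨fun v => j (tS v), fun v => by rw [← map_pow, tS_cube, map_one], fun v w => ?_,
    fun v => ?_, ?_, fun v w h => ?_, ?_, ?_⟩
  · rw [← map_inv, ← map_mul, ← map_mul]
    refine congrArg j ?_
    rw [tS.eq_1 w, spT_conj, tS_apply, tS.eq_1 (act v w)]
  · refine congrArg j ?_
    rw [tS, toV_neg, ← neg_one_smul (ZMod 3), spT_smul, tS]
    simp
  · rw [tS, toV_zero, spT_zero_left, map_one]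
  · have h1 := hk ((tS w)⁻¹ * tS v) (by rw [map_mul, map_inv, h, inv_mul_cancel])
    have h2 : ∀ x, (tS v).1 x = (tS w).1 (((tS w)⁻¹ * tS v).1 x) := fun x => by
      rw [← S4_mul, mul_inv_cancel_left]
    rcases (mem_center_SpB_iff (B := sympBilin 2 (ZMod 3)) (sympBilin_nondegenerate 2)
      (sympBilin_isAlt 2) ((tS w)⁻¹ * tS v)).1 h1 with e | e
    · refine act_inj v w fun x => toV_inj ?_
      rw [← tS_apply, h2, e, tS_apply]
    · refine absurd (fun x => toV_inj ?_) (act_neg v w)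
      rw [← tS_apply, h2, e, map_neg, tS_apply, toV_neg]
  · rw [← map_mul, ← map_mul, ← map_mul, ← map_one j]
    refine congrArg j (S4_ext fun x => ?_)
    rw [S4_mul, S4_mul, S4_mul, tS_apply, tS_apply, tS_apply, tS_apply, act_pt]
    rfl
  · have h1 : (Subgroup.closure (Set.range fun v => j (tS v))).comap j = ⊤ := by
      refine SpB_eq_top_of_spT_mem (sympBilin_nondegenerate 2) (sympBilin_isAlt 2) _ fun v c => ?_
      obtain ⟨x, rfl⟩ := toV_surj v
      have h2 : tS x ∈ (Subgroup.closure (Set.range fun v => j (tS v))).comap j :=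
        Subgroup.subset_closure ⟨x, rfl⟩
      have h3 : ∀ c : ZMod 3, c = 0 ∨ c = 1 ∨ c = 1 + 1 := by decide
      rcases h3 c with rfl | rfl | rfl
      · rw [spT_zero]; exact one_mem _
      · exact h2
      · rw [← spT_mul]; exact mul_mem h2 h2
    refine eq_top_iff.2 fun g _ => ?_
    obtain ⟨s, rfl⟩ := hj g
    exact h1.ge (Subgroup.mem_top s)

namespace TD

variable {G : Type*} [Group G] {T : W → G} (h : TD T)
include h

theorem map {H : Type*} [Group H] (e : G ≃* H) : TD fun v => e (T v) where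
  cube v := by rw [← map_pow, h.cube, map_one]
  conj v w := by rw [← map_inv, ← map_mul, ← map_mul, h.conj]
  neg v := by rw [h.neg]
  zero := by rw [h.zero, map_one]
  inj v w k := h.inj v w (e.injective k)
  prod := by rw [← map_mul, ← map_mul, ← map_mul, h.prod, map_one]
  gen := by
    have := congrArg (Subgroup.map e.toMonoidHom) h.gen
    rw [MonoidHom.map_closure, ← Set.range_comp, Subgroup.map_top_of_surjective _ e.surjective]
      at this
    exact this

theorem eq_of {v w : W} (e : v = w ∨ v = -w) : T v = T w := by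
  rcases e with rfl | rfl
  · rfl
  · exact h.neg w

theorem comm {v w : W} (e : bf w v = 0) : T v * T w = T w * T v := by
  have := h.conj v w
  rw [act, e, zero_smul, add_zero] at this
  exact mul_inv_eq_iff_eq_mul.1 this

theorem braid {v w : W} (e : act w (act v w) = v ∨ act w (act v w) = -v) :
    T v * T w * T v = T w * T v * T w := by
  have := h.eq_of e
  rw [← h.conj, ← h.conj] at this
  calc T v * T w * T v = T w * (T v * T w * (T v)⁻¹) * (T w)⁻¹ * T w * T v := by rw [this]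
    _ = _ := by group

theorem ne_one {v : W} (hv : v ≠ 0) : T v ≠ 1 := fun e => by
  rcases h.inj v 0 (e.trans h.zero.symm) with e | e
  · exact hv e
  · exact hv (by simpa using e)

theorem gen' : Subgroup.closure (Set.range fun i => T (ch i)) = ⊤ := by
  rw [eq_top_iff, ← h.gen, Subgroup.closure_le]
  rintro _ ⟨v, rfl⟩
  by_cases hv : v = 0
  · rw [hv, h.zero]; exact one_mem _
  have k : ∀ i, T (ch i) ∈ Subgroup.closure (Set.range fun i => T (ch i)) := fun i =>
    Subgroup.subset_closure ⟨i, rfl⟩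
  refine orbit_ind (Φ := fun v => T v ∈ Subgroup.closure (Set.range fun i => T (ch i))) (k 0)
    (fun i v hv => ?_) v hv
  rw [← h.conj]
  exact mul_mem (mul_mem (k i) hv) (inv_mem (k i))

theorem exists_perm {a b : W} {s : Fin 4 → Fin 4} (e : bf b a = 0)
    (k : ∀ i, act a (act b (act b (pt i))) = pt (s i) ∨ act a (act b (act b (pt i))) = -pt (s i)) :
    ∃ g : G, g ^ 3 = 1 ∧ ∀ i, g * T (pt i) * g⁻¹ = T (pt (s i)) := by
  refine ⟨T a * (T b * T b), ?_, fun i => ?_⟩
  · have c : Commute (T a) (T b) := h.comm e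
    rw [(c.mul_right c).mul_pow, (Commute.refl _).mul_pow, h.cube, h.cube, one_mul, one_mul]
  · rw [← h.eq_of (k i), ← h.conj, ← h.conj, ← h.conj]
    group

theorem exists_s1 : ∃ g : G, g ^ 3 = 1 ∧ ∀ i, g * T (pt i) * g⁻¹ = T (pt (![1, 2, 0, 3] i)) :=
  h.exists_perm (a := (0, 0, 1, 1)) (b := (1, 2, 2, 2)) (by decide) (by decide)

theorem exists_s2 : ∃ g : G, g ^ 3 = 1 ∧ ∀ i, g * T (pt i) * g⁻¹ = T (pt (![0, 2, 3, 1] i)) :=
  h.exists_perm (a := (0, 0, 0, 1)) (b := (1, 0, 0, 1)) (by decide) (by decide)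

theorem comm_pt (i j : Fin 4) : T (pt i) * T (pt j) = T (pt j) * T (pt i) :=
  h.comm (by revert i j; decide)

end TD

theorem exists_td {G : Type*} [Group G] (h : IsU42 G) : ∃ T : W → G, TD T := by
  obtain ⟨K, _, _, hK, ⟨e⟩⟩ := h
  obtain ⟨e'⟩ := Cfsg.Agent.S0822.result (K := ZMod 3) hK (by simp)
  obtain ⟨T, hT⟩ := exists_td_psp
  exact ⟨_, hT.map (e.trans e').symm⟩

/-- The transvections lift to the linear group. -/
theorem exists_td_lift {F : Type*} [Field F] {P : Subgroup (GL (Fin 4) F)} (hP : QS P)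
    (h : IsU42 (Bar P)) : ∃ Y : W → P, TD Y := by
  obtain ⟨T, hT⟩ := exists_td h
  have hπ := proj_bar4 P
  set π := QuotientGroup.mk' ((Geo.scalars (Fin 4) F).subgroupOf P)
  have c : Nat.Coprime 3 (Fintype.card (Fin 4)) := by decide
  choose Y hY hY3 using fun v => hπ.exists_lift hP.le_specialLinear c (hT.cube v)
  have u : ∀ {x y : P}, π x = π y → x ^ 3 = 1 → y ^ 3 = 1 → x = y :=
    hπ.lift_unique hP.le_specialLinear c
  have cj : ∀ v w, Y v * Y w * (Y v)⁻¹ = Y (act v w) := fun v w =>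
    u (by rw [map_mul, map_mul, map_inv, hY, hY, hY, hT.conj])
      (by rw [conj_pow, hY3, mul_one, mul_inv_cancel]) (hY3 _)
  refine ⟨Y, hY3, cj, fun v => u (by rw [hY, hY, hT.neg]) (hY3 _) (hY3 _),
    u (by rw [hY, hT.zero, map_one]) (hY3 _) (one_pow _),
    fun v w e => hT.inj v w (by rw [← hY, e, hY]), u ?_ ?_ (one_pow _), ?_⟩
  · rw [map_mul, map_mul, map_mul, hY, hY, hY, hY, hT.prod, map_one]
  · have cm : ∀ i j, Commute (Y (pt i)) (Y (pt j)) := fun i j => by
      have := cj (pt i) (pt j)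
      rw [(by decide : ∀ i j, act (pt i) (pt j) = pt j)] at this
      exact mul_inv_eq_iff_eq_mul.1 this
    rw [(((cm 0 3).mul_left (cm 1 3)).mul_left (cm 2 3)).mul_pow,
      ((cm 0 2).mul_left (cm 1 2)).mul_pow, (cm 0 1).mul_pow, hY3, hY3, hY3, hY3]
    simp
  · set N := Subgroup.closure (Set.range Y)
    have hN : N.map π = ⊤ := by
      rw [MonoidHom.map_closure, ← Set.range_comp, show π ∘ Y = T from funext hY, hT.gen]
    have : N.Normal := ⟨fun n hn g => by
      obtain ⟨m, hm, e⟩ := hN.ge (Subgroup.mem_top (π g))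
      have e1 : π (m⁻¹ * g) = 1 := by rw [map_mul, map_inv, e, inv_mul_cancel]
      have e2 := comm_of_ker4 hπ e1 n
      have e3 : g * n * g⁻¹ = m * n * m⁻¹ := by
        calc g * n * g⁻¹ = m * (m⁻¹ * g * n) * g⁻¹ := by group
          _ = _ := by rw [e2]; group
      rw [e3]
      exact mul_mem (mul_mem hm hn) (inv_mem hm)⟩
    refine (hP.normal_cases N).resolve_left fun e => hT.ne_one (v := pt 0) (by decide) ?_
    rw [← hY, hπ.ker]
    exact e (Subgroup.subset_closure ⟨_, rfl⟩)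

end Cfsg.Lib.Four.U42
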